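import Mathlib

set_option autoImplicit false
set_option linter.all false

/-! H2/AutZ (helper2): the automorphism group of a group with cyclic derived group and cyclic abelianization
(e.g. of a Z-group) is metabelian. -/

namespace Cfsg.Agent.H2

open Subgroup
open scoped commutatorElement

theorem map_mem_commutator {H : Type*} [Group H] (α : MulAut H) {x : H} (hx : x ∈ commutator H) : α x ∈ commutator H := by
  have h := (Subgroup.characteristic_iff_map_eq.1 (inferInstance : (commutator H).Characteristic)) α
  rw [← h]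
  exact ⟨x, hx, rfl⟩

theorem aut_comm_on_commutator {H : Type*} [Group H] (h1 : IsCyclic (commutator H)) (α β : MulAut H) {x : H}
    (hx : x ∈ commutator H) : α (β x) = β (α x) := by
  let f : MulAut H → (commutator H →* commutator H) := fun α =>
    { toFun := fun x => ⟨α x, map_mem_commutator α x.2⟩
      map_one' := by ext; simp
      map_mul' := fun x y => by ext; simp }
  obtain ⟨m, hm⟩ := MonoidHom.map_cyclic (f α)
  obtain ⟨n, hn⟩ := MonoidHom.map_cyclic (f β)
  have e1 : f α (f β ⟨x, hx⟩) = f β (f α ⟨x, hx⟩) := by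
    rw [hm, hn, hm, hn, ← zpow_mul, ← zpow_mul, mul_comm]
  exact congrArg Subtype.val e1

theorem aut_comm_on_abelianization {H : Type*} [Group H] (h2 : IsCyclic (Abelianization H)) (α β : MulAut H) (x : H) :
    (β (α x))⁻¹ * α (β x) ∈ commutator H := by
  let f : MulAut H → (Abelianization H →* Abelianization H) := fun α => Abelianization.map (α : H →* H)
  obtain ⟨m, hm⟩ := MonoidHom.map_cyclic (f α)
  obtain ⟨n, hn⟩ := MonoidHom.map_cyclic (f β)
  have e1 : f β (f α (Abelianization.of x)) = f α (f β (Abelianization.of x)) := by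
    rw [hm, hn, hm, hn, ← zpow_mul, ← zpow_mul, mul_comm]
  exact (QuotientGroup.eq (s := commutator H)).1 e1

theorem solvable_mulAut {H : Type*} [Group H] (h1 : IsCyclic (commutator H)) (h2 : IsCyclic (Abelianization H)) :
    Group.IsSolvable (MulAut H) := by
  have key : ∀ γ ∈ commutator (MulAut H), (∀ x ∈ commutator H, γ x = x) ∧ ∀ x, x⁻¹ * γ x ∈ commutator H := by
    let K : Subgroup (MulAut H) :=
      { carrier := {γ | (∀ x ∈ commutator H, γ x = x) ∧ ∀ x, x⁻¹ * γ x ∈ commutator H}
        one_mem' := ⟨fun x _ => rfl, fun x => by simp [Subgroup.one_mem]⟩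
        mul_mem' := by
          rintro a b ⟨ha, ha'⟩ ⟨hb, hb'⟩
          refine ⟨fun x hx => ?_, fun x => ?_⟩
          · rw [MulAut.mul_apply, hb x hx, ha x hx]
          · rw [MulAut.mul_apply]
            have := (commutator H).mul_mem (hb' x) (ha' (b x))
            have e : x⁻¹ * b x * ((b x)⁻¹ * a (b x)) = x⁻¹ * a (b x) := by group
            rwa [e] at this
        inv_mem' := by
          rintro a ⟨ha, ha'⟩
          refine ⟨fun x hx => ?_, fun x => ?_⟩
          · have := ha x hx
            rw [← this, MulAut.inv_apply_self, this]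
          · have := (commutator H).inv_mem (ha' (a⁻¹ x))
            rw [MulAut.apply_inv_self] at this
            have e : ((a⁻¹ x)⁻¹ * x)⁻¹ = x⁻¹ * a⁻¹ x := by group
            rwa [e] at this }
    have : commutator (MulAut H) ≤ K := by
      rw [commutator_def, Subgroup.commutator_le]
      intro α _ β _
      refine ⟨fun x hx => ?_, fun x => ?_⟩
      · rw [commutatorElement_def, MulAut.mul_apply, MulAut.mul_apply, MulAut.mul_apply]
        have hy : α⁻¹ (β⁻¹ x) ∈ commutator H := map_mem_commutator _ (map_mem_commutator _ hx)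
        rw [aut_comm_on_commutator h1 α β hy, MulAut.apply_inv_self, MulAut.apply_inv_self]
      · rw [commutatorElement_def, MulAut.mul_apply, MulAut.mul_apply, MulAut.mul_apply]
        have := aut_comm_on_abelianization h2 α β (α⁻¹ (β⁻¹ x))
        rwa [MulAut.apply_inv_self, MulAut.apply_inv_self] at this
    exact fun γ hγ => this hγ
  have hcomm : ∀ x ∈ commutator H, ∀ y ∈ commutator H, x * y = y * x := by
    intro x hx y hy
    obtain ⟨g, hg⟩ := h1.exists_generator
    obtain ⟨a, ha⟩ := Subgroup.mem_zpowers_iff.1 (hg ⟨x, hx⟩)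
    obtain ⟨b, hb⟩ := Subgroup.mem_zpowers_iff.1 (hg ⟨y, hy⟩)
    have ha' : (g : H) ^ a = x := by have := congrArg Subtype.val ha; simpa using this
    have hb' : (g : H) ^ b = y := by have := congrArg Subtype.val hb; simpa using this
    rw [← ha', ← hb', ← zpow_add, ← zpow_add, add_comm]
  have hcA : ∀ γ δ : commutator (MulAut H), γ * δ = δ * γ := by
    intro γ δ
    obtain ⟨g1, g2⟩ := key γ γ.2
    obtain ⟨d1, d2⟩ := key δ δ.2
    ext x
    show (γ : MulAut H) ((δ : MulAut H) x) = (δ : MulAut H) ((γ : MulAut H) x)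
    have e1 : (δ : MulAut H) x = x * (x⁻¹ * (δ : MulAut H) x) := by group
    have e2 : (γ : MulAut H) x = x * (x⁻¹ * (γ : MulAut H) x) := by group
    calc (γ : MulAut H) ((δ : MulAut H) x) = (γ : MulAut H) (x * (x⁻¹ * (δ : MulAut H) x)) := by rw [← e1]
      _ = (γ : MulAut H) x * (x⁻¹ * (δ : MulAut H) x) := by rw [map_mul, g1 _ (d2 x)]
      _ = x * ((x⁻¹ * (γ : MulAut H) x) * (x⁻¹ * (δ : MulAut H) x)) := by group
      _ = x * ((x⁻¹ * (δ : MulAut H) x) * (x⁻¹ * (γ : MulAut H) x)) := by rw [hcomm _ (g2 x) _ (d2 x)]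
      _ = (δ : MulAut H) x * (x⁻¹ * (γ : MulAut H) x) := by group
      _ = (δ : MulAut H) (x * (x⁻¹ * (γ : MulAut H) x)) := by rw [map_mul, d1 _ (g2 x)]
      _ = (δ : MulAut H) ((γ : MulAut H) x) := by rw [← e2]
  haveI : Group.IsSolvable (commutator (MulAut H)) := by
    haveI : CommGroup (commutator (MulAut H)) := { (inferInstance : Group (commutator (MulAut H))) with mul_comm := hcA }
    exact isSolvable_of_comm hcA
  exact solvable_of_ker_le_range (commutator (MulAut H)).subtype (Abelianization.of (G := MulAut H)) (by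
    rw [Abelianization.ker_of, Subgroup.range_subtype])

theorem solvable_mulAut_of_isZGroup {H : Type*} [Group H] [Finite H] [IsZGroup H] : Group.IsSolvable (MulAut H) :=
  solvable_mulAut (IsZGroup.isCyclic_commutator H) (inferInstance)

end Cfsg.Agent.H2
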