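import Mathlib
import Cfsg.Agent.H18.SL23
import Cfsg.Agent.H21.RG10

/-! Recognition of `GL₂(3)`. -/

set_option autoImplicit false

namespace Cfsg.Agent.H2.GL23rec

open Cfsg.Agent Cfsg.Agent.H18
open Subgroup

universe u v

/-- relations for `GL₂(3)` -/
structure BO {G : Type u} [Group G] (i j r t : G) : Prop where
  bt : BT i j r
  tt : t * t = 1
  ti : t * i * t⁻¹ = j
  tj : t * j * t⁻¹ = i
  tr : t * r * t⁻¹ = i * r ^ 2

namespace BO

def sub {G : Type u} [Group G] (i j r t : G) : Subgroup G := BT.sub i j r ⊔ Subgroup.zpowers t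

variable {G : Type u} [Group G] [Finite G] {i j r t : G}

omit [Finite G] in
theorem mem_i : i ∈ BT.sub i j r := mem_sup_left (mem_sup_left (mem_zpowers i))
omit [Finite G] in
theorem mem_j : j ∈ BT.sub i j r := mem_sup_left (mem_sup_right (mem_zpowers j))
omit [Finite G] in
theorem mem_r : r ∈ BT.sub i j r := mem_sup_right (mem_zpowers r)

theorem card_sub_le (h : BO i j r t) : Nat.card (sub i j r t) ≤ 48 := by
  have h1 := card_sup_zpowers_le (BT.sub i j r) t 2 (by norm_num) (by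
    apply H10.mem_normalizer_of_conj_le
    intro x hx
    have h3 : (BT.sub i j r).map (MulAut.conj t).toMonoidHom ≤ BT.sub i j r := by
      unfold BT.sub
      rw [Subgroup.map_sup, Subgroup.map_sup, MonoidHom.map_zpowers, MonoidHom.map_zpowers,
        MonoidHom.map_zpowers]
      refine sup_le (sup_le ((Subgroup.zpowers_le).2 ?_) ((Subgroup.zpowers_le).2 ?_))
        ((Subgroup.zpowers_le).2 ?_)
      · show t * i * t⁻¹ ∈ BT.sub i j r
        rw [h.ti]; exact mem_j
      · show t * j * t⁻¹ ∈ BT.sub i j r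
        rw [h.tj]; exact mem_i
      · show t * r * t⁻¹ ∈ BT.sub i j r
        rw [h.tr]
        exact Subgroup.mul_mem _ mem_i (Subgroup.pow_mem _ mem_r 2)
    exact h3 ⟨x, hx, rfl⟩) (by rw [pow_two, h.tt]; exact Subgroup.one_mem _)
  have h2 := h.bt.card_sub_le
  unfold sub
  omega

theorem card_sub (h : BO i j r t) (hi : i * i ≠ 1) (ht : t ∉ BT.sub i j r) :
    Nat.card (sub i j r t) = 48 := by
  have h1 := h.card_sub_le
  have h2 : 24 ∣ Nat.card (sub i j r t) := by
    rw [← h.bt.card_sub hi]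
    exact Subgroup.card_dvd_of_le le_sup_left
  have h3 : Nat.card (sub i j r t) ≠ 24 := by
    intro h4
    have h5 : BT.sub i j r = sub i j r t :=
      Subgroup.eq_of_le_of_card_ge le_sup_left (by rw [h4, h.bt.card_sub hi])
    apply ht
    rw [h5]
    exact Subgroup.mem_sup_right (Subgroup.mem_zpowers t)
  have h4 : 0 < Nat.card (sub i j r t) := Nat.card_pos
  omega

theorem sub_eq_top (h : BO i j r t) (hi : i * i ≠ 1) (ht : t ∉ BT.sub i j r)
    (hc : Nat.card G = 48) : sub i j r t = ⊤ :=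
  Subgroup.eq_top_of_card_eq _ (by rw [h.card_sub hi ht, hc])

theorem equiv {V : Type v} [Group V] [Finite V] {i' j' r' t' : V} (h : BO i j r t)
    (h' : BO i' j' r' t') (hi : i * i ≠ 1) (hi' : i' * i' ≠ 1) (ht : t ∉ BT.sub i j r)
    (ht' : t' ∉ BT.sub i' j' r') (hc : Nat.card G = 48) (hc' : Nat.card V = 48) :
    Nonempty (G ≃* V) := by
  have hb := h.bt
  have hb' := h'.bt
  have hΓ : BO (i, i') (j, j') (r, r') (t, t') :=
    ⟨⟨Prod.ext hb.i4 hb'.i4, Prod.ext hb.jj hb'.jj, Prod.ext hb.conj hb'.conj,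
      Prod.ext hb.ri hb'.ri, Prod.ext hb.rj hb'.rj, Prod.ext hb.r3 hb'.r3⟩,
      Prod.ext h.tt h'.tt, Prod.ext h.ti h'.ti, Prod.ext h.tj h'.tj, Prod.ext h.tr h'.tr⟩
  set Γ : Subgroup (G × V) := sub (i, i') (j, j') (r, r') (t, t') with hΓdef
  have hle := hΓ.card_sub_le
  let p1 : Γ →* G := (MonoidHom.fst G V).comp Γ.subtype
  let p2 : Γ →* V := (MonoidHom.snd G V).comp Γ.subtype
  have hs1 : Function.Surjective p1 := by
    rw [← MonoidHom.range_eq_top, MonoidHom.range_comp, Subgroup.range_subtype,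
      ← h.sub_eq_top hi ht hc, hΓdef, sub, sub, BT.sub, BT.sub, Subgroup.map_sup, Subgroup.map_sup,
      Subgroup.map_sup, MonoidHom.map_zpowers, MonoidHom.map_zpowers, MonoidHom.map_zpowers,
      MonoidHom.map_zpowers]
    rfl
  have hs2 : Function.Surjective p2 := by
    rw [← MonoidHom.range_eq_top, MonoidHom.range_comp, Subgroup.range_subtype,
      ← h'.sub_eq_top hi' ht' hc', hΓdef, sub, sub, BT.sub, BT.sub, Subgroup.map_sup,
      Subgroup.map_sup, Subgroup.map_sup, MonoidHom.map_zpowers, MonoidHom.map_zpowers,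
      MonoidHom.map_zpowers, MonoidHom.map_zpowers]
    rfl
  have hb1 : Function.Bijective p1 := hs1.bijective_of_nat_card_le (by rw [hc]; exact hle)
  have hb2 : Function.Bijective p2 := hs2.bijective_of_nat_card_le (by rw [hc']; exact hle)
  exact ⟨(MulEquiv.ofBijective p1 hb1).symm.trans (MulEquiv.ofBijective p2 hb2)⟩

end BO

theorem card_GL23 : Nat.card (GL (Fin 2) (ZMod 3)) = 48 := by
  rw [Matrix.card_GL_field, Fin.prod_univ_two]
  simp [ZMod.card]

theorem BO_GL23 : ∃ i j r t : GL (Fin 2) (ZMod 3), BO i j r t ∧ i * i ≠ 1 ∧ t ∉ BT.sub i j r := by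
  let i : GL (Fin 2) (ZMod 3) := ⟨!![0, 2; 1, 0], !![0, 1; 2, 0], by decide, by decide⟩
  let j : GL (Fin 2) (ZMod 3) := ⟨!![1, 1; 1, 2], !![2, 2; 2, 1], by decide, by decide⟩
  let r : GL (Fin 2) (ZMod 3) := ⟨!![1, 1; 0, 1], !![1, 2; 0, 1], by decide, by decide⟩
  let t : GL (Fin 2) (ZMod 3) := ⟨!![1, 0; 2, 2], !![1, 0; 2, 2], by decide, by decide⟩
  have hdet : ∀ g ∈ BT.sub i j r, Matrix.GeneralLinearGroup.det g = 1 := by
    have hle : BT.sub i j r ≤ (Matrix.GeneralLinearGroup.det (n := Fin 2) (R := ZMod 3)).ker := by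
      unfold BT.sub
      refine sup_le (sup_le ((Subgroup.zpowers_le).2 ?_) ((Subgroup.zpowers_le).2 ?_))
        ((Subgroup.zpowers_le).2 ?_)
      · rw [MonoidHom.mem_ker]; apply Units.ext
        show Matrix.det !![0, 2; 1, 0] = 1
        rw [Matrix.det_fin_two_of]; decide
      · rw [MonoidHom.mem_ker]; apply Units.ext
        show Matrix.det !![1, 1; 1, 2] = 1
        rw [Matrix.det_fin_two_of]; decide
      · rw [MonoidHom.mem_ker]; apply Units.ext
        show Matrix.det !![1, 1; 0, 1] = 1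
        rw [Matrix.det_fin_two_of]; decide
    intro g hg
    exact hle hg
  refine ⟨i, j, r, t, ⟨⟨?_, ?_, ?_, ?_, ?_, ?_⟩, ?_, ?_, ?_, ?_⟩, ?_, ?_⟩
  all_goals try (apply Units.ext)
  · show (!![0, 2; 1, 0] : Matrix (Fin 2) (Fin 2) (ZMod 3)) ^ 4 = 1
    decide
  · show (!![1, 1; 1, 2] : Matrix (Fin 2) (Fin 2) (ZMod 3)) * !![1, 1; 1, 2] = !![0, 2; 1, 0] * !![0, 2; 1, 0]
    decide
  · show (!![1, 1; 1, 2] : Matrix (Fin 2) (Fin 2) (ZMod 3)) * !![0, 2; 1, 0] * !![2, 2; 2, 1] = !![0, 1; 2, 0]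
    decide
  · show (!![1, 1; 0, 1] : Matrix (Fin 2) (Fin 2) (ZMod 3)) * !![0, 2; 1, 0] * !![1, 2; 0, 1] = !![1, 1; 1, 2]
    decide
  · show (!![1, 1; 0, 1] : Matrix (Fin 2) (Fin 2) (ZMod 3)) * !![1, 1; 1, 2] * !![1, 2; 0, 1] = !![0, 2; 1, 0] * !![1, 1; 1, 2]
    decide
  · show (!![1, 1; 0, 1] : Matrix (Fin 2) (Fin 2) (ZMod 3)) ^ 3 = 1
    decide
  · show (!![1, 0; 2, 2] : Matrix (Fin 2) (Fin 2) (ZMod 3)) * !![1, 0; 2, 2] = 1
    decide
  · show (!![1, 0; 2, 2] : Matrix (Fin 2) (Fin 2) (ZMod 3)) * !![0, 2; 1, 0] * !![1, 0; 2, 2] = !![1, 1; 1, 2]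
    decide
  · show (!![1, 0; 2, 2] : Matrix (Fin 2) (Fin 2) (ZMod 3)) * !![1, 1; 1, 2] * !![1, 0; 2, 2] = !![0, 2; 1, 0]
    decide
  · show (!![1, 0; 2, 2] : Matrix (Fin 2) (Fin 2) (ZMod 3)) * !![1, 1; 0, 1] * !![1, 0; 2, 2] = !![0, 2; 1, 0] * !![1, 1; 0, 1] ^ 2
    decide
  · intro h
    have h' : (!![0, 2; 1, 0] : Matrix (Fin 2) (Fin 2) (ZMod 3)) * !![0, 2; 1, 0] = 1 := congrArg Units.val h
    revert h'; decide
  · intro h
    have h1 := hdet t h
    have h2 : Matrix.det (!![1, 0; 2, 2] : Matrix (Fin 2) (Fin 2) (ZMod 3)) = 1 := congrArg Units.val h1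
    rw [Matrix.det_fin_two_of] at h2
    revert h2; decide

section rel
variable {X : Type u} [Group X] {i j r : X}

theorem BT.rot (h : BT i j r) : BT j (i * j) r := by
  have hc := h.conj
  have hji : j * i = i⁻¹ * j := by
    rw [← hc]; group
  have e1 : i * j * i = j := by
    rw [mul_assoc, hji]; group
  refine ⟨?_, ?_, ?_, h.rj, ?_, h.r3⟩
  · have : j ^ 4 = (j * j) * (j * j) := by rw [pow_succ, pow_succ, pow_two]; group
    rw [this, h.jj]
    have h4 := h.i4
    rw [show (4 : ℕ) = 2 + 2 from rfl, pow_add, pow_two] at h4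
    exact h4
  · calc i * j * (i * j) = (i * j * i) * j := by group
      _ = j * j := by rw [e1]
  · -- (i j) j (i j)⁻¹ = j⁻¹
    have h5 : i * j * i⁻¹ = j⁻¹ := by
      have h6 : j⁻¹ = j * (i * i)⁻¹ := by rw [← h.jj]; group
      have h7 : i * j * i⁻¹ = (i * j * i) * (i * i)⁻¹ := by group
      rw [h7, e1, ← h6]
    calc i * j * j * (i * j)⁻¹ = i * j * i⁻¹ := by group
      _ = j⁻¹ := h5
  · calc r * (i * j) * r⁻¹ = (r * i * r⁻¹) * (r * j * r⁻¹) := by group
      _ = j * (i * j) := by rw [h.ri, h.rj]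

theorem jij (h : BT i j r) : j * (i * j) = i := by
  have hc := h.conj
  have hji : j * i = i⁻¹ * j := by
    rw [← hc]; group
  calc j * (i * j) = (j * i) * j := by group
    _ = i⁻¹ * (j * j) := by rw [hji]; group
    _ = i := by rw [h.jj]; group

end rel

/-- the quaternion group: elements of order four -/
theorem q8_six : ∀ i j x : QuaternionGroup 2, i * i ≠ 1 → j * j = i * i → j * i * j⁻¹ = i⁻¹ →
    x * x ≠ 1 → x ∈ [i, i⁻¹, j, j⁻¹, i * j, (i * j)⁻¹] := by
  decide +kernel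

theorem q8_inv : ∀ i x : QuaternionGroup 2, i * i ≠ 1 → x * x = 1 → x = 1 ∨ x = i * i := by
  decide +kernel

section fin
variable {X : Type u} [Group X] [Finite X]

theorem U_eq (U : Subgroup X) (hU8 : Nat.card U = 8) {a b r : X} (hb : BT a b r) (haa : a * a ≠ 1)
    (ha : a ∈ U) (hbU : b ∈ U) : zpowers a ⊔ zpowers b = U := by
  apply Subgroup.eq_of_le_of_card_ge
  · exact sup_le ((zpowers_le).2 ha) ((zpowers_le).2 hbU)
  · rw [hU8, hb.cardA haa]

theorem finishA (hc : Nat.card X = 48) (U : Subgroup X) [hU : U.Normal] (hU8 : Nat.card U = 8)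
    {a b r t : X} (hb : BT a b r) (haa : a * a ≠ 1) (ha : a ∈ U) (hbU : b ∈ U)
    (hcen : ∀ x : X, x * a = a * x → x * b = b * x → x = 1 ∨ x = a * a)
    (htt : t * t = 1) (htU : t ∉ U) (hta : t * a * t⁻¹ = b) : Nonempty (X ≃* GL (Fin 2) (ZMod 3)) := by
  have hti : t⁻¹ = t := inv_eq_of_mul_eq_one_left htt
  have htb : t * b * t⁻¹ = a := by
    rw [← hta, hti]
    calc t * (t * a * t) * t = (t * t) * a * (t * t) := by group
      _ = a := by rw [htt, one_mul, mul_one]
  have htb' : t⁻¹ * a * t = b := by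
    rw [← htb]; group
  have hta' : t⁻¹ * b * t = a := by
    rw [← hta]; group
  have hba : b * a = a⁻¹ * b := by rw [← hb.conj]; group
  have hbab : b * a * b = a := by
    rw [hba, mul_assoc, hb.jj]; group
  have haba : a * b * a⁻¹ = b⁻¹ := by
    have h1 : a * b * a = b := by rw [mul_assoc, hba]; group
    have h2 : b⁻¹ = b * (a * a)⁻¹ := by rw [← hb.jj]; group
    calc a * b * a⁻¹ = (a * b * a) * (a * a)⁻¹ := by group
      _ = b⁻¹ := by rw [h1, ← h2]
  set w := t * r * t⁻¹ with hw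
  set s := a * r ^ 2 with hs
  have hwa : w * a * w⁻¹ = b * a := by
    calc w * a * w⁻¹ = t * (r * (t⁻¹ * a * t) * r⁻¹) * t⁻¹ := by rw [hw]; group
      _ = t * (a * b) * t⁻¹ := by rw [htb', hb.rj]
      _ = (t * a * t⁻¹) * (t * b * t⁻¹) := by group
      _ = b * a := by rw [hta, htb]
  have hwb : w * b * w⁻¹ = a := by
    calc w * b * w⁻¹ = t * (r * (t⁻¹ * b * t) * r⁻¹) * t⁻¹ := by rw [hw]; group
      _ = t * b * t⁻¹ := by rw [hta', hb.ri]
      _ = a := htb
  have hr2a : r ^ 2 * a * (r ^ 2)⁻¹ = a * b := by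
    calc r ^ 2 * a * (r ^ 2)⁻¹ = r * (r * a * r⁻¹) * r⁻¹ := by rw [pow_two, mul_inv_rev]; simp only [mul_assoc]
      _ = a * b := by rw [hb.ri, hb.rj]
  have hr2b : r ^ 2 * b * (r ^ 2)⁻¹ = a := by
    calc r ^ 2 * b * (r ^ 2)⁻¹ = r * (r * b * r⁻¹) * r⁻¹ := by rw [pow_two, mul_inv_rev]; simp only [mul_assoc]
      _ = r * (a * b) * r⁻¹ := by rw [hb.rj]
      _ = (r * a * r⁻¹) * (r * b * r⁻¹) := by group
      _ = b * (a * b) := by rw [hb.ri, hb.rj]
      _ = a := jij hb
  have hsa : s * a * s⁻¹ = b * a := by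
    calc s * a * s⁻¹ = a * (r ^ 2 * a * (r ^ 2)⁻¹) * a⁻¹ := by rw [hs]; group
      _ = a * (a * b * a⁻¹) := by rw [hr2a]; group
      _ = a * b⁻¹ := by rw [haba]
      _ = (b * a * b) * b⁻¹ := by rw [hbab]
      _ = b * a := by group
  have hsb : s * b * s⁻¹ = a := by
    calc s * b * s⁻¹ = a * (r ^ 2 * b * (r ^ 2)⁻¹) * a⁻¹ := by rw [hs]; group
      _ = a := by rw [hr2b]; group
  have hs3 : s ^ 3 = 1 := by
    have hr3 := hb.r3
    calc s ^ 3 = a * (r ^ 2 * a * (r ^ 2)⁻¹) * (r ^ 3 * (r * a * r⁻¹) * (r ^ 3)⁻¹) * (r ^ 3 * r ^ 3) := by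
          rw [hs, pow_succ, pow_two]; group
      _ = a * (a * b) * b := by rw [hr3, hr2a, hb.ri]; group
      _ = (a * a) * (b * b) := by group
      _ = a ^ 4 := by rw [hb.jj]; simp only [pow_succ, pow_zero, one_mul, mul_assoc]
      _ = 1 := hb.i4
  have hv := hcen (s⁻¹ * w) (by
    calc s⁻¹ * w * a = s⁻¹ * (w * a * w⁻¹) * w := by group
      _ = s⁻¹ * (s * a * s⁻¹) * w := by rw [hwa, hsa]
      _ = a * (s⁻¹ * w) := by group) (by
    calc s⁻¹ * w * b = s⁻¹ * (w * b * w⁻¹) * w := by group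
      _ = s⁻¹ * (s * b * s⁻¹) * w := by rw [hwb, hsb]
      _ = b * (s⁻¹ * w) := by group)
  have htr : w = s := by
    rcases hv with hv | hv
    · exact (inv_mul_eq_one.1 hv).symm
    · exfalso
      have h1 : w = s * (a * a) := by rw [← hv]; group
      have hsz : Commute s (a * a) := by
        have h2 : s * (a * a) * s⁻¹ = a * a := by
          calc s * (a * a) * s⁻¹ = (s * a * s⁻¹) * (s * a * s⁻¹) := by group
            _ = (b * a * b) * a := by rw [hsa]; group
            _ = a * a := by rw [hbab]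
        show s * (a * a) = (a * a) * s
        calc s * (a * a) = (s * (a * a) * s⁻¹) * s := by group
          _ = (a * a) * s := by rw [h2]
      have h2 : w ^ 3 = 1 := by
        rw [hw, conj_pow, hb.r3]; group
      rw [h1, hsz.mul_pow, hs3, one_mul] at h2
      apply haa
      have h5 : (a * a) ^ 2 = 1 := by rw [← pow_two, ← pow_mul]; exact hb.i4
      rw [pow_succ, h5, one_mul] at h2
      exact h2
  have hBO : BO a b r t := ⟨hb, htt, hta, htb, htr⟩
  have htsub : t ∉ BT.sub a b r := by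
    intro h
    unfold BT.sub at h
    rw [U_eq U hU8 hb haa ha hbU] at h
    obtain ⟨u, hu, y, hy, rfl⟩ := (H23.mem_sup_iff_of_le_normalizer (by
      rw [normalizer_eq_top]; exact le_top)).1 h
    obtain ⟨k, rfl⟩ := hy
    apply htU
    refine U.mul_mem hu ?_
    have q1 : (QuotientGroup.mk' U) (r ^ k) * (QuotientGroup.mk' U) (r ^ k) = 1 := by
      have h1 := congrArg (QuotientGroup.mk' U) htt
      rw [map_mul, map_mul, map_one] at h1
      have h2 : (QuotientGroup.mk' U) u = 1 := (QuotientGroup.eq_one_iff u).2 hu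
      rw [h2, one_mul] at h1
      exact h1
    have q2 : ((QuotientGroup.mk' U) (r ^ k)) ^ 3 = 1 := by
      rw [← map_pow, ← zpow_natCast, ← zpow_mul, mul_comm, zpow_mul, zpow_natCast, hb.r3, one_zpow,
        map_one]
    have q3 : (QuotientGroup.mk' U) (r ^ k) = 1 := by
      rw [pow_succ, pow_two, q1, one_mul] at q2
      exact q2
    exact (QuotientGroup.eq_one_iff _).1 q3
  obtain ⟨i', j', r', t', hBO', hii', ht'⟩ := BO_GL23
  exact hBO.equiv hBO' haa hii' htsub ht' hc card_GL23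

theorem finish (hc : Nat.card X = 48) (U : Subgroup X) [hU : U.Normal] (hU8 : Nat.card U = 8)
    {a b r t : X} (hb : BT a b r) (haa : a * a ≠ 1) (ha : a ∈ U) (hbU : b ∈ U)
    (hcen : ∀ x : X, x * a = a * x → x * b = b * x → x = 1 ∨ x = a * a)
    (htt : t * t = 1) (htU : t ∉ U) (hta : t * a * t⁻¹ = b ∨ t * a * t⁻¹ = b⁻¹) :
    Nonempty (X ≃* GL (Fin 2) (ZMod 3)) := by
  rcases hta with h | h
  · exact finishA hc U hU8 hb haa ha hbU hcen htt htU h
  · refine finishA hc U hU8 hb haa ha hbU hcen (t := a * t * a⁻¹) ?_ ?_ ?_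
    · calc a * t * a⁻¹ * (a * t * a⁻¹) = a * (t * t) * a⁻¹ := by group
        _ = 1 := by rw [htt]; group
    · intro h1
      apply htU
      have := hU.conj_mem _ h1 a⁻¹
      have e : a⁻¹ * (a * t * a⁻¹) * a⁻¹⁻¹ = t := by group
      rwa [e] at this
    · have hba : b * a = a⁻¹ * b := by rw [← hb.conj]; group
      have h3 : a * b⁻¹ * a⁻¹ = b := by
        have h4 : b * a * b = a := by rw [hba, mul_assoc, hb.jj]; group
        calc a * b⁻¹ * a⁻¹ = (b * a * b) * b⁻¹ * a⁻¹ := by rw [h4]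
          _ = b := by group
      calc a * t * a⁻¹ * a * (a * t * a⁻¹)⁻¹ = a * (t * a * t⁻¹) * a⁻¹ := by group
        _ = b := by rw [h, h3]

/-- recognition of `GL₂(3)` among groups of order 48 with a normal self-centralizing quaternion
subgroup -/
theorem recog (hc : Nat.card X = 48) (U : Subgroup X) [hU : U.Normal]
    (e : U ≃* QuaternionGroup 2) (hC : Nat.card (centralizer (U : Set X)) = 2) (t : X)
    (htt : t * t = 1) (htU : t ∉ U) : Nonempty (X ≃* GL (Fin 2) (ZMod 3)) := by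
  classical
  have hU8 : Nat.card U = 8 := by
    rw [Nat.card_congr e.toEquiv, Nat.card_eq_fintype_card, QuaternionGroup.card]
  -- r
  haveI : Fact (Nat.Prime 3) := ⟨Nat.prime_three⟩
  obtain ⟨r, hr⟩ := exists_prime_orderOf_dvd_card' (G := X) 3 (by rw [hc]; norm_num)
  have hrC : r ∉ centralizer (U : Set X) := by
    intro h
    have h1 : orderOf (⟨r, h⟩ : centralizer (U : Set X)) ∣ 2 := by
      rw [← hC]; exact _root_.orderOf_dvd_natCard _
    rw [Subgroup.orderOf_mk, hr] at h1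
    omega
  obtain ⟨i, hi, j, hj, hbt, hii⟩ := H21.RG.exists_BT e hr hrC
  have hti : t⁻¹ = t := inv_eq_of_mul_eq_one_left htt
  have hcomm_z : ∀ y ∈ U, i * i * y = y * (i * i) := by
    intro y hy
    have : ∀ a b : QuaternionGroup 2, a * a * b = b * (a * a) := by decide
    have h2 := this (e ⟨i, hi⟩) (e ⟨y, hy⟩)
    rw [← map_mul, ← map_mul, ← map_mul] at h2
    exact congrArg Subtype.val (e.injective h2)
  have hzC : i * i ∈ centralizer (U : Set X) := by
    rw [mem_centralizer_iff]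
    intro y hy
    exact (hcomm_z y hy).symm
  have hcen0 : ∀ x : X, (∀ y ∈ U, x * y = y * x) → x = 1 ∨ x = i * i := by
    intro x hx
    have hxC : x ∈ centralizer (U : Set X) := by
      rw [mem_centralizer_iff]; intro y hy; exact (hx y hy).symm
    obtain ⟨b, hb, huniv⟩ := (Nat.card_eq_two_iff' (1 : centralizer (U : Set X))).1 hC
    by_cases hx1 : x = 1
    · exact Or.inl hx1
    · right
      have h1 := huniv ⟨x, hxC⟩ (fun h => hx1 (congrArg Subtype.val h))
      have h2 := huniv ⟨i * i, hzC⟩ (fun h => hii (congrArg Subtype.val h))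
      exact congrArg Subtype.val (h1.trans h2.symm)
  have hgen : ∀ {a b : X}, BT a b r → a * a ≠ 1 → a ∈ U → b ∈ U → a * a = i * i →
      ∀ x : X, x * a = a * x → x * b = b * x → x = 1 ∨ x = a * a := by
    intro a b hb haa ha hbU hai x hxa hxb
    rw [hai]
    apply hcen0
    intro y hy
    rw [← U_eq U hU8 hb haa ha hbU] at hy
    have hle : zpowers a ⊔ zpowers b ≤ centralizer ({x} : Set X) := by
      refine sup_le ((zpowers_le).2 ?_) ((zpowers_le).2 ?_)
      · rw [mem_centralizer_singleton_iff]; exact hxa.symm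
      · rw [mem_centralizer_singleton_iff]; exact hxb.symm
    exact (mem_centralizer_singleton_iff.1 (hle hy)).symm
  have hcen := hgen hbt hii hi hj rfl
  have hinner : ∀ u ∈ U, t * i * t⁻¹ = u * i * u⁻¹ → t * j * t⁻¹ = u * j * u⁻¹ → False := by
    intro u hu h1 h2
    have h3 := hcen (u⁻¹ * t) (by
      calc u⁻¹ * t * i = u⁻¹ * (t * i * t⁻¹) * t := by group
        _ = i * (u⁻¹ * t) := by rw [h1]; group) (by
      calc u⁻¹ * t * j = u⁻¹ * (t * j * t⁻¹) * t := by group
        _ = j * (u⁻¹ * t) := by rw [h2]; group)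
    have h4 : u⁻¹ * t ∈ U := by
      rcases h3 with h3 | h3
      · rw [h3]; exact U.one_mem
      · rw [h3]; exact U.mul_mem hi hi
    apply htU
    have h5 : t = u * (u⁻¹ * t) := by group
    rw [h5]; exact U.mul_mem hu h4
  have hji : j * i = i⁻¹ * j := by rw [← hbt.conj]; group
  have hjij : j * i * j = i := by rw [hji, mul_assoc, hbt.jj]; group
  have hiji : i * j * i⁻¹ = j⁻¹ := by
    have h1 : i * j * i = j := by rw [mul_assoc, hji]; group
    have h2 : j⁻¹ = j * (i * i)⁻¹ := by rw [← hbt.jj]; group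
    calc i * j * i⁻¹ = (i * j * i) * (i * i)⁻¹ := by group
      _ = j⁻¹ := by rw [h1, ← h2]
  have hnot : ¬ ((t * i * t⁻¹ = i ∨ t * i * t⁻¹ = i⁻¹) ∧ (t * j * t⁻¹ = j ∨ t * j * t⁻¹ = j⁻¹)) := by
    rintro ⟨h1 | h1, h2 | h2⟩
    · exact hinner 1 U.one_mem (by rw [h1]; group) (by rw [h2]; group)
    · exact hinner i hi (by rw [h1]; group) (by rw [h2, hiji])
    · exact hinner j hj (by rw [h1, hbt.conj]) (by rw [h2]; group)
    · refine hinner (i * j) (U.mul_mem hi hj) ?_ ?_
      · rw [h1]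
        calc i⁻¹ = i * i⁻¹ * i⁻¹ := by group
          _ = i * (j * i * j⁻¹) * i⁻¹ := by rw [hbt.conj]
          _ = _ := by group
      · rw [h2, ← hiji]; group
  have hsix : ∀ x ∈ U, x * x ≠ 1 → x = i ∨ x = i⁻¹ ∨ x = j ∨ x = j⁻¹ ∨ x = i * j ∨ x = (i * j)⁻¹ := by
    intro x hx hxx
    have h1 := q8_six (e ⟨i, hi⟩) (e ⟨j, hj⟩) (e ⟨x, hx⟩) (by
      rw [← map_mul]
      intro h
      exact hii (congrArg Subtype.val ((map_eq_one_iff e e.injective).1 h))) (by
      rw [← map_mul, ← map_mul]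
      congr 1
      exact Subtype.ext hbt.jj) (by
      rw [← map_inv, ← map_mul, ← map_mul, ← map_inv]
      congr 1
      exact Subtype.ext hbt.conj) (by
      rw [← map_mul]
      intro h
      exact hxx (congrArg Subtype.val ((map_eq_one_iff e e.injective).1 h)))
    simp only [List.mem_cons, List.not_mem_nil, or_false] at h1
    rw [← map_inv, ← map_inv, ← map_mul, ← map_inv] at h1
    rcases h1 with h | h | h | h | h | h
    · exact Or.inl (congrArg Subtype.val (e.injective h))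
    · exact Or.inr (Or.inl (congrArg Subtype.val (e.injective h)))
    · exact Or.inr (Or.inr (Or.inl (congrArg Subtype.val (e.injective h))))
    · exact Or.inr (Or.inr (Or.inr (Or.inl (congrArg Subtype.val (e.injective h)))))
    · exact Or.inr (Or.inr (Or.inr (Or.inr (Or.inl (congrArg Subtype.val (e.injective h))))))
    · exact Or.inr (Or.inr (Or.inr (Or.inr (Or.inr (congrArg Subtype.val (e.injective h))))))
  have hkU : i * j ∈ U := U.mul_mem hi hj
  have hjj1 : j * j ≠ 1 := by rw [hbt.jj]; exact hii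
  have hbt2 := BT.rot hbt
  have hkk : (i * j) * (i * j) = i * i := by
    rw [hbt2.jj, hbt.jj]
  have hkk1 : (i * j) * (i * j) ≠ 1 := by rw [hkk]; exact hii
  have hbt3 : BT (i * j) i r := by
    have h := BT.rot hbt2
    rwa [jij hbt] at h
  have hconjsq : ∀ x : X, x * x ≠ 1 → (t * x * t⁻¹) * (t * x * t⁻¹) ≠ 1 := by
    intro x hx h
    apply hx
    calc x * x = t⁻¹ * ((t * x * t⁻¹) * (t * x * t⁻¹)) * t := by group
      _ = 1 := by rw [h]; group
  have hinvj : ∀ {x y : X}, t * x * t⁻¹ = y → t * y * t⁻¹ = x := by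
    intro x y h
    rw [← h, hti]
    calc t * (t * x * t) * t = (t * t) * x * (t * t) := by group
      _ = x := by rw [htt, one_mul, mul_one]
  by_cases h1 : t * i * t⁻¹ = i ∨ t * i * t⁻¹ = i⁻¹
  · -- t moves j
    have h2 : ¬ (t * j * t⁻¹ = j ∨ t * j * t⁻¹ = j⁻¹) := fun h => hnot ⟨h1, h⟩
    have h3 := hsix (t * j * t⁻¹) (hU.conj_mem j hj t) (hconjsq j hjj1)
    refine finish hc U hU8 hbt2 hjj1 hj hkU (hgen hbt2 hjj1 hj hkU hbt.jj) htt htU ?_
    rcases h3 with h | h | h | h | h | h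
    · exfalso
      have h4 := hinvj h
      apply hbt.j_notMem hii
      rcases h1 with h1 | h1
      · rw [← h4, h1]; exact mem_zpowers i
      · rw [← h4, h1]; exact inv_mem (mem_zpowers i)
    · exfalso
      have h4 := hinvj h
      have h5 : j = (t * i * t⁻¹)⁻¹ := by rw [← h4]; group
      apply hbt.j_notMem hii
      rcases h1 with h1 | h1
      · rw [h5, h1]; exact inv_mem (mem_zpowers i)
      · rw [h5, h1]; exact inv_mem (inv_mem (mem_zpowers i))
    · exact absurd (Or.inl h) h2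
    · exact absurd (Or.inr h) h2
    · exact Or.inl h
    · exact Or.inr h
  · push Not at h1
    have h3 := hsix (t * i * t⁻¹) (hU.conj_mem i hi t) (hconjsq i hii)
    rcases h3 with h | h | h | h | h | h
    · exact absurd h h1.1
    · exact absurd h h1.2
    · exact finish hc U hU8 hbt hii hi hj hcen htt htU (Or.inl h)
    · exact finish hc U hU8 hbt hii hi hj hcen htt htU (Or.inr h)
    · refine finish hc U hU8 hbt3 hkk1 hkU hi (hgen hbt3 hkk1 hkU hi hkk) htt htU (Or.inl ?_)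
      exact hinvj h
    · refine finish hc U hU8 hbt3 hkk1 hkU hi (hgen hbt3 hkk1 hkU hi hkk) htt htU (Or.inr ?_)
      have h4 := hinvj h
      calc t * (i * j) * t⁻¹ = (t * (i * j)⁻¹ * t⁻¹)⁻¹ := by group
        _ = i⁻¹ := by rw [h4]

end fin

end Cfsg.Agent.H2.GL23rec
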