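import Mathlib


/-!
# Norms for Frobenius actions; fixed points in class two groups
-/

set_option autoImplicit false
set_option linter.all false

namespace Cfsg.Agent.H2.InvNorm

open Subgroup
open scoped commutatorElement

universe u v

theorem frob_norm' {V : Type u} [CommGroup V] {X : Type v} [Group X] [Finite X]
    (φ : X →* MulAut V) (K H : Subgroup X) (hKn : K.Normal) (hc : Subgroup.IsComplement' K H)
    (hfrob : ∀ h ∈ H, h ≠ 1 → ∀ k ∈ K, h * k = k * h → k = 1)
    (hK : ∀ v, (∀ k ∈ K, φ k v = v) → v = 1)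
    (nH : ∀ (_ : Fintype H) (v : V), ∏ k : H, φ (k : X) v = 1) (v : V) : v ^ (Nat.card K) = 1 := by
  classical
  haveI : Fintype X := Fintype.ofFinite X
  haveI : Fintype K := Fintype.ofFinite K
  haveI : Fintype H := Fintype.ofFinite H
  -- norms are trivial
  have nK : ∀ v : V, ∏ k : K, φ (k : X) v = 1 := by
    intro v
    apply hK
    intro k hk
    rw [map_prod]
    refine Fintype.prod_equiv (Equiv.mulLeft (⟨k, hk⟩ : K)) _ _ ?_
    intro x
    show φ k (φ (x : X) v) = φ ((⟨k, hk⟩ * x : K) : X) v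
    rw [Subgroup.coe_mul, map_mul]; rfl
  have nX : ∏ x : X, φ x v = 1 := by
    apply hK
    intro k hk
    rw [map_prod]
    refine Fintype.prod_equiv (Equiv.mulLeft k) _ _ ?_
    intro x
    show φ k (φ (x : X) v) = φ (k * x : X) v
    rw [map_mul]; rfl
  -- the parametrisation of `X` by `K × H`
  let e : K × H ≃ X := Equiv.ofBijective _ hc
  have h1 : ∏ x : X, φ x v = ∏ h : H, ∏ k : K, φ ((k : X) * h) v := by
    rw [← Equiv.prod_comp e, Fintype.prod_prod_type_right]
    rfl
  -- for `h ≠ 1` the coset `K h` consists of the conjugates of `h` under `K`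
  have h2 : ∀ h : H, h ≠ 1 → ∏ k : K, φ ((k : X) * h) v = ∏ w : K, φ ((w : X) * h * (w : X)⁻¹) v := by
    intro h hh
    have hh' : (h : X) ≠ 1 := fun e => hh (Subtype.ext e)
    let f : K → K := fun w => ⟨(w : X) * h * (w : X)⁻¹ * (h : X)⁻¹, by
      have : (w : X) * h * (w : X)⁻¹ * (h : X)⁻¹ = (w : X) * (h * (w : X)⁻¹ * (h : X)⁻¹) := by group
      rw [this]
      exact mul_mem w.2 (hKn.conj_mem _ (inv_mem w.2) _)⟩
    have hf : Function.Injective f := by
      intro a b hab
      have h3 : (a : X) * h * (a : X)⁻¹ * (h : X)⁻¹ = (b : X) * h * (b : X)⁻¹ * (h : X)⁻¹ :=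
        congrArg Subtype.val hab
      have h4 : (a : X) * h * (a : X)⁻¹ = (b : X) * h * (b : X)⁻¹ := mul_right_cancel h3
      have h5 : (h : X) * ((b : X)⁻¹ * a) = ((b : X)⁻¹ * a) * h := by
        have : (b : X)⁻¹ * ((a : X) * h * (a : X)⁻¹) * a = (b : X)⁻¹ * ((b : X) * h * (b : X)⁻¹) * a := by
          rw [h4]
        have e1 : (b : X)⁻¹ * ((a : X) * h * (a : X)⁻¹) * a = (b : X)⁻¹ * a * h := by group
        have e2 : (b : X)⁻¹ * ((b : X) * h * (b : X)⁻¹) * a = (h : X) * ((b : X)⁻¹ * a) := by group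
        rw [e1, e2] at this
        exact this.symm
      have h6 := hfrob h h.2 hh' ((b : X)⁻¹ * a) (mul_mem (inv_mem b.2) a.2) h5
      have h7 : (a : X) = b := (inv_mul_eq_one.1 h6).symm
      exact Subtype.ext h7
    have hf' : Function.Bijective f := Finite.injective_iff_bijective.1 hf
    symm
    refine Fintype.prod_bijective f hf' _ _ ?_
    intro w
    show _ = φ (((w : X) * h * (w : X)⁻¹ * (h : X)⁻¹) * h) v
    rw [inv_mul_cancel_right]
  rw [h1, ← Finset.mul_prod_erase Finset.univ _ (Finset.mem_univ (1 : H))] at nX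
  have h3 : ∏ k : K, φ ((k : X) * ((1 : H) : X)) v = 1 := by
    simpa using nK v
  rw [h3, one_mul] at nX
  have h4 : ∏ h ∈ Finset.univ.erase (1 : H), ∏ k : K, φ ((k : X) * h) v
      = ∏ h ∈ Finset.univ.erase (1 : H), ∏ w : K, φ ((w : X) * h * (w : X)⁻¹) v :=
    Finset.prod_congr rfl fun h hh => h2 h (Finset.ne_of_mem_erase hh)
  rw [h4, Finset.prod_comm] at nX
  have h5 : ∀ w : K, ∏ h ∈ Finset.univ.erase (1 : H), φ ((w : X) * h * (w : X)⁻¹) v = v⁻¹ := by
    intro w
    have h6 : ∏ h : H, φ ((w : X) * h * (w : X)⁻¹) v = 1 := by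
      have : ∀ h : H, φ ((w : X) * h * (w : X)⁻¹) v = φ (w : X) (φ (h : X) (φ ((w : X)⁻¹) v)) := by
        intro h; rw [map_mul, map_mul]; rfl
      rw [Finset.prod_congr rfl (fun h _ => this h), ← map_prod, nH, map_one]
    rw [← Finset.mul_prod_erase Finset.univ _ (Finset.mem_univ (1 : H))] at h6
    have h7 : φ ((w : X) * ((1 : H) : X) * (w : X)⁻¹) v = v := by simp
    rw [h7] at h6
    exact eq_inv_of_mul_eq_one_right h6
  rw [Finset.prod_congr rfl (fun w _ => h5 w)] at nX
  rw [Finset.prod_const, Finset.card_univ, inv_pow, inv_eq_one, ← Nat.card_eq_fintype_card] at nX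
  exact nX

/-- ordered partial norms -/
def nu {P : Type*} [Group P] (β : MulAut P) (v : P) : ℕ → P
  | 0 => 1
  | (k + 1) => nu β v k * (β ^ k) v

theorem mul_apply_nu {P : Type*} [Group P] (β : MulAut P) (v : P) (k : ℕ) :
    v * β (nu β v k) = nu β v (k + 1) := by
  induction k with
  | zero => simp [nu]
  | succ k ih =>
    have h1 : β ((β ^ k) v) = (β ^ (k + 1)) v := by
      rw [pow_succ']; rfl
    calc v * β (nu β v (k + 1)) = v * β (nu β v k) * β ((β ^ k) v) := by
            show v * β (nu β v k * (β ^ k) v) = _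
            rw [map_mul, mul_assoc]
      _ = nu β v (k + 1) * (β ^ (k + 1)) v := by rw [ih, h1]
      _ = nu β v (k + 2) := rfl

theorem exists_fixed {P : Type*} [Group P] [Finite P] (hodd : Odd (Nat.card P))
    (hcl : ∀ x y : P, ⁅x, y⁆ ∈ center P) (β : MulAut P) (p : ℕ) (hβ : β ^ p = 1) (v : P) :
    ∃ w ∈ center P, β (nu β v p * w) = nu β v p * w := by
  classical
  letI : CommGroup (center P) := { (inferInstance : Group (center P)) with
    mul_comm := fun a b => Subtype.ext (mem_center_iff.1 b.2 a) }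
  -- the commutator homomorphism
  let F : P →* center P :=
    { toFun := fun x => ⟨⁅x, v⁆, hcl x v⟩
      map_one' := Subtype.ext (by show ⁅(1 : P), v⁆ = 1; simp)
      map_mul' := fun x y => Subtype.ext (by
        show ⁅x * y, v⁆ = ⁅x, v⁆ * ⁅y, v⁆
        have h1 : ⁅x * y, v⁆ = x * ⁅y, v⁆ * x⁻¹ * ⁅x, v⁆ := by
          simp only [commutatorElement_def]; group
        have h2 : x * ⁅y, v⁆ = ⁅y, v⁆ * x := mem_center_iff.1 (hcl y v) x
        have h3 : ⁅x, v⁆ * ⁅y, v⁆ = ⁅y, v⁆ * ⁅x, v⁆ := mem_center_iff.1 (hcl y v) ⁅x, v⁆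
        rw [h1, h2, mul_assoc ⁅y, v⁆, mul_inv_cancel, mul_one, h3]) }
  let B : MulAut (center P) := Subgroup.centerCongr β
  have hBval : ∀ z : center P, ((B z : center P) : P) = β z := fun z => rfl
  have hBpow : ∀ (k : ℕ) (z : center P), (((B ^ k) z : center P) : P) = (β ^ k) z := by
    intro k
    induction k with
    | zero => intro z; rfl
    | succ k ih =>
      intro z
      rw [pow_succ', pow_succ']
      show ((B ((B ^ k) z) : center P) : P) = β ((β ^ k) z)
      rw [hBval, ih]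
  let D : Subgroup (center P) := ((MonoidHom.id (center P)) * (B.toMonoidHom)⁻¹).range
  have hD1 : ∀ z : center P, z * (B z)⁻¹ ∈ D := fun z => ⟨z, rfl⟩
  have hDk : ∀ (k : ℕ) (z : center P), z * ((B ^ k) z)⁻¹ ∈ D := by
    intro k
    induction k with
    | zero => intro z; simp
    | succ k ih =>
      intro z
      have h1 := mul_mem (ih z) (hD1 ((B ^ k) z))
      have h2 : z * ((B ^ k) z)⁻¹ * ((B ^ k) z * (B ((B ^ k) z))⁻¹) = z * ((B ^ (k + 1)) z)⁻¹ := by
        rw [pow_succ']
        show _ = z * (B ((B ^ k) z))⁻¹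
        group
      rwa [h2] at h1
  let c : ℕ → center P := fun i => F ((β ^ i) v)
  have hc0 : c 0 = 1 := Subtype.ext (by show ⁅(β ^ 0) v, v⁆ = 1; simp)
  have hcp : c p = 1 := Subtype.ext (by show ⁅(β ^ p) v, v⁆ = 1; rw [hβ]; simp)
  have hFnu : ∀ k, F (nu β v k) = ∏ i ∈ Finset.range k, c i := by
    intro k
    induction k with
    | zero => simp [nu]
    | succ k ih =>
      rw [Finset.prod_range_succ, ← ih]
      show F (nu β v k * (β ^ k) v) = _
      rw [map_mul]
  have hcc : ∀ i ≤ p, c i * c (p - i) ∈ D := by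
    intro i hi
    have h1 : c (p - i) = ((B ^ (p - i)) (c i))⁻¹ := by
      apply Subtype.ext
      rw [Subgroup.coe_inv, hBpow]
      show ⁅(β ^ (p - i)) v, v⁆ = ((β ^ (p - i)) ⁅(β ^ i) v, v⁆)⁻¹
      rw [map_commutatorElement, commutatorElement_inv]
      have h2 : (β ^ (p - i)) ((β ^ i) v) = v := by
        have : (β ^ (p - i) * β ^ i) v = v := by
          rw [← pow_add, Nat.sub_add_cancel hi, hβ]; rfl
        exact this
      rw [h2]
    rw [h1]
    exact hDk _ _
  have hrefl : ∏ i ∈ Finset.range p, c (p - i) = ∏ i ∈ Finset.range p, c i := by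
    have h1 := Finset.prod_range_reflect (fun i => c (p - i)) p
    have h2 : ∏ j ∈ Finset.range p, c (p - (p - 1 - j)) = ∏ j ∈ Finset.range p, c (j + 1) := by
      apply Finset.prod_congr rfl
      intro j hj
      rw [Finset.mem_range] at hj
      congr 1
      omega
    have h3 : (∏ i ∈ Finset.range p, c i) * c p = (∏ i ∈ Finset.range p, c (i + 1)) * c 0 := by
      rw [← Finset.prod_range_succ, ← Finset.prod_range_succ']
    rw [hcp, hc0, mul_one, mul_one] at h3
    rw [← h1, h3]
    exact h2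
  have hsq : F (nu β v p) * F (nu β v p) ∈ D := by
    rw [hFnu]
    nth_rewrite 2 [← hrefl]
    rw [← Finset.prod_mul_distrib]
    apply Subgroup.prod_mem
    intro i hi
    exact hcc i (Finset.mem_range.1 hi).le
  have hmem : F (nu β v p) ∈ D := by
    have hoc : Odd (Nat.card (center P)) := Odd.of_dvd_nat hodd (card_subgroup_dvd_card _)
    obtain ⟨m, hm⟩ := hoc
    have h1 : F (nu β v p) = (F (nu β v p) * F (nu β v p)) ^ (m + 1) := by
      rw [← pow_two, ← pow_mul]
      have : 2 * (m + 1) = Nat.card (center P) + 1 := by omega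
      rw [this, pow_succ, pow_card_eq_one', one_mul]
    rw [h1]
    exact pow_mem hsq _
  obtain ⟨w, hw⟩ := hmem
  refine ⟨w, w.2, ?_⟩
  have hw' : (w : P) * (β w)⁻¹ = ⁅nu β v p, v⁆ := congrArg Subtype.val hw
  have h1 : v * β (nu β v p) = nu β v p * v := by
    rw [mul_apply_nu]
    show nu β v p * (β ^ p) v = _
    rw [hβ]; rfl
  have h2 : ⁅nu β v p, v⁆ * v = v * ⁅nu β v p, v⁆ := (mem_center_iff.1 (hcl _ _) v).symm
  have h3 : β (nu β v p) = nu β v p * ⁅nu β v p, v⁆ := by
    apply mul_left_cancel (a := v)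
    rw [h1]
    have h4 : nu β v p * v = ⁅nu β v p, v⁆ * (v * nu β v p) := by
      simp only [commutatorElement_def]; group
    rw [h4, ← mul_assoc, h2]
    rw [mul_assoc, ← mem_center_iff.1 (hcl (nu β v p) v) (nu β v p)]
  have h5 : β (w : P) ∈ center P := (B w).2
  rw [map_mul, h3, ← hw']
  rw [mul_assoc, inv_mul_cancel_right]

end Cfsg.Agent.H2.InvNorm
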