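import Mathlib
import Cfsg.Prelude
import Cfsg.Agent.H2.InvNorm
import Cfsg.Agent.H2.Basic
import Cfsg.Agent.H23.Coprime3
import Cfsg.Agent.H1.Hall

set_option autoImplicit false
set_option linter.all false

namespace Cfsg.Agent.H2.InvSub

open Cfsg Subgroup Cfsg.Agent.H2.InvNorm
open scoped commutatorElement

noncomputable def cAut {G : Type*} [Group G] (V F : Subgroup G)
    (h : F ≤ Subgroup.normalizer (V : Set G)) : F →* MulAut V where
  toFun f := {
    toFun := fun v => ⟨f * v * (f : G)⁻¹, (Subgroup.mem_normalizer_iff.1 (h f.2) v).1 v.2⟩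
    invFun := fun v => ⟨(f : G)⁻¹ * v * f, by
      have := (Subgroup.mem_normalizer_iff.1 (inv_mem (h f.2)) v).1 v.2
      simpa using this⟩
    left_inv := fun v => Subtype.ext (by show (f : G)⁻¹ * (f * v * (f : G)⁻¹) * f = v; group)
    right_inv := fun v => Subtype.ext (by show (f : G) * ((f : G)⁻¹ * v * f) * (f : G)⁻¹ = v; group)
    map_mul' := fun a b => Subtype.ext (by
      show (f : G) * (a * b) * (f : G)⁻¹ = (f * a * (f : G)⁻¹) * (f * b * (f : G)⁻¹); group) }
  map_one' := by
    ext v
    show (1 : G) * v * (1 : G)⁻¹ = v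
    group
  map_mul' a b := by
    ext v
    show ((a : G) * b) * v * ((a : G) * b)⁻¹ = a * (b * v * (b : G)⁻¹) * (a : G)⁻¹
    group

theorem cAut_apply {G : Type*} [Group G] (V F : Subgroup G)
    (h : F ≤ Subgroup.normalizer (V : Set G)) (f : F) (v : V) :
    ((cAut V F h f v : V) : G) = f * v * (f : G)⁻¹ := rfl

noncomputable def abAut (W : Type*) [Group W] : MulAut W →* MulAut (Abelianization W) where
  toFun f := MulEquiv.abelianizationCongr f
  map_one' := by
    ext v
    obtain ⟨w, rfl⟩ := QuotientGroup.mk'_surjective _ v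
    rfl
  map_mul' a b := by
    ext v
    obtain ⟨w, rfl⟩ := QuotientGroup.mk'_surjective _ v
    rfl

theorem abAut_of {W : Type*} [Group W] (f : MulAut W) (w : W) :
    abAut W f (Abelianization.of w) = Abelianization.of (f w) := rfl

theorem exists_fixed_of_special {G : Type*} [Group G] [Finite G] {p : ℕ} [Fact p.Prime] (hp : p ≠ 2)
    (W T : Subgroup G) (b : G) (hb : b ^ p = 1) (hb1 : b ≠ 1) (hbW : b ∈ normalizer (W : Set G))
    (hTW : T ≤ normalizer (W : Set G)) (hbT : b ∈ normalizer (T : Set G)) (hW : IsPGroup p W)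
    (hT : (Nat.card T).Coprime p) (hCT : ∀ t ∈ T, b * t = t * b → t = 1)
    (hne : ⁅W, T⁆ ≠ ⊥) (hWT : ⁅W, T⁆ = W) (hsp : IsSpecial p W) :
    ∃ x ∈ W, b * x = x * b ∧ x ∉ ⁅W, W⁆ := by
  classical
  have hpp : p.Prime := Fact.out
  have hob : orderOf b = p := orderOf_eq_prime hb hb1
  obtain ⟨X, hX⟩ : ∃ X : Subgroup G, X = T ⊔ zpowers b := ⟨_, rfl⟩
  have hTX : T ≤ X := hX ▸ le_sup_left
  have hbX : b ∈ X := hX ▸ (le_sup_right : zpowers b ≤ T ⊔ zpowers b) (mem_zpowers b)
  have hXW : X ≤ normalizer (W : Set G) := by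
    rw [hX]; exact sup_le hTW (zpowers_le.2 hbW)
  have hXT : X ≤ normalizer (T : Set G) := by
    rw [hX]; exact sup_le le_normalizer (zpowers_le.2 hbT)
  let b' : X := ⟨b, hbX⟩
  have hob' : orderOf b' = p := by
    rw [← hob]; exact (Subgroup.orderOf_coe b').symm
  let K : Subgroup X := T.subgroupOf X
  let H : Subgroup X := zpowers b'
  have hKn : K.Normal := (normal_subgroupOf_iff_le_normalizer hTX).2 hXT
  have hcK : Nat.card K = Nat.card T := Nat.card_congr (subgroupOfEquivOfLe hTX).toEquiv
  have hcH : Nat.card H = p := by rw [Nat.card_zpowers, hob']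
  have hcX : Nat.card K * Nat.card H = Nat.card X := by
    have h1 := H1.card_sup_of_coprime (H := T) (K := zpowers b) (zpowers_le.2 hbT)
      (by rw [Nat.card_zpowers, hob]; exact hT)
    rw [Nat.card_zpowers, hob, ← hX] at h1
    rw [hcK, hcH, h1]
  have hc : Subgroup.IsComplement' K H := by
    apply isComplement'_of_coprime hcX
    rw [hcK, hcH]; exact hT
  have hfrob : ∀ h ∈ H, h ≠ 1 → ∀ k ∈ K, h * k = k * h → k = 1 := by
    intro h hh hne k hk hcomm
    apply Subtype.ext
    apply hCT k hk
    have h1 : orderOf h = p := by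
      apply orderOf_eq_prime _ hne
      have h2 : orderOf h ∣ p := by rw [← hcH]; exact Subgroup.orderOf_dvd_natCard H hh
      exact orderOf_dvd_iff_pow_eq_one.1 h2
    have h3 : zpowers h = H := by
      apply Subgroup.eq_of_le_of_card_ge (zpowers_le.2 hh)
      rw [hcH, Nat.card_zpowers, h1]
    have h4 : b' ∈ zpowers h := by rw [h3]; exact mem_zpowers b'
    obtain ⟨m, hm⟩ := mem_zpowers_iff.1 h4
    have h5 : Commute h k := hcomm
    have h6 : b' * k = k * b' := by rw [← hm]; exact (h5.zpow_left m).eq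
    exact congrArg Subtype.val h6
  let α : X →* MulAut W := cAut W X hXW
  let φ : X →* MulAut (Abelianization W) := (abAut W).comp α
  have hφ : ∀ (x : X) (w : W), φ x (Abelianization.of w) = Abelianization.of (α x w) := fun x w => rfl
  have hof1 : ∀ w : W, Abelianization.of w = 1 ↔ w ∈ commutator W := by
    intro w
    rw [← MonoidHom.mem_ker, Abelianization.ker_of]
  have hmem : ∀ w : W, w ∈ commutator W ↔ (w : G) ∈ ⁅W, W⁆ := by
    intro w
    rw [← map_subtype_commutator]
    constructor
    · intro h; exact ⟨w, h, rfl⟩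
    · rintro ⟨u, hu, hu'⟩
      have : u = w := Subtype.ext hu'
      rwa [← this]
  have hcop : (Nat.card T).Coprime (Nat.card W) := H23.card_coprime_of_isPGroup hW hT
  have hWs : Group.IsSolvable W := H23.isSolvable_of_isPGroup hW
  have hK : ∀ v, (∀ k ∈ K, φ k v = v) → v = 1 := by
    intro v hv
    obtain ⟨w, rfl⟩ := QuotientGroup.mk'_surjective _ v
    change ∀ k ∈ K, φ k (Abelianization.of w) = Abelianization.of w at hv
    show Abelianization.of w = 1
    let U' : Subgroup W :=
      { carrier := {w | ∀ k ∈ K, φ k (Abelianization.of w) = Abelianization.of w}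
        one_mem' := fun k hk => by simp
        mul_mem' := fun {a c} ha hc k hk => by rw [map_mul, map_mul, ha k hk, hc k hk]
        inv_mem' := fun {a} ha k hk => by rw [map_inv, map_inv, ha k hk] }
    have h1 : U'.map W.subtype = ⁅W, W⁆ := by
      apply H23.eq_of_commutator_le_of_abelian_quotient hTW hcop (Or.inr hWs) hWT le_rfl
      · intro t ht
        have h0 := H23.normalizer_le_normalizer_map (_root_.commutator W) (hTW ht)
        rwa [map_subtype_commutator] at h0
      · intro x hx
        have hxW : x ∈ W := by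
          rw [← map_subtype_commutator] at hx
          obtain ⟨u, -, rfl⟩ := hx
          exact u.2
        refine ⟨⟨x, hxW⟩, ?_, rfl⟩
        intro k hk
        have h2 : Abelianization.of (⟨x, hxW⟩ : W) = 1 := (hof1 _).2 ((hmem _).2 hx)
        rw [h2, map_one]
      · rintro _ ⟨u, -, rfl⟩; exact u.2
      · rw [commutator_le]
        rintro _ ⟨u, hu, rfl⟩ t ht
        have h2 := hu ⟨t, hTX ht⟩ ht
        rw [hφ] at h2
        have h3 : Abelianization.of (u * (α ⟨t, hTX ht⟩ u)⁻¹) = 1 := by
          rw [map_mul, map_inv, h2, mul_inv_cancel]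
        have h4 := (hmem _).1 ((hof1 _).1 h3)
        have h5 : ((u * (α ⟨t, hTX ht⟩ u)⁻¹ : W) : G) = ⁅(u : G), t⁆ := by
          show (u : G) * (t * u * t⁻¹)⁻¹ = _
          simp only [commutatorElement_def]; group
        rw [h5] at h4
        exact h4
    rw [hof1, hmem, ← h1]
    exact ⟨w, hv, rfl⟩
  have hWne : W ≠ ⊥ := by
    rintro rfl
    exact hne (by rw [commutator_bot_left])
  -- a nontrivial norm
  have hnt : ∃ w : W, ∏ i ∈ Finset.range p, φ (b' ^ i) (Abelianization.of w) ≠ 1 := by
    by_contra hcon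
    push Not at hcon
    have h1 : ∀ v : Abelianization W, v ^ (Nat.card K) = 1 := by
      apply frob_norm' φ K H hKn hc hfrob hK
      intro inst v
      obtain ⟨w, rfl⟩ := QuotientGroup.mk'_surjective _ v
      rw [← hcon w]
      have h2 : ∏ k : H, φ (k : X) (Abelianization.of w)
          = ∏ i : Fin (orderOf b'), φ (b' ^ (i : ℕ)) (Abelianization.of w) := by
        symm
        apply Fintype.prod_equiv (finEquivZPowers (isOfFinOrder_of_finite b'))
        intro i
        rfl
      rw [← hob', ← Fin.prod_univ_eq_prod_range (fun i => φ (b' ^ i) (Abelianization.of w))]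
      exact h2
    -- then `V` is trivial
    have h2 : commutator W = ⊤ := by
      rw [eq_top_iff]
      intro w _
      rw [← hof1]
      obtain ⟨n, hn⟩ := IsPGroup.iff_card.1 hW
      have h3 : (Abelianization.of w) ^ (p ^ n) = 1 := by
        rw [← map_pow, ← hn, pow_card_eq_one', map_one]
      have h4 := h1 (Abelianization.of w)
      have h5 : (Nat.card K).Coprime (p ^ n) := by rw [hcK]; exact Nat.Coprime.pow_right _ hT
      have h6 := Nat.dvd_gcd (orderOf_dvd_of_pow_eq_one h4) (orderOf_dvd_of_pow_eq_one h3)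
      rw [h5, Nat.dvd_one, orderOf_eq_one_iff] at h6
      exact h6
    have h3 : center W = ⊤ := by rw [← hsp.2.2, h2]
    have h4 : commutator W = ⊥ := by
      rw [_root_.commutator_def, commutator_eq_bot_iff_le_centralizer, ← h3]
      rw [h3]
      intro x _
      rw [mem_centralizer_iff]
      intro y _
      exact (mem_center_iff.1 (show x ∈ center W by rw [h3]; exact mem_top x) y)
    apply hWne
    rw [eq_bot_iff]
    intro x hx
    have h5 : (⟨x, hx⟩ : W) ∈ (⊥ : Subgroup W) := by rw [← h4, h2]; exact mem_top _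
    rw [mem_bot] at h5 ⊢
    exact congrArg Subtype.val h5
  obtain ⟨w, hw⟩ := hnt
  let β : MulAut W := α b'
  have hβp : β ^ p = 1 := by
    show (α b') ^ p = 1
    rw [← map_pow]
    have : b' ^ p = 1 := by rw [← hob']; exact pow_orderOf_eq_one b'
    rw [this, map_one]
  have hnu : ∀ k, Abelianization.of (nu β w k) = ∏ i ∈ Finset.range k, φ (b' ^ i) (Abelianization.of w) := by
    intro k
    induction k with
    | zero => simp [nu]
    | succ k ih =>
      rw [Finset.prod_range_succ, ← ih]
      show Abelianization.of (nu β w k * (β ^ k) w) = _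
      rw [map_mul, hφ, map_pow]
  have hnc : nu β w p ∉ commutator W := by
    intro h
    apply hw
    rw [← hnu p, hof1]; exact h
  have hodd : Odd (Nat.card W) := by
    obtain ⟨n, hn⟩ := IsPGroup.iff_card.1 hW
    rw [hn]; exact (hpp.odd_of_ne_two hp).pow
  have hcl : ∀ x y : W, ⁅x, y⁆ ∈ center W := by
    intro x y
    rw [← hsp.2.2]
    exact commutator_mem_commutator (mem_top x) (mem_top y)
  obtain ⟨z, hz, hfix⟩ := exists_fixed hodd hcl β p hβp w
  refine ⟨(nu β w p * z : W), (nu β w p * z).2, ?_, ?_⟩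
  · have h1 := congrArg Subtype.val hfix
    have h2 : b * ((nu β w p * z : W) : G) * b⁻¹ = ((nu β w p * z : W) : G) := h1
    calc b * ((nu β w p * z : W) : G) = b * ((nu β w p * z : W) : G) * b⁻¹ * b := by group
      _ = _ := by rw [h2]
  · rw [← hmem, hsp.2.2]
    intro h
    apply hnc
    rw [hsp.2.2]
    have := mul_mem h (inv_mem hz)
    rwa [mul_inv_cancel_right] at this

end Cfsg.Agent.H2.InvSub
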