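import Mathlib
import Cfsg.Agent.H2.GlaubRep

/-!
# `p`-central `p`-groups, `p` odd
-/

set_option autoImplicit false
set_option linter.all false

namespace Cfsg.Agent.H2.PCentral

open Subgroup
open scoped commutatorElement

universe u

theorem mul_pow_odd {G : Type*} [Group G] {p : ℕ} (hp : p.Prime) (hp2 : p ≠ 2) {x y : G}
    (hx : Commute x ⁅y, x⁆) (hy : Commute y ⁅y, x⁆) (h : ⁅y, x⁆ ^ p = 1) :
    (x * y) ^ p = x ^ p * y ^ p := by
  rw [mul_pow_of_comm hx hy]
  obtain ⟨k, hk⟩ := hp.odd_of_ne_two hp2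
  have h1 : p * (p - 1) / 2 = p * k := by
    have : p - 1 = 2 * k := by omega
    rw [this, show p * (2 * k) = 2 * (p * k) by ring]
    exact Nat.mul_div_cancel_left _ (by norm_num)
  rw [h1, pow_mul, h, one_pow, mul_one]

/-- every element of order `p` is central -/
def PCen (p : ℕ) (P : Type*) [Group P] : Prop := ∀ x : P, x ^ p = 1 → x ∈ center P

theorem comm_pow {p : ℕ} (hp : p.Prime) (hp2 : p ≠ 2) : ∀ (n : ℕ) (P : Type u) [Group P] [Finite P],
    Nat.card P = n → IsPGroup p P → PCen p P → ∀ x : P, x ^ p ^ 2 = 1 → ∀ g : P, ⁅g, x⁆ ^ p = 1 := by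
  haveI : Fact p.Prime := ⟨hp⟩
  intro n
  induction n using Nat.strong_induction_on with
  | _ n ih =>
    intro P _ _ hn hP hcen x hx g
    by_cases hz : zpowers x = ⊤
    · have hg : g ∈ zpowers x := by rw [hz]; exact mem_top g
      obtain ⟨k, rfl⟩ := mem_zpowers_iff.1 hg
      have : ⁅x ^ k, x⁆ = 1 := commutatorElement_eq_one_iff_commute.2 ((Commute.refl x).zpow_left k)
      rw [this, one_pow]
    · obtain ⟨M, hM, hxM⟩ := (eq_top_or_exists_le_coatom (zpowers x)).resolve_left hz
      haveI : Group.IsNilpotent P := hP.isNilpotent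
      haveI hMn : M.Normal := (Group.normalizerCondition_of_isNilpotent (G := P)).normal_of_coatom M hM
      have hxM' : x ∈ M := hxM (mem_zpowers x)
      have hgM : g * x * g⁻¹ ∈ M := hMn.conj_mem x hxM' g
      have hcard : Nat.card M < n := by
        rw [← hn]
        by_contra hcon
        exact hM.1 (Subgroup.eq_top_of_le_card M (not_lt.1 hcon))
      have h1 := ih (Nat.card M) hcard M rfl (hP.to_subgroup M) (by
        intro m hm
        rw [mem_center_iff]
        intro m'
        have hm' : (m : P) ^ p = 1 := congrArg Subtype.val hm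
        exact Subtype.ext (mem_center_iff.1 (hcen m hm') m')) ⟨x, hxM'⟩
        (Subtype.ext (by simpa using hx)) ⟨g * x * g⁻¹, hgM⟩
      have h2 : ⁅g * x * g⁻¹, x⁆ ^ p = 1 := congrArg Subtype.val h1
      have h3 : ⁅g * x * g⁻¹, x⁆ ∈ center P := hcen _ h2
      obtain ⟨z, hzdef⟩ : ∃ z, z = ⁅g * x * g⁻¹, x⁆ := ⟨_, rfl⟩
      rw [← hzdef] at h2 h3
      have hzc : ∀ y : P, y * z = z * y := mem_center_iff.1 h3
      -- `⁅x⁻¹, x'⁆ = z`
      have h4 : ⁅x⁻¹, g * x * g⁻¹⁆ = z := by
        have e1 : (g * x * g⁻¹) * x = z * (x * (g * x * g⁻¹)) := by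
          rw [hzdef, commutatorElement_def]; group
        have e2 : x⁻¹ * ((g * x * g⁻¹) * x) * (g * x * g⁻¹)⁻¹ = z := by
          rw [e1, ← mul_assoc x⁻¹ z, hzc x⁻¹]; group
        rw [commutatorElement_def, ← e2]; group
      have h5 : ((g * x * g⁻¹) * x⁻¹) ^ p = (g * x * g⁻¹) ^ p * x⁻¹ ^ p := by
        apply mul_pow_odd hp hp2
        · rw [h4]; exact hzc _
        · rw [h4]; exact hzc _
        · rw [h4]; exact h2
      have h6 : x ^ p ∈ center P := by
        apply hcen
        rw [← pow_mul, ← pow_two]; exact hx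
      have h7 : ⁅g, x⁆ = (g * x * g⁻¹) * x⁻¹ := by rw [commutatorElement_def]
      rw [h7, h5, conj_pow, mem_center_iff.1 h6 g, mul_inv_cancel_right, inv_pow, mul_inv_cancel]

/-- `Ω₁` of a `p`-central group -/
def Om {p : ℕ} {P : Type*} [Group P] (h : PCen p P) : Subgroup P where
  carrier := {x | x ^ p = 1}
  one_mem' := one_pow p
  mul_mem' {a b} ha hb := by
    show (a * b) ^ p = 1
    have hab : Commute a b := (mem_center_iff.1 (h b hb) a)
    rw [hab.mul_pow, show a ^ p = 1 from ha, show b ^ p = 1 from hb, one_mul]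
  inv_mem' {a} ha := by
    show a⁻¹ ^ p = 1
    rw [inv_pow, show a ^ p = 1 from ha, inv_one]

theorem mem_Om {p : ℕ} {P : Type*} [Group P] (h : PCen p P) (x : P) : x ∈ Om h ↔ x ^ p = 1 := Iff.rfl

instance Om_normal {p : ℕ} {P : Type*} [Group P] (h : PCen p P) : (Om h).Normal :=
  ⟨fun x hx g => by rw [mem_Om] at hx ⊢; rw [conj_pow, hx, mul_one, mul_inv_cancel]⟩

theorem pCen_quotient {p : ℕ} (hp : p.Prime) (hp2 : p ≠ 2) {P : Type u} [Group P] [Finite P]
    (hP : IsPGroup p P) (h : PCen p P) : PCen p (P ⧸ Om h) := by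
  intro q hq
  obtain ⟨x, rfl⟩ := QuotientGroup.mk'_surjective _ q
  have h1 : x ^ p ∈ Om h := by
    rw [← QuotientGroup.eq_one_iff]
    exact hq
  have h2 : x ^ p ^ 2 = 1 := by
    rw [mem_Om, ← pow_mul, ← pow_two] at h1; exact h1
  rw [mem_center_iff]
  intro q'
  obtain ⟨g, rfl⟩ := QuotientGroup.mk'_surjective _ q'
  have h3 := comm_pow hp hp2 (Nat.card P) P rfl hP h x h2 g
  have h4 : QuotientGroup.mk' (Om h) ⁅g, x⁆ = 1 := (QuotientGroup.eq_one_iff _).2 h3
  rw [map_commutatorElement, commutatorElement_eq_one_iff_mul_comm] at h4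
  exact h4

theorem card_quotient_le {p : ℕ} (hp : p.Prime) (hp2 : p ≠ 2) {P : Type u} [Group P] [Finite P]
    (hP : IsPGroup p P) (h : PCen p P) :
    Nat.card {q : P ⧸ Om h // q ^ p = 1} ≤ Nat.card {x : P // x ^ p = 1} := by
  have key : ∀ q : P ⧸ Om h, q ^ p = 1 → (q.out : P) ^ p ^ 2 = 1 := by
    intro q hq
    have h1 : (q.out : P) ^ p ∈ Om h := by
      rw [← QuotientGroup.eq_one_iff, QuotientGroup.mk_pow, QuotientGroup.out_eq']
      exact hq
    rw [mem_Om, ← pow_mul, ← pow_two] at h1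
    exact h1
  let f : {q : P ⧸ Om h // q ^ p = 1} → {x : P // x ^ p = 1} := fun q =>
    ⟨(q.1.out : P) ^ p, by rw [← pow_mul, ← pow_two]; exact key q.1 q.2⟩
  apply Nat.card_le_card_of_injective f
  intro q r hqr
  have h1 : (q.1.out : P) ^ p = (r.1.out : P) ^ p := congrArg Subtype.val hqr
  have h2 := comm_pow hp hp2 (Nat.card P) P rfl hP h (q.1.out) (key q.1 q.2) (r.1.out)⁻¹
  have h3 := h _ h2
  have h4 : ((q.1.out : P) * (r.1.out : P)⁻¹) ^ p = (q.1.out : P) ^ p * (r.1.out : P)⁻¹ ^ p := by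
    apply mul_pow_odd hp hp2
    · exact mem_center_iff.1 h3 _
    · exact mem_center_iff.1 h3 _
    · exact h2
  have h5 : (q.1.out : P) * (r.1.out : P)⁻¹ ∈ Om h := by
    rw [mem_Om, h4, h1, inv_pow, mul_inv_cancel]
  have h6 : (q.1 : P ⧸ Om h) = r.1 := by
    have h7 : (QuotientGroup.mk' (Om h)) ((q.1.out : P) * (r.1.out : P)⁻¹) = 1 :=
      (QuotientGroup.eq_one_iff _).2 h5
    rw [map_mul, map_inv, mul_inv_eq_one] at h7
    have e1 : QuotientGroup.mk' (Om h) (q.1.out : P) = q.1 := QuotientGroup.out_eq' q.1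
    have e2 : QuotientGroup.mk' (Om h) (r.1.out : P) = r.1 := QuotientGroup.out_eq' r.1
    rw [e1, e2] at h7
    exact h7
  exact Subtype.ext h6

theorem exists_omega {p : ℕ} (hp : p.Prime) (hp2 : p ≠ 2) (m : ℕ) : ∀ (n : ℕ) (P : Type u) [Group P]
    [Finite P], Nat.card P = n → IsPGroup p P → Nontrivial P → PCen p P →
    Nat.card {x : P // x ^ p = 1} ≤ m →
    ∃ (k : ℕ) (M : Subgroup P), (∀ x, x ∈ M ↔ x ^ p ^ k = 1) ∧ M ≠ ⊤ ∧ M.index ≤ m := by
  haveI : Fact p.Prime := ⟨hp⟩
  intro n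
  induction n using Nat.strong_induction_on with
  | _ n ih =>
    intro P _ _ hn hP hnt hcen hcard
    by_cases htop : Om hcen = ⊤
    · refine ⟨0, ⊥, ?_, bot_ne_top, ?_⟩
      · intro x; simp
      · rw [index_bot]
        refine le_trans (le_of_eq ?_) hcard
        apply Nat.card_congr
        refine (Equiv.subtypeUnivEquiv ?_).symm
        intro x
        have : x ∈ Om hcen := by rw [htop]; exact mem_top x
        exact this
    · have hne : Om hcen ≠ ⊥ := by
        intro h
        obtain ⟨k, hk⟩ := IsPGroup.iff_card.1 hP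
        have hk0 : k ≠ 0 := by
          rintro rfl
          rw [pow_zero] at hk
          exact absurd hk (Finite.one_lt_card (α := P)).ne'
        obtain ⟨x, hx⟩ := exists_prime_orderOf_dvd_card' (G := P) p (by rw [hk]; exact dvd_pow_self p hk0)
        have h1 : x ∈ Om hcen := by rw [mem_Om, ← hx]; exact pow_orderOf_eq_one x
        rw [h, mem_bot] at h1
        rw [h1, orderOf_one] at hx
        exact hp.one_lt.ne hx
      have hlt : Nat.card (P ⧸ Om hcen) < n := by
        rw [← hn, ← index_eq_card]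
        have h1 := (Om hcen).card_mul_index
        have h2 : 1 < Nat.card (Om hcen) := (one_lt_card_iff_ne_bot _).2 hne
        have h3 : 0 < (Om hcen).index := Nat.pos_of_ne_zero index_ne_zero_of_finite
        nlinarith
      haveI : Nontrivial (P ⧸ Om hcen) := QuotientGroup.nontrivial_iff.2 htop
      obtain ⟨k, M', hM', hM'top, hM'i⟩ := ih _ hlt (P ⧸ Om hcen) rfl (hP.to_quotient _) inferInstance
        (pCen_quotient hp hp2 hP hcen) ((card_quotient_le hp hp2 hP hcen).trans hcard)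
      refine ⟨k + 1, M'.comap (QuotientGroup.mk' _), ?_, ?_, ?_⟩
      · intro x
        rw [mem_comap, hM', ← map_pow]
        have : QuotientGroup.mk' (Om hcen) (x ^ p ^ k) = 1 ↔ x ^ p ^ k ∈ Om hcen := QuotientGroup.eq_one_iff _
        rw [this, mem_Om, ← pow_mul, ← pow_succ]
      · intro h
        apply hM'top
        rw [eq_top_iff]
        intro q _
        obtain ⟨x, rfl⟩ := QuotientGroup.mk'_surjective _ q
        have : x ∈ M'.comap (QuotientGroup.mk' (Om hcen)) := by rw [h]; exact mem_top x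
        exact this
      · rw [index_comap_of_surjective _ (QuotientGroup.mk'_surjective _)]
        exact hM'i

end Cfsg.Agent.H2.PCentral
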