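import Mathlib
import Cfsg.Agent.H2.PCentral
import Cfsg.Agent.H23.RankOne
import Cfsg.Agent.H23.Coprime2

/-!
# `p`-groups of rank at most two, `p` odd: a characteristic subgroup of index at most `p²`
-/

set_option autoImplicit false
set_option linter.all false

namespace Cfsg.Agent.H2.PRank2

open Subgroup Cfsg.Agent.H2.PCentral
open scoped commutatorElement

universe u

/-- the group `A⟨x⟩` for `x` centralizing `A` -/
def ext {P : Type*} [Group P] (A : Subgroup P) (x : P) (h : ∀ a ∈ A, a * x = x * a) : Subgroup P where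
  carrier := {y | ∃ a ∈ A, ∃ k : ℤ, y = a * x ^ k}
  one_mem' := ⟨1, one_mem _, 0, by simp⟩
  mul_mem' := by
    rintro _ _ ⟨a, ha, k, rfl⟩ ⟨b, hb, l, rfl⟩
    refine ⟨a * b, mul_mem ha hb, k + l, ?_⟩
    have h1 : Commute b x := h b hb
    have h2 : x ^ k * b = b * x ^ k := ((h1.zpow_right k).eq).symm
    rw [_root_.zpow_add]
    calc a * x ^ k * (b * x ^ l) = a * (x ^ k * b) * x ^ l := by group
      _ = a * b * (x ^ k * x ^ l) := by rw [h2]; group
  inv_mem' := by
    rintro _ ⟨a, ha, k, rfl⟩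
    refine ⟨a⁻¹, inv_mem ha, -k, ?_⟩
    have h1 : Commute a⁻¹ x := h a⁻¹ (inv_mem ha)
    have h2 := (h1.zpow_right (-k)).eq
    rw [mul_inv_rev, ← _root_.zpow_neg, h2]

section
variable {P : Type u} [Group P] [Finite P] {p : ℕ} [hpF : Fact p.Prime]

theorem le_ext (A : Subgroup P) (x : P) (h : ∀ a ∈ A, a * x = x * a) : A ≤ ext A x h :=
  fun a ha => ⟨a, ha, 0, by simp⟩

theorem mem_ext (A : Subgroup P) (x : P) (h : ∀ a ∈ A, a * x = x * a) : x ∈ ext A x h :=
  ⟨1, one_mem _, 1, by simp⟩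

theorem ext_comm (A : Subgroup P) (hA : ∀ a ∈ A, ∀ b ∈ A, a * b = b * a) (x : P)
    (h : ∀ a ∈ A, a * x = x * a) : ∀ a ∈ ext A x h, ∀ b ∈ ext A x h, a * b = b * a := by
  rintro _ ⟨a, ha, k, rfl⟩ _ ⟨b, hb, l, rfl⟩
  have h1 : Commute a b := hA a ha b hb
  have h2 : Commute a x := h a ha
  have h3 : Commute b x := h b hb
  have h4 : Commute (a * x ^ k) (b * x ^ l) :=
    (h1.mul_right (h2.zpow_right l)).mul_left
      (((h3.zpow_right k).symm).mul_right (((Commute.refl x).zpow_left k).zpow_right l))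
  exact h4.eq

theorem ext_exp (A : Subgroup P) (hAp : ∀ a ∈ A, a ^ p = 1) (x : P) (hx : x ^ p = 1)
    (h : ∀ a ∈ A, a * x = x * a) : ∀ a ∈ ext A x h, a ^ p = 1 := by
  rintro _ ⟨a, ha, k, rfl⟩
  have h2 : Commute a x := h a ha
  rw [(h2.zpow_right k).mul_pow, hAp a ha, one_mul, ← zpow_natCast, ← _root_.zpow_mul, mul_comm,
    _root_.zpow_mul, zpow_natCast, hx, _root_.one_zpow]

theorem ext_card (hP : IsPGroup p P)
    (hr : ∀ A : Subgroup P, IsMulCommutative A → (∀ a ∈ A, a ^ p = 1) → Nat.card A ≤ p ^ 2)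
    (A : Subgroup P) (hA : ∀ a ∈ A, ∀ b ∈ A, a * b = b * a) (hAp : ∀ a ∈ A, a ^ p = 1) (x : P)
    (hx : x ^ p = 1) (h : ∀ a ∈ A, a * x = x * a) (hxA : x ∉ A) :
    p * Nat.card A ≤ Nat.card (ext A x h) ∧ Nat.card (ext A x h) ≤ p ^ 2 := by
  refine ⟨?_, ?_⟩
  · obtain ⟨m, hm⟩ := card_dvd_of_le (le_ext A x h)
    obtain ⟨n, hn⟩ := IsPGroup.iff_card.1 (hP.to_subgroup (ext A x h))
    have h1 : m ∣ p ^ n := by rw [← hn, hm]; exact dvd_mul_left m _
    obtain ⟨j, hj, rfl⟩ := (Nat.dvd_prime_pow hpF.out).1 h1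
    have hj0 : j ≠ 0 := by
      rintro rfl
      rw [pow_zero, mul_one] at hm
      have h2 := Subgroup.eq_of_le_of_card_ge (le_ext A x h) hm.le
      exact hxA (h2 ▸ mem_ext A x h)
    rw [hm, mul_comm]
    exact Nat.mul_le_mul_left _ (Nat.le_of_dvd (pow_pos hpF.out.pos _) (dvd_pow_self p hj0))
  · apply hr
    · exact ⟨⟨fun a b => Subtype.ext (ext_comm A hA x h a a.2 b b.2)⟩⟩
    · exact ext_exp A hAp x hx h

/-- `g ↦ ⁅g, d⁆` -/
def cH (d : P) (hd : ∀ g : P, ⁅g, d⁆ ∈ center P) : P →* P where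
  toFun g := ⁅g, d⁆
  map_one' := by simp
  map_mul' x y := by
    have h1 : ⁅x * y, d⁆ = x * ⁅y, d⁆ * x⁻¹ * ⁅x, d⁆ := by
      simp only [commutatorElement_def]; group
    have h2 : x * ⁅y, d⁆ = ⁅y, d⁆ * x := mem_center_iff.1 (hd y) x
    have h3 : ⁅x, d⁆ * ⁅y, d⁆ = ⁅y, d⁆ * ⁅x, d⁆ := mem_center_iff.1 (hd y) ⁅x, d⁆
    show ⁅x * y, d⁆ = ⁅x, d⁆ * ⁅y, d⁆
    rw [h1, h2, mul_assoc ⁅y, d⁆, mul_inv_cancel, mul_one, h3]

theorem cH_apply (d : P) (hd : ∀ g : P, ⁅g, d⁆ ∈ center P) (g : P) : cH d hd g = ⁅g, d⁆ := rfl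

/-- `Ω₁(Z₂(P))` -/
def DD (hp2 : p ≠ 2) : Subgroup P where
  carrier := {d | d ^ p = 1 ∧ ∀ g : P, ⁅g, d⁆ ∈ center P}
  one_mem' := ⟨one_pow p, fun g => by simp [one_mem]⟩
  mul_mem' := by
    rintro a b ⟨ha1, ha2⟩ ⟨hb1, hb2⟩
    refine ⟨?_, ?_⟩
    · have h1 : ⁅b, a⁆ ^ p = 1 := by
        rw [← cH_apply a ha2, ← map_pow, hb1, map_one]
      rw [mul_pow_odd hpF.out hp2 (mem_center_iff.1 (ha2 b) a) (mem_center_iff.1 (ha2 b) b) h1, ha1,
        hb1, one_mul]
    · intro g
      have h1 : ⁅g, a * b⁆ = ⁅g, a⁆ * (a * ⁅g, b⁆ * a⁻¹) := by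
        simp only [commutatorElement_def]; group
      have h2 : a * ⁅g, b⁆ * a⁻¹ = ⁅g, b⁆ := by
        rw [mem_center_iff.1 (hb2 g) a, mul_inv_cancel_right]
      rw [h1, h2]
      exact mul_mem (ha2 g) (hb2 g)
  inv_mem' := by
    rintro a ⟨ha1, ha2⟩
    refine ⟨by rw [inv_pow, ha1, inv_one], ?_⟩
    intro g
    have h1 : ⁅g, a⁻¹⁆ = a⁻¹ * ⁅g, a⁆⁻¹ * a := by
      simp only [commutatorElement_def]; group
    have h2 := inv_mem (ha2 g)
    have h3 : a⁻¹ * ⁅g, a⁆⁻¹ * a = ⁅g, a⁆⁻¹ := by
      rw [mem_center_iff.1 h2 a⁻¹, inv_mul_cancel_right]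
    rw [h1, h3]; exact h2

/-- `Ω₁(Z(P))` -/
def AA (p : ℕ) : Subgroup P where
  carrier := {z | z ∈ center P ∧ z ^ p = 1}
  one_mem' := ⟨one_mem _, one_pow p⟩
  mul_mem' := by
    rintro a b ⟨ha1, ha2⟩ ⟨hb1, hb2⟩
    refine ⟨mul_mem ha1 hb1, ?_⟩
    have hab : Commute a b := mem_center_iff.1 hb1 a
    rw [hab.mul_pow, ha2, hb2, one_mul]
  inv_mem' := by
    rintro a ⟨ha1, ha2⟩
    exact ⟨inv_mem ha1, by rw [inv_pow, ha2, inv_one]⟩

theorem index_centralizer_le (d : P) (hd1 : d ^ p = 1) (hd : ∀ g : P, ⁅g, d⁆ ∈ center P) :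
    (centralizer ({d} : Set P)).index ≤ Nat.card (AA p : Subgroup P) := by
  have h1 : (cH d hd).ker ≤ centralizer ({d} : Set P) := by
    intro g hg
    rw [MonoidHom.mem_ker, cH_apply, commutatorElement_eq_one_iff_mul_comm] at hg
    rw [mem_centralizer_singleton_iff]
    exact hg
  have h2 : (cH d hd).range ≤ (AA p : Subgroup P) := by
    rintro _ ⟨g, rfl⟩
    refine ⟨hd g, ?_⟩
    have h3 : ⁅g, d⁆ * (d * g) = g * d := by simp only [commutatorElement_def]; group
    -- `⁅g,d⁆^p = ⁅g, d^p⁆`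
    have h4 : ⁅d, g⁆ = ⁅g, d⁆⁻¹ := (commutatorElement_inv g d).symm
    have h5 : ∀ n : ℕ, ⁅g, d ^ n⁆ = ⁅g, d⁆ ^ n := by
      intro n
      induction n with
      | zero => simp
      | succ n ih =>
        have e1 : ⁅g, d ^ (n + 1)⁆ = ⁅g, d ^ n⁆ * (d ^ n * ⁅g, d⁆ * (d ^ n)⁻¹) := by
          rw [pow_succ]; simp only [commutatorElement_def]; group
        rw [e1, mem_center_iff.1 (hd g) (d ^ n), mul_inv_cancel_right, ih, pow_succ]
    show (cH d hd g) ^ p = 1
    rw [cH_apply, ← h5, hd1, commutatorElement_one_right]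
  calc (centralizer ({d} : Set P)).index ≤ (cH d hd).ker.index :=
        index_antitone h1
    _ = Nat.card (cH d hd).range := index_ker _
    _ ≤ _ := Nat.le_of_dvd Nat.card_pos (card_dvd_of_le h2)

theorem exists_char (hp2 : p ≠ 2) [Nontrivial P] (hP : IsPGroup p P)
    (hr : ∀ A : Subgroup P, IsMulCommutative A → (∀ a ∈ A, a ^ p = 1) → Nat.card A ≤ p ^ 2) :
    ∃ M : Subgroup P, M.Characteristic ∧ M ≠ ⊤ ∧ M.index ≤ p ^ 2 := by
  classical
  have hp : p.Prime := hpF.out
  by_cases hcen : PCen p P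
  · -- the `p`-central case
    have h1 : Nat.card {x : P // x ^ p = 1} ≤ p ^ 2 := by
      have h2 := hr (Om hcen) ⟨⟨fun a b => Subtype.ext (mem_center_iff.1 (hcen b b.2) a)⟩⟩
        (fun a ha => ha)
      exact h2
    obtain ⟨k, M, hM, hMt, hMi⟩ := exists_omega hp hp2 (p ^ 2) (Nat.card P) P rfl hP inferInstance hcen h1
    refine ⟨M, ?_, hMt, hMi⟩
    rw [characteristic_iff_le_comap]
    intro φ x hx
    rw [hM] at hx
    show φ x ∈ M
    rw [hM, ← map_pow, hx, map_one]
  · -- there is a noncentral element of order `p`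
    unfold PCen at hcen
    push Not at hcen
    obtain ⟨x0, hx0p, hx0c⟩ := hcen
    obtain ⟨A, hAdef⟩ : ∃ A : Subgroup P, A = AA p := ⟨_, rfl⟩
    have hAmem : ∀ z, z ∈ A ↔ z ∈ center P ∧ z ^ p = 1 := fun z => by rw [hAdef]; exact Iff.rfl
    have hAcen : ∀ z ∈ A, z ∈ center P := fun z hz => ((hAmem z).1 hz).1
    have hAp : ∀ z ∈ A, z ^ p = 1 := fun z hz => ((hAmem z).1 hz).2
    have hAcomm : ∀ (x : P), ∀ a ∈ A, a * x = x * a := fun x a ha =>
      (mem_center_iff.1 (hAcen a ha) x).symm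
    have hAcard : Nat.card A ≤ p := by
      have h1 := ext_card hP hr A (fun a ha b hb => hAcomm b a ha) hAp x0 hx0p (hAcomm x0)
        (fun h => hx0c (hAcen _ h))
      have h2 := h1.1.trans h1.2
      rw [pow_two] at h2
      exact Nat.le_of_mul_le_mul_left h2 hp.pos
    have hAne : A ≠ ⊥ := by
      have h1 : (center P) ≠ ⊥ := by
        haveI := hP.center_nontrivial
        exact (nontrivial_iff_ne_bot _).1 inferInstance
      intro h
      obtain ⟨n, hn⟩ := IsPGroup.iff_card.1 (hP.to_subgroup (center P))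
      have hn0 : n ≠ 0 := by
        rintro rfl
        rw [pow_zero] at hn
        exact h1 ((card_eq_one).1 hn)
      obtain ⟨z, hz⟩ := exists_prime_orderOf_dvd_card' (G := center P) p
        (by rw [hn]; exact dvd_pow_self p hn0)
      have h2 : (z : P) ∈ A := by
        rw [hAmem]
        refine ⟨z.2, ?_⟩
        have : z ^ p = 1 := by rw [← hz]; exact pow_orderOf_eq_one z
        exact congrArg Subtype.val this
      rw [h, mem_bot] at h2
      have h3 : z = 1 := Subtype.ext h2
      rw [h3, orderOf_one] at hz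
      exact hp.one_lt.ne hz
    have hAcard' : Nat.card A = p := by
      obtain ⟨n, hn⟩ := IsPGroup.iff_card.1 (hP.to_subgroup A)
      have hn0 : n ≠ 0 := by
        rintro rfl
        rw [pow_zero] at hn
        exact hAne (card_eq_one.1 hn)
      have h1 : p ≤ Nat.card A := by
        rw [hn]; exact Nat.le_of_dvd (pow_pos hp.pos _) (dvd_pow_self p hn0)
      omega
    have hnc : ¬ IsCyclic P := by
      intro h
      apply hx0c
      rw [mem_center_iff]
      intro g
      obtain ⟨c, hc⟩ := IsCyclic.exists_generator (α := P)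
      obtain ⟨i, rfl⟩ := mem_zpowers_iff.1 (hc g)
      obtain ⟨j, rfl⟩ := mem_zpowers_iff.1 (hc x0)
      exact (((Commute.refl c).zpow_left i).zpow_right j).eq
    obtain ⟨E, hEn, hEc, hEp⟩ := H23.exists_normal_sq_of_odd hP hp2 hnc
    have hEnc : ¬ (E ≤ center P) := by
      intro h
      have h1 : E ≤ A := fun e he => (hAmem e).2 ⟨h he, hEp e he⟩
      have h2 := Nat.le_of_dvd Nat.card_pos (card_dvd_of_le h1)
      rw [hEc, hAcard', pow_two] at h2
      have := hp.two_le
      nlinarith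
    obtain ⟨x, hxE, hxc⟩ := SetLike.not_le_iff_exists.1 hEnc
    -- `E ≤ Z₂(P)`
    have hE2 : ∀ e ∈ E, ∀ g : P, ⁅g, e⁆ ∈ center P := by
      have hnE : (⊤ : Subgroup P) ≤ normalizer (E : Set P) := by rw [normalizer_eq_top]
      have hPt : IsPGroup p (⊤ : Subgroup P) := hP.to_subgroup ⊤
      obtain ⟨K1, hK1⟩ : ∃ K1 : Subgroup P, K1 = ⁅E, (⊤ : Subgroup P)⁆ := ⟨_, rfl⟩
      have hEne : E ≠ ⊥ := by
        rintro rfl
        exact hEnc bot_le
      have h1 : K1 < E := by
        rw [hK1]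
        exact H23.commutator_lt_of_isPGroup (hP.to_subgroup E) hPt hnE hEne
      haveI hK1n : K1.Normal := by rw [hK1]; infer_instance
      have hK1c : Nat.card K1 ≤ p := by
        have h2 : Nat.card K1 ∣ p ^ 2 := by rw [← hEc]; exact card_dvd_of_le h1.le
        obtain ⟨j, hj, hj'⟩ := (Nat.dvd_prime_pow hp).1 h2
        have h3 : Nat.card K1 < Nat.card E := by
          by_contra hcon
          exact h1.ne (Subgroup.eq_of_le_of_card_ge h1.le (not_lt.1 hcon))
        rw [hj', hEc] at h3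
        have h4 : j < 2 := (Nat.pow_lt_pow_iff_right hp.one_lt).1 h3
        rw [hj']
        calc p ^ j ≤ p ^ 1 := Nat.pow_le_pow_right hp.pos (by omega)
          _ = p := pow_one p
      have hK1cen : K1 ≤ center P := by
        by_cases hb : K1 = ⊥
        · rw [hb]; exact bot_le
        · have h2 : ⁅K1, (⊤ : Subgroup P)⁆ < K1 := by
            apply H23.commutator_lt_of_isPGroup (hP.to_subgroup K1) hPt _ hb
            rw [normalizer_eq_top]
          have h3 : ⁅K1, (⊤ : Subgroup P)⁆ = ⊥ := by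
            have h4 : Nat.card (⁅K1, (⊤ : Subgroup P)⁆ : Subgroup P) < Nat.card K1 := by
              by_contra hcon
              exact h2.ne (Subgroup.eq_of_le_of_card_ge h2.le (not_lt.1 hcon))
            obtain ⟨j, hj⟩ := IsPGroup.iff_card.1 (hP.to_subgroup (⁅K1, (⊤ : Subgroup P)⁆ : Subgroup P))
            have h5 : p ^ j < p ^ 1 := by rw [← hj, pow_one]; omega
            have h6 : j < 1 := (Nat.pow_lt_pow_iff_right hp.one_lt).1 h5
            have h7 : j = 0 := by omega
            rw [h7, pow_zero] at hj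
            exact card_eq_one.1 hj
          rw [commutator_eq_bot_iff_le_centralizer] at h3
          intro k hk
          rw [mem_center_iff]
          intro g
          exact mem_centralizer_iff.1 (h3 hk) g (mem_top g)
      intro e he g
      apply hK1cen
      rw [hK1, commutator_comm]
      exact commutator_mem_commutator (mem_top g) he
    obtain ⟨D, hDdef⟩ : ∃ D : Subgroup P, D = DD hp2 := ⟨_, rfl⟩
    have hDmem : ∀ d, d ∈ D ↔ d ^ p = 1 ∧ ∀ g : P, ⁅g, d⁆ ∈ center P := fun d => by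
      rw [hDdef]; exact Iff.rfl
    have hxD : x ∈ D := (hDmem x).2 ⟨hEp x hxE, hE2 x hxE⟩
    refine ⟨centralizer (D : Set P), ?_, ?_, ?_⟩
    · haveI : D.Characteristic := by
        rw [characteristic_iff_le_comap]
        intro φ d hd
        rw [hDmem] at hd
        show φ d ∈ D
        rw [hDmem]
        refine ⟨by rw [← map_pow, hd.1, map_one], ?_⟩
        intro g
        obtain ⟨g', rfl⟩ := φ.surjective g
        rw [← map_commutatorElement]
        have h1 : (center P).map φ.toMonoidHom = center P :=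
          characteristic_iff_map_eq.1 inferInstance φ
        rw [← h1]
        exact mem_map_of_mem φ.toMonoidHom (hd.2 g')
      infer_instance
    · intro h
      apply hxc
      rw [mem_center_iff]
      intro g
      have hg : g ∈ centralizer (D : Set P) := by rw [h]; exact mem_top g
      exact (mem_centralizer_iff.1 hg x hxD).symm
    · -- the index
      have hcent : ∀ d ∈ D, (centralizer ({d} : Set P)).index ≤ p := by
        intro d hd
        have h1 := index_centralizer_le (p := p) d ((hDmem d).1 hd).1 ((hDmem d).1 hd).2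
        rw [← hAdef, hAcard'] at h1
        exact h1
      have hxA : x ∉ A := fun h => hxc (hAcen x h)
      have hxp : x ^ p = 1 := hEp x hxE
      -- elements of `D` commuting with `x` lie in `A⟨x⟩`
      have hrank : ∀ d ∈ D, d * x = x * d → d ∈ ext A x (hAcomm x) := by
        intro d hd hdx
        by_contra hdn
        have h1 := ext_card hP hr A (fun a ha b hb => hAcomm b a ha) hAp x hxp (hAcomm x) hxA
        have h2 : ∀ a ∈ ext A x (hAcomm x), a * d = d * a := by
          rintro _ ⟨a, ha, k, rfl⟩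
          have e1 : Commute a d := hAcomm d a ha
          have e2 : Commute x d := hdx.symm
          exact (e1.mul_left (e2.zpow_left k)).eq
        have h3 := ext_card hP hr (ext A x (hAcomm x))
          (ext_comm A (fun a ha b hb => hAcomm b a ha) x (hAcomm x))
          (ext_exp A hAp x hxp (hAcomm x)) d ((hDmem d).1 hd).1 h2 hdn
        rw [hAcard'] at h1
        have h4 := h3.1.trans h3.2
        have h5 := h1.1
        have h6 : p * (p * p) ≤ p ^ 2 := (Nat.mul_le_mul_left p h5).trans h4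
        have := hp.two_le
        rw [pow_two] at h6
        have h7 := Nat.le_of_mul_le_mul_left h6 hp.pos
        nlinarith
      by_cases hDx : ∀ d ∈ D, d * x = x * d
      · have h1 : centralizer ({x} : Set P) ≤ centralizer (D : Set P) := by
          intro g hg
          rw [mem_centralizer_singleton_iff] at hg
          rw [mem_centralizer_iff]
          intro d hd
          obtain ⟨a, ha, k, rfl⟩ := hrank d hd (hDx d hd)
          have e1 : Commute a g := hAcomm g a ha
          have e2 : Commute x g := hg.symm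
          exact (e1.mul_left (e2.zpow_left k)).eq
        calc (centralizer (D : Set P)).index ≤ (centralizer ({x} : Set P)).index := index_antitone h1
          _ ≤ p := hcent x hxD
          _ ≤ p ^ 2 := by rw [pow_two]; exact Nat.le_mul_of_pos_left p hp.pos
      · push Not at hDx
        obtain ⟨y, hyD, hyx⟩ := hDx
        have hx2 : ∀ g, ⁅g, x⁆ ∈ center P := ((hDmem x).1 hxD).2
        have hcA : ∀ d ∈ D, ⁅d, x⁆ ∈ A := by
          intro d hd
          rw [hAmem]
          refine ⟨hx2 d, ?_⟩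
          rw [← cH_apply x hx2, ← map_pow, ((hDmem d).1 hd).1, map_one]
        have hyx1 : ⁅y, x⁆ ≠ 1 := fun h => hyx (commutatorElement_eq_one_iff_mul_comm.1 h)
        have hAz : zpowers ⁅y, x⁆ = A := by
          apply Subgroup.eq_of_le_of_card_ge (zpowers_le.2 (hcA y hyD))
          rw [hAcard', Nat.card_zpowers, orderOf_eq_prime (hAp _ (hcA y hyD)) hyx1]
        have h1 : centralizer ({x} : Set P) ⊓ centralizer ({y} : Set P) ≤ centralizer (D : Set P) := by
          intro g hg
          obtain ⟨hgx, hgy⟩ := Subgroup.mem_inf.1 hg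
          rw [mem_centralizer_singleton_iff] at hgx hgy
          rw [mem_centralizer_iff]
          intro d hd
          have h2 : ⁅d, x⁆ ∈ zpowers ⁅y, x⁆ := by rw [hAz]; exact hcA d hd
          obtain ⟨k, hk⟩ := mem_zpowers_iff.1 h2
          have h3 : d * y ^ (-k) ∈ D := mul_mem hd (zpow_mem hyD _)
          have h4 : (d * y ^ (-k)) * x = x * (d * y ^ (-k)) := by
            apply commutatorElement_eq_one_iff_mul_comm.1
            rw [← cH_apply x hx2, map_mul, map_zpow, cH_apply, cH_apply, ← hk, ← _root_.zpow_add]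
            simp
          obtain ⟨a, ha, j, haj⟩ := hrank _ h3 h4
          have e1 : Commute a g := hAcomm g a ha
          have e2 : Commute x g := hgx.symm
          have e3 : Commute y g := hgy.symm
          have e4 : Commute (d * y ^ (-k)) g := by
            rw [haj]; exact e1.mul_left (e2.zpow_left j)
          have e5 : Commute (d * y ^ (-k) * y ^ k) g := e4.mul_left (e3.zpow_left k)
          have e6 : d * y ^ (-k) * y ^ k = d := by group
          rw [e6] at e5
          exact e5.eq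
        calc (centralizer (D : Set P)).index ≤ _ := index_antitone h1
          _ ≤ (centralizer ({x} : Set P)).index * (centralizer ({y} : Set P)).index := index_inf_le
          _ ≤ p * p := Nat.mul_le_mul (hcent x hxD) (hcent y hyD)
          _ = p ^ 2 := (pow_two p).symm

end

end Cfsg.Agent.H2.PRank2
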