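import Cfsg.Agent.H2.QD9

/-!
# Characteristic subgroups of Sylow subgroups of `Qd(p)`
-/

set_option autoImplicit false
set_option linter.style.haveILetI false
set_option linter.unusedSectionVars false

universe u

namespace Cfsg.Agent.H2

open Cfsg Cfsg.Agent.H19
open scoped Pointwise

variable {p : ℕ} [hp : Fact p.Prime]

theorem uni3_ext {M N : Matrix.SpecialLinearGroup (Fin 3) (ZMod p)} (hM : M ∈ uni3 p)
    (hN : N ∈ uni3 p) (h1 : M.1 0 1 = N.1 0 1) (h2 : M.1 1 2 = N.1 1 2) (h3 : M.1 0 2 = N.1 0 2) :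
    M = N := by
  obtain ⟨a1, a2, a3, a4, a5, a6⟩ := hM
  obtain ⟨b1, b2, b3, b4, b5, b6⟩ := hN
  apply Subtype.ext
  ext i j
  fin_cases i <;> fin_cases j
  · exact a4.trans b4.symm
  · exact h1
  · exact h3
  · exact a1.trans b1.symm
  · exact a5.trans b5.symm
  · exact h2
  · exact a2.trans b2.symm
  · exact a3.trans b3.symm
  · exact a6.trans b6.symm

theorem uni3_mul_entries {M N : Matrix.SpecialLinearGroup (Fin 3) (ZMod p)} (hM : M ∈ uni3 p)
    (hN : N ∈ uni3 p) : (M * N).1 0 1 = M.1 0 1 + N.1 0 1 ∧ (M * N).1 1 2 = M.1 1 2 + N.1 1 2 ∧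
      (M * N).1 0 2 = M.1 0 2 + N.1 0 2 + M.1 0 1 * N.1 1 2 := by
  obtain ⟨a1, a2, a3, a4, a5, a6⟩ := hM
  obtain ⟨b1, b2, b3, b4, b5, b6⟩ := hN
  have e : (M * N).1 = M.1 * N.1 := rfl
  refine ⟨?_, ?_, ?_⟩
  · rw [e, Matrix.mul_apply, Fin.sum_univ_three, a4, b5, b3]
    ring
  · rw [e, Matrix.mul_apply, Fin.sum_univ_three, a1, a5, b6]
    ring
  · rw [e, Matrix.mul_apply, Fin.sum_univ_three, a4, b6]
    ring

/-- the automorphism of the unitriangular group interchanging the two root groups -/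
noncomputable def uniFlip (p : ℕ) [Fact p.Prime] : uni3 p ≃* uni3 p where
  toFun M := ⟨uniSL (M.1.1 1 2) (M.1.1 0 1) (M.1.1 0 1 * M.1.1 1 2 - M.1.1 0 2), uniSL_mem _ _ _⟩
  invFun M := ⟨uniSL (M.1.1 1 2) (M.1.1 0 1) (M.1.1 0 1 * M.1.1 1 2 - M.1.1 0 2), uniSL_mem _ _ _⟩
  left_inv M := by
    apply Subtype.ext
    apply uni3_ext (uniSL_mem _ _ _) M.2 <;> simp [uniSL, uniMat]
    ring
  right_inv M := by
    apply Subtype.ext
    apply uni3_ext (uniSL_mem _ _ _) M.2 <;> simp [uniSL, uniMat]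
    ring
  map_mul' M N := by
    apply Subtype.ext
    obtain ⟨e1, e2, e3⟩ := uni3_mul_entries M.2 N.2
    obtain ⟨f1, f2, f3⟩ := uni3_mul_entries
      (uniSL_mem (M.1.1 1 2) (M.1.1 0 1) (M.1.1 0 1 * M.1.1 1 2 - M.1.1 0 2))
      (uniSL_mem (N.1.1 1 2) (N.1.1 0 1) (N.1.1 0 1 * N.1.1 1 2 - N.1.1 0 2))
    have g : ∀ a b c : ZMod p, (uniSL a b c).1 0 1 = a ∧ (uniSL a b c).1 1 2 = b ∧
        (uniSL a b c).1 0 2 = c := fun a b c => ⟨rfl, rfl, rfl⟩
    apply uni3_ext (uniSL_mem _ _ _) (mul_mem (uniSL_mem _ _ _) (uniSL_mem _ _ _))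
    · rw [f1, (g _ _ _).1, (g _ _ _).1, (g _ _ _).1]; exact e2
    · rw [f2, (g _ _ _).2.1, (g _ _ _).2.1, (g _ _ _).2.1]; exact e1
    · rw [f3, (g _ _ _).2.2, (g _ _ _).2.2, (g _ _ _).2.2, (g _ _ _).1, (g _ _ _).2.1]
      have e1' : (M * N).1.1 0 1 = M.1.1 0 1 + N.1.1 0 1 := e1
      have e2' : (M * N).1.1 1 2 = M.1.1 1 2 + N.1.1 1 2 := e2
      have e3' : (M * N).1.1 0 2 = M.1.1 0 2 + N.1.1 0 2 + M.1.1 0 1 * N.1.1 1 2 := e3
      rw [e1', e2', e3']
      ring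

/-- centralizers of translations are `p`-groups -/
theorem isPGroup_centralizer_trans {t : Fin 2 → ZMod p} (ht : t ≠ 0) :
    IsPGroup p (Subgroup.centralizer ({trans p (Multiplicative.ofAdd t)} : Set (qd p))) := by
  rw [H18.isPGroup_iff_mem]
  intro g hg
  rw [Subgroup.mem_centralizer_iff] at hg
  obtain ⟨M, s, hMs⟩ := (mem_qd_iff _).1 g.2
  have h1 := trans_conj M s t g hMs
  rw [← hg _ rfl, mul_inv_cancel_right] at h1
  have h2 : M.1.mulVec t = t := by
    have := trans_injective h1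
    exact this.symm
  -- `M` has trace 2
  have htr : M.1 0 0 + M.1 1 1 = 2 := by
    have hdet := M.2
    rw [Matrix.det_fin_two] at hdet
    have h3 : (M.1 - 1).det = 0 := by
      rw [← Matrix.exists_mulVec_eq_zero_iff]
      exact ⟨t, ht, by rw [Matrix.sub_mulVec, h2, Matrix.one_mulVec, sub_self]⟩
    rw [Matrix.det_fin_two] at h3
    simp at h3
    linear_combination hdet - h3
  have hMp : M ^ p = 1 := pow_p_of_tr_two htr
  obtain ⟨π, hπ⟩ := exists_qd_proj p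
  have h4 : π g = M := (hπ g M).2 ⟨s, hMs⟩
  have h5 : π (g ^ p) = 1 := by rw [map_pow, h4, hMp]
  obtain ⟨r, hr⟩ := (hπ _ _).1 h5
  refine ⟨2, ?_⟩
  have h6 : g ^ p ^ 2 = (g ^ p) ^ p := by rw [← pow_mul, pow_two]
  have h7 : g ^ p = trans p (Multiplicative.ofAdd r) := Subtype.ext hr
  rw [h6, h7, ← map_pow, ← ofAdd_nsmul]
  have : p • r = 0 := by
    funext i
    simp
  rw [this, ofAdd_zero, map_one]

theorem qd_sylow_center (S : Sylow p (qd p)) :
    Subgroup.normalizer (((S : Subgroup (qd p)) ⊓ Subgroup.centralizer ((S : Subgroup (qd p)) : Set (qd p)) :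
      Subgroup (qd p)) : Set (qd p)) ≤ Subgroup.normalizer ((S : Subgroup (qd p)) : Set (qd p)) := by
  obtain ⟨Z, hZ⟩ : ∃ Z, Z = (S : Subgroup (qd p)) ⊓
    Subgroup.centralizer ((S : Subgroup (qd p)) : Set (qd p)) := ⟨_, rfl⟩
  have hq := qdLike_qd p
  have hZV := hq.center_lt S
  have hZ1 := hq.center_ne_bot S
  rw [← hZ] at hZV hZ1 ⊢
  obtain ⟨z, hz, hz1⟩ := (Subgroup.bot_or_exists_ne_one Z).resolve_left hZ1
  obtain ⟨t, ht⟩ := hZV.le hz
  have ht0 : Multiplicative.toAdd t ≠ 0 := by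
    intro h
    apply hz1
    rw [← ht, show t = 1 from h, map_one]
  have hcz := isPGroup_centralizer_trans ht0
  have e0 : trans p (Multiplicative.ofAdd (Multiplicative.toAdd t)) = z := ht
  rw [e0] at hcz
  have hSz : (S : Subgroup (qd p)) ≤ Subgroup.centralizer ({z} : Set (qd p)) := by
    rw [hZ] at hz
    intro s hs
    rw [Subgroup.mem_centralizer_iff]
    rintro y rfl
    exact (Subgroup.mem_centralizer_iff.1 (Subgroup.mem_inf.1 hz).2 s hs).symm
  have hS : (S : Subgroup (qd p)) = Subgroup.centralizer ({z} : Set (qd p)) :=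
    (S.3 hcz hSz).symm
  have hcZ : Subgroup.centralizer (Z : Set (qd p)) = S := by
    apply le_antisymm
    · rw [hS]
      exact Subgroup.centralizer_le (by rw [Set.singleton_subset_iff]; exact hz)
    · intro s hs
      rw [Subgroup.mem_centralizer_iff]
      intro y hy
      rw [hZ] at hy
      exact (Subgroup.mem_centralizer_iff.1 (Subgroup.mem_inf.1 hy).2 s hs).symm
  intro g hg
  rw [← hcZ]
  rw [Subgroup.mem_normalizer_iff] at hg ⊢
  intro x
  rw [Subgroup.mem_centralizer_iff, Subgroup.mem_centralizer_iff]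
  constructor
  · intro h2 y hy
    have h3 : g⁻¹ * y * g ∈ Z := by
      rw [hg]
      have : g * (g⁻¹ * y * g) * g⁻¹ = y := by group
      rw [this]; exact hy
    have h4 := h2 _ h3
    calc y * (g * x * g⁻¹) = g * ((g⁻¹ * y * g) * x) * g⁻¹ := by group
      _ = g * (x * (g⁻¹ * y * g)) * g⁻¹ := by rw [h4]
      _ = g * x * g⁻¹ * y := by group
  · intro h2 y hy
    have h4 := h2 _ ((hg y).1 hy)
    calc y * x = g⁻¹ * ((g * y * g⁻¹) * (g * x * g⁻¹)) * g := by group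
      _ = g⁻¹ * ((g * x * g⁻¹) * (g * y * g⁻¹)) * g := by rw [h4]
      _ = x * y := by group

/-- `V` is not characteristic in a Sylow subgroup: there is an automorphism moving it -/
theorem exists_aut_moving (S : Sylow p (qd p)) : ∃ ψ : MulAut (S : Subgroup (qd p)),
    ∃ x : (S : Subgroup (qd p)), (x : qd p) ∈ (trans p).range ∧
      ((ψ x : (S : Subgroup (qd p))) : qd p) ∉ (trans p).range := by
  have hq := qdLike_qd p
  haveI := hq.normal
  obtain ⟨U, hU⟩ : ∃ U : Subgroup (qd p), U = (uni3 p).subgroupOf (qd p) := ⟨_, rfl⟩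
  have hUc : Nat.card U = p ^ 3 := by
    rw [hU, Nat.card_congr (Subgroup.subgroupOfEquivOfLe uni3_le_qd).toEquiv, card_uni3]
  obtain ⟨Q, hQ⟩ := (IsPGroup.of_card hUc).exists_le_sylow
  have hQU : U = Q := Subgroup.eq_of_le_of_card_ge hQ (by rw [hUc, (qd_sylow_card Q).1])
  obtain ⟨g, hg⟩ := MulAction.exists_smul_eq (qd p) Q S
  -- isomorphism `uni3 p ≃* S`
  have hS : (S : Subgroup (qd p)) = U.map (MulAut.conj g).toMonoidHom := by
    rw [hQU, ← hg]
    rfl
  let e₁ : uni3 p ≃* U := (Subgroup.subgroupOfEquivOfLe uni3_le_qd).symm.trans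
    (MulEquiv.subgroupCongr hU.symm)
  let e₂ : U ≃* (U.map (MulAut.conj g).toMonoidHom) :=
    U.equivMapOfInjective _ (MulAut.conj g).injective
  let e : uni3 p ≃* (S : Subgroup (qd p)) := (e₁.trans e₂).trans (MulEquiv.subgroupCongr hS.symm)
  have he : ∀ x : uni3 p, ((e x : (S : Subgroup (qd p))) : qd p) =
      g * ⟨x.1, uni3_le_qd x.2⟩ * g⁻¹ := fun x => rfl
  have hVmem : ∀ x : uni3 p, ((e x : (S : Subgroup (qd p))) : qd p) ∈ (trans p).range ↔
      x.1.1 0 1 = 0 := by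
    intro x
    rw [he]
    have h1 : g * ⟨x.1, uni3_le_qd x.2⟩ * g⁻¹ ∈ (trans p).range ↔
        (⟨x.1, uni3_le_qd x.2⟩ : qd p) ∈ (trans p).range := by
      constructor
      · intro h
        have h2 := hq.normal.conj_mem _ h g⁻¹
        have h3 : g⁻¹ * (g * ⟨x.1, uni3_le_qd x.2⟩ * g⁻¹) * g⁻¹⁻¹ = ⟨x.1, uni3_le_qd x.2⟩ := by group
        rwa [h3] at h2
      · intro h
        exact hq.normal.conj_mem _ h g
    rw [h1]
    constructor
    · rintro ⟨t, ht⟩
      have h2 : affJ 1 (Multiplicative.toAdd t) = x.1 := congrArg Subtype.val ht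
      rw [← h2]
      rfl
    · intro h
      obtain ⟨h10, h20, h21, h00, h11, h22⟩ := x.2
      refine ⟨Multiplicative.ofAdd ![x.1.1 0 2, x.1.1 1 2], ?_⟩
      apply Subtype.ext
      apply Subtype.ext
      show !![(1 : Matrix (Fin 2) (Fin 2) (ZMod p)) 0 0, (1 : Matrix (Fin 2) (Fin 2) (ZMod p)) 0 1,
        x.1.1 0 2; (1 : Matrix (Fin 2) (Fin 2) (ZMod p)) 1 0, (1 : Matrix (Fin 2) (Fin 2) (ZMod p)) 1 1,
        x.1.1 1 2; 0, 0, 1] = x.1.1
      ext i j
      fin_cases i <;> fin_cases j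
      · exact h00.symm
      · exact h.symm
      · rfl
      · exact h10.symm
      · exact h11.symm
      · rfl
      · exact h20.symm
      · exact h21.symm
      · exact h22.symm
  refine ⟨(e.symm.trans (uniFlip p)).trans e, e ⟨uniSL 0 1 0, uniSL_mem _ _ _⟩, ?_, ?_⟩
  · rw [hVmem]
    rfl
  · have h1 : ((e.symm.trans (uniFlip p)).trans e) (e ⟨uniSL 0 1 0, uniSL_mem _ _ _⟩) =
        e (uniFlip p ⟨uniSL 0 1 0, uniSL_mem _ _ _⟩) := by
      show e (uniFlip p (e.symm (e _))) = _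
      rw [e.symm_apply_apply]
    rw [h1, hVmem]
    have h2 : (uniFlip p ⟨uniSL 0 1 0, uniSL_mem _ _ _⟩).1.1 0 1 = (1 : ZMod p) := rfl
    rw [h2]
    exact one_ne_zero

end Cfsg.Agent.H2
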