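import Mathlib
import Cfsg.Prelude.Def_LocalEven
import Cfsg.Agent.H5.SL2
import Cfsg.Agent.H1.Cores

/-!
# The affine group `qdOver F`
-/

set_option autoImplicit false
set_option linter.style.haveILetI false
set_option linter.unusedSectionVars false

namespace Cfsg.Agent.H2

open Cfsg

variable {F : Type*} [Field F]

/-- affine elements over a field -/
def affF (M : Matrix.SpecialLinearGroup (Fin 2) F) (s : Fin 2 → F) :
    Matrix.SpecialLinearGroup (Fin 3) F :=
  ⟨!![M.1 0 0, M.1 0 1, s 0; M.1 1 0, M.1 1 1, s 1; 0, 0, 1], by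
    have h := M.2
    rw [Matrix.det_fin_two] at h
    rw [Matrix.det_fin_three]
    simp
    linear_combination h⟩

theorem affF_val (M : Matrix.SpecialLinearGroup (Fin 2) F) (s : Fin 2 → F) :
    (affF M s).1 = !![M.1 0 0, M.1 0 1, s 0; M.1 1 0, M.1 1 1, s 1; 0, 0, 1] := rfl

theorem affF_mul (M M' : Matrix.SpecialLinearGroup (Fin 2) F)
    (s s' : Fin 2 → F) : affF M s * affF M' s' = affF (M * M') (s + M.1.mulVec s') := by
  apply Subtype.ext
  have e1 : (affF M s * affF M' s').1 = (affF M s).1 * (affF M' s').1 := rfl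
  have e2 : (M * M').1 = M.1 * M'.1 := rfl
  rw [e1, affF_val, affF_val, affF_val, e2]
  ext i j
  fin_cases i <;> fin_cases j <;>
    simp [Matrix.mul_apply, Fin.sum_univ_two, Fin.sum_univ_three, Matrix.mulVec, dotProduct,
      add_comm]

theorem affF_one : affF (F := F) 1 0 = 1 := by
  apply Subtype.ext
  rw [affF_val]
  ext i j
  fin_cases i <;> fin_cases j <;> simp

theorem exists_affF {P : Matrix.SpecialLinearGroup (Fin 3) F} (h0 : P.1 2 0 = 0)
    (h1 : P.1 2 1 = 0) (h2 : P.1 2 2 = 1) : ∃ M s, P = affF M s := by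
  have hdet := P.2
  rw [Matrix.det_fin_three, h0, h1, h2] at hdet
  refine ⟨⟨!![P.1 0 0, P.1 0 1; P.1 1 0, P.1 1 1], by
    rw [Matrix.det_fin_two_of]; linear_combination hdet⟩, ![P.1 0 2, P.1 1 2], ?_⟩
  apply Subtype.ext
  show P.1 = !![P.1 0 0, P.1 0 1, P.1 0 2; P.1 1 0, P.1 1 1, P.1 1 2; 0, 0, 1]
  ext i j
  fin_cases i <;> fin_cases j <;> simp [h0, h1, h2]

theorem affF_mem (M : Matrix.SpecialLinearGroup (Fin 2) F) (s : Fin 2 → F) :
    affF M s ∈ qdOver F :=
  Subgroup.subset_closure ⟨rfl, rfl, rfl⟩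

theorem affF_injective {M M' : Matrix.SpecialLinearGroup (Fin 2) F} {s s' : Fin 2 → F}
    (h : affF M s = affF M' s') : M = M' ∧ s = s' := by
  have h1 : (affF M s).1 = (affF M' s').1 := congrArg Subtype.val h
  constructor
  · apply Subtype.ext
    ext i j
    fin_cases i <;> fin_cases j
    · exact congrFun (congrFun h1 0) 0
    · exact congrFun (congrFun h1 0) 1
    · exact congrFun (congrFun h1 1) 0
    · exact congrFun (congrFun h1 1) 1
  · funext i
    fin_cases i
    · exact congrFun (congrFun h1 0) 2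
    · exact congrFun (congrFun h1 1) 2

theorem affF_inv (M : Matrix.SpecialLinearGroup (Fin 2) F) (s : Fin 2 → F) :
    (affF M s)⁻¹ = affF M⁻¹ (-((M⁻¹).1.mulVec s)) := by
  rw [inv_eq_iff_mul_eq_one, affF_mul, Matrix.mulVec_neg, Matrix.mulVec_mulVec]
  have e3 : M.1 * (M⁻¹).1 = 1 := by
    have : (M * M⁻¹).1 = M.1 * (M⁻¹).1 := rfl
    rw [← this, mul_inv_cancel]; rfl
  rw [e3, Matrix.one_mulVec, add_neg_cancel, mul_inv_cancel, affF_one]

theorem mem_qdOver_iff (P : Matrix.SpecialLinearGroup (Fin 3) F) : P ∈ qdOver F ↔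
    ∃ M s, P = affF M s := by
  constructor
  · intro h
    have h1 : qdOver F ≤
        { carrier := {P | ∃ M s, P = affF M s}
          mul_mem' := by
            rintro _ _ ⟨M, s, rfl⟩ ⟨M', s', rfl⟩
            exact ⟨_, _, affF_mul _ _ _ _⟩
          one_mem' := ⟨1, 0, affF_one.symm⟩
          inv_mem' := by
            rintro _ ⟨M, s, rfl⟩
            exact ⟨_, _, affF_inv M s⟩ } := by
      unfold qdOver
      rw [Subgroup.closure_le]
      intro P hP
      exact exists_affF hP.1 hP.2.1 hP.2.2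
    exact h1 h
  · rintro ⟨M, s, rfl⟩
    exact affF_mem M s

/-- `O_p(SL(2,F)) = 1` -/
theorem sl2_normal_pgroup [Fintype F] (p : ℕ) [hp : Fact p.Prime] [CharP F p]
    (N : Subgroup (Matrix.SpecialLinearGroup (Fin 2) F)) (hN : N.Normal) (hNp : IsPGroup p N) : N = ⊥ := by
  obtain ⟨T, hT⟩ := H5.exists_sylow_lineStab0 (F := F) p
  have hNT : ∀ x ∈ N, ∃ t : F, x = Matrix.SpecialLinearGroup.transvection (zero_ne_one (α := Fin 2)) t := by
    intro x hx
    have h1 : x ∈ (T : Subgroup (Matrix.SpecialLinearGroup (Fin 2) F)) :=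
      H1.pCore_le_sylow T (H1.le_pCore hN hNp hx)
    rw [hT] at h1
    exact (H5.mem_lineStab0_iff x).1 h1
  rw [eq_bot_iff]
  intro x hx
  obtain ⟨t, rfl⟩ := hNT x hx
  obtain ⟨w, hw⟩ : ∃ w : Matrix.SpecialLinearGroup (Fin 2) F, w.1 = !![0, 1; -1, 0] :=
    ⟨⟨!![0, 1; -1, 0], by rw [Matrix.det_fin_two_of]; ring⟩, rfl⟩
  obtain ⟨s, hs⟩ := hNT _ (hN.conj_mem _ hx w)
  have h1 := congrArg Subtype.val hs
  have e : (w * Matrix.SpecialLinearGroup.transvection (zero_ne_one (α := Fin 2)) t * w⁻¹).1 =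
      w.1 * (Matrix.SpecialLinearGroup.transvection (zero_ne_one (α := Fin 2)) t).1 * w.1.adjugate := rfl
  have e2 : ∀ t : F, (Matrix.SpecialLinearGroup.transvection (zero_ne_one (α := Fin 2)) t).1 = !![1, t; 0, 1] := by
    intro t
    ext i j
    fin_cases i <;> fin_cases j <;> simp [Matrix.SpecialLinearGroup.transvection_coe]
  rw [e, hw, Matrix.adjugate_fin_two_of, e2, e2, Matrix.mul_fin_two, Matrix.mul_fin_two] at h1
  have h2 := congrFun (congrFun h1 1) 0
  have ht : t = 0 := by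
    simpa using h2
  rw [ht, Matrix.SpecialLinearGroup.transvection_coeff_zero]
  exact one_mem _

theorem exists_projF : ∃ π : qdOver F →* Matrix.SpecialLinearGroup (Fin 2) F,
    ∀ (P : qdOver F) (M : Matrix.SpecialLinearGroup (Fin 2) F) (s : Fin 2 → F),
      (P : Matrix.SpecialLinearGroup (Fin 3) F) = affF M s → π P = M := by
  choose m s hms using fun P : qdOver F => (mem_qdOver_iff _).1 P.2
  refine ⟨{ toFun := m, map_one' := ?_, map_mul' := ?_ }, ?_⟩
  · have h := hms 1
    have h2 : affF (F := F) 1 0 = affF (m 1) (s 1) := by rw [affF_one, ← h]; rfl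
    exact (affF_injective h2).1.symm
  · intro P Q
    have h2 : affF (m (P * Q)) (s (P * Q)) = affF (m P * m Q) (s P + (m P).1.mulVec (s Q)) := by
      rw [← affF_mul, ← hms, ← hms, ← hms]; rfl
    exact (affF_injective h2).1
  · intro P M t hP
    have h2 : affF (m P) (s P) = affF M t := by rw [← hms, hP]
    exact (affF_injective h2).1

end Cfsg.Agent.H2
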