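import Mathlib

set_option autoImplicit false
set_option linter.all false

/-! H2/Six1 (helper2): uniqueness part of the six types (S4291). -/

namespace Cfsg.Agent.H2.Six

open Subgroup

abbrev V4 := DihedralGroup 2
abbrev S4 := Equiv.Perm (Fin 4)
abbrev A4 := alternatingGroup (Fin 4)
abbrev S5 := Equiv.Perm (Fin 5)
abbrev A5 := alternatingGroup (Fin 5)

/-- Z-groups have no two distinct commuting involutions -/
theorem zgroup_inv {K : Type*} [Group K] [Finite K] [IsZGroup K] {a b : K} (ha : a * a = 1) (hb : b * b = 1)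
    (ha1 : a ≠ 1) (hb1 : b ≠ 1) (hab : a * b = b * a) : a = b := by
  have hcomm : ∀ x ∈ closure ({a, b} : Set K), ∀ y ∈ closure ({a, b} : Set K), x * y = y * x := by
    intro x hx y hy
    have := Subgroup.closure_le_centralizer_centralizer ({a, b} : Set K)
    have h1 : closure ({a, b} : Set K) ≤ centralizer ({a, b} : Set K) := by
      rw [Subgroup.closure_le]
      rintro z (rfl | rfl)
      · rw [SetLike.mem_coe, Subgroup.mem_centralizer_iff]
        rintro w (rfl | rfl)
        · rfl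
        · exact hab.symm
      · rw [SetLike.mem_coe, Subgroup.mem_centralizer_iff]
        rintro w (rfl | rfl)
        · exact hab
        · rfl
    have h2 := this hy
    exact (Subgroup.mem_centralizer_iff.1 h2 x (h1 hx))
  letI : CommGroup (closure ({a, b} : Set K)) :=
    { (inferInstance : Group (closure ({a, b} : Set K))) with
      mul_comm := fun x y => Subtype.ext (hcomm x x.2 y y.2) }
  have hcyc : IsCyclic (closure ({a, b} : Set K)) := by
    haveI : Group.IsNilpotent (closure ({a, b} : Set K)) := CommGroup.isNilpotent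
    infer_instance
  have haC : a ∈ closure ({a, b} : Set K) := Subgroup.subset_closure (by simp)
  have hbC : b ∈ closure ({a, b} : Set K) := Subgroup.subset_closure (by simp)
  have hoa : orderOf (⟨a, haC⟩ : closure ({a, b} : Set K)) = 2 := by
    rw [Subgroup.orderOf_mk]
    exact orderOf_eq_prime (by rw [pow_two, ha]) ha1
  have hob : orderOf (⟨b, hbC⟩ : closure ({a, b} : Set K)) = 2 := by
    rw [Subgroup.orderOf_mk]
    exact orderOf_eq_prime (by rw [pow_two, hb]) hb1
  haveI : Fintype (closure ({a, b} : Set K)) := Fintype.ofFinite _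
  have h3 := IsCyclic.card_orderOf_eq_totient (α := closure ({a, b} : Set K)) (d := 2) (by
    rw [← Nat.card_eq_fintype_card, ← hoa]
    exact orderOf_dvd_natCard _)
  rw [Nat.totient_two] at h3
  have h4 := Finset.card_le_one.1 h3.le ⟨a, haC⟩ (by simp [hoa]) ⟨b, hbC⟩ (by simp [hob])
  exact congrArg Subtype.val h4

theorem zgroup_sub {T : Type*} [Group T] [Finite T] {K : Subgroup T} (hK : IsZGroup K) {a b : T} (haK : a ∈ K) (hbK : b ∈ K)
    (ha : a * a = 1) (hb : b * b = 1)
    (ha1 : a ≠ 1) (hb1 : b ≠ 1) (hab : a * b = b * a) : a = b := by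
  have := zgroup_inv (K := K) (a := ⟨a, haK⟩) (b := ⟨b, hbK⟩) (Subtype.ext ha) (Subtype.ext hb)
    (fun h => ha1 (congrArg Subtype.val h)) (fun h => hb1 (congrArg Subtype.val h)) (Subtype.ext hab)
  exact congrArg Subtype.val this

theorem v4_sq : ∀ x : V4, x * x = 1 := by decide
theorem v4_comm : ∀ x y : V4, x * y = y * x := by decide
theorem v4_card : Nat.card V4 = 4 := by
  rw [Nat.card_eq_fintype_card]; rfl

theorem v4_not_z : ¬ IsZGroup V4 := by
  intro h
  have := zgroup_inv (K := V4) (a := DihedralGroup.r 1) (b := DihedralGroup.sr 0) (by decide) (by decide) (by decide) (by decide) (by decide)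
  exact absurd this (by decide)

theorem s4_key : ∀ k : S4, k ≠ 1 → ∃ g h : S4, (Equiv.Perm.sign g = 1 ∧ Equiv.Perm.sign h = 1) ∧
    (k * (g * k⁻¹ * g⁻¹)) * (k * (g * k⁻¹ * g⁻¹)) = 1 ∧ (k * (g * k⁻¹ * g⁻¹)) ≠ 1 ∧
    h * (k * (g * k⁻¹ * g⁻¹)) * h⁻¹ ≠ (k * (g * k⁻¹ * g⁻¹)) ∧
    (h * (k * (g * k⁻¹ * g⁻¹)) * h⁻¹) * (k * (g * k⁻¹ * g⁻¹)) = (k * (g * k⁻¹ * g⁻¹)) * (h * (k * (g * k⁻¹ * g⁻¹)) * h⁻¹) := by
  decide +kernel

theorem s4_normal_z (K : Subgroup S4) [hKN : K.Normal] (hK : IsZGroup K) : K = ⊥ := by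
  rw [Subgroup.eq_bot_iff_forall]
  intro k hk
  by_contra hk1
  obtain ⟨g, h, -, h1, h2, h3, h4⟩ := s4_key k hk1
  have ha : k * (g * k⁻¹ * g⁻¹) ∈ K := K.mul_mem hk (hKN.conj_mem _ (K.inv_mem hk) g)
  have hb : h * (k * (g * k⁻¹ * g⁻¹)) * h⁻¹ ∈ K := hKN.conj_mem _ ha h
  refine h3 (zgroup_sub hK hb ha ?_ h1 ?_ h2 h4)
  · calc h * (k * (g * k⁻¹ * g⁻¹)) * h⁻¹ * (h * (k * (g * k⁻¹ * g⁻¹)) * h⁻¹)
        = h * ((k * (g * k⁻¹ * g⁻¹)) * (k * (g * k⁻¹ * g⁻¹))) * h⁻¹ := by group
      _ = 1 := by rw [h1]; group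
  · intro e
    apply h2
    calc k * (g * k⁻¹ * g⁻¹) = h⁻¹ * (h * (k * (g * k⁻¹ * g⁻¹)) * h⁻¹) * h := by group
      _ = 1 := by rw [e]; group

theorem a4_normal_z (K : Subgroup A4) [hKN : K.Normal] (hK : IsZGroup K) : K = ⊥ := by
  rw [Subgroup.eq_bot_iff_forall]
  intro k hk
  by_contra hk1
  obtain ⟨g, h, ⟨hg, hh⟩, h1, h2, h3, h4⟩ := s4_key k (fun e => hk1 (Subtype.ext e))
  let g' : A4 := ⟨g, hg⟩
  let h' : A4 := ⟨h, hh⟩
  have ha : k * (g' * k⁻¹ * g'⁻¹) ∈ K := K.mul_mem hk (hKN.conj_mem _ (K.inv_mem hk) g')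
  have hb : h' * (k * (g' * k⁻¹ * g'⁻¹)) * h'⁻¹ ∈ K := hKN.conj_mem _ ha h'
  have h1' : (k * (g' * k⁻¹ * g'⁻¹)) * (k * (g' * k⁻¹ * g'⁻¹)) = 1 := Subtype.ext h1
  have h2' : (k * (g' * k⁻¹ * g'⁻¹)) ≠ 1 := fun e => h2 (congrArg Subtype.val e)
  refine h3 (congrArg Subtype.val (zgroup_sub hK hb ha ?_ h1' ?_ h2' (Subtype.ext h4)))
  · calc h' * (k * (g' * k⁻¹ * g'⁻¹)) * h'⁻¹ * (h' * (k * (g' * k⁻¹ * g'⁻¹)) * h'⁻¹)
        = h' * ((k * (g' * k⁻¹ * g'⁻¹)) * (k * (g' * k⁻¹ * g'⁻¹))) * h'⁻¹ := by group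
      _ = 1 := by rw [h1']; group
  · intro e
    apply h2'
    calc k * (g' * k⁻¹ * g'⁻¹) = h'⁻¹ * (h' * (k * (g' * k⁻¹ * g'⁻¹)) * h'⁻¹) * h' := by group
      _ = 1 := by rw [e]; group

theorem a5_not_solvable : ¬ Group.IsSolvable A5 := by
  intro h
  haveI : Nontrivial A5 := by
    have := alternatingGroup.isSimpleGroup_five
    infer_instance
  have h1 := IsSolvable.commutator_lt_top_of_nontrivial A5
  have h2 := commutator_alternatingGroup_eq_top (α := Fin 5) (by simp)
  exact h1.ne h2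

theorem a5_normal_z (K : Subgroup A5) [hKN : K.Normal] (hK : IsZGroup K) : K = ⊥ := by
  haveI := alternatingGroup.isSimpleGroup_five
  rcases hKN.eq_bot_or_eq_top with h | h
  · exact h
  · exfalso
    apply a5_not_solvable
    have h1 : Group.IsSolvable K := inferInstance
    rw [h] at h1
    exact solvable_of_solvable_injective (f := (Subgroup.topEquiv (G := A5)).symm.toMonoidHom) (Subgroup.topEquiv (G := A5)).symm.injective

theorem s5_cent : ∀ k : S5, k ≠ 1 → ∃ i j l : Fin 5, (i ≠ j ∧ i ≠ l) ∧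
    k * (Equiv.swap i j * Equiv.swap i l) ≠ (Equiv.swap i j * Equiv.swap i l) * k := by
  decide +kernel

theorem s5_normal_z (K : Subgroup S5) [hKN : K.Normal] (hK : IsZGroup K) : K = ⊥ := by
  have h1 : K.subgroupOf A5 = ⊥ := by
    apply a5_normal_z
    let f : K.subgroupOf A5 →* K := (A5.subtype.comp (K.subgroupOf A5).subtype).codRestrict K (fun x => x.2)
    exact IsZGroup.of_injective (f := f) (by
      intro x y hxy
      apply Subtype.ext
      apply Subtype.ext
      have h9 := congrArg (fun z : K => (z : S5)) hxy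
      exact h9)
  rw [Subgroup.eq_bot_iff_forall]
  intro k hk
  by_contra hk1
  obtain ⟨i, j, l, ⟨hij, hil⟩, hne⟩ := s5_cent k hk1
  apply hne
  set g : S5 := Equiv.swap i j * Equiv.swap i l with hg
  have hgA : g ∈ A5 := by
    rw [Equiv.Perm.mem_alternatingGroup, hg, Equiv.Perm.sign_mul, Equiv.Perm.sign_swap hij, Equiv.Perm.sign_swap hil]
    rfl
  have h2 : k * g * k⁻¹ * g⁻¹ ∈ K := by
    have := K.mul_mem hk (hKN.conj_mem _ (K.inv_mem hk) g)
    have e : k * (g * k⁻¹ * g⁻¹) = k * g * k⁻¹ * g⁻¹ := by group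
    rwa [e] at this
  have hA5 : (A5 : Subgroup S5).Normal := inferInstance
  have h3 : k * g * k⁻¹ * g⁻¹ ∈ A5 := (A5 : Subgroup S5).mul_mem (hA5.conj_mem _ hgA k) ((A5 : Subgroup S5).inv_mem hgA)
  have h4 : (⟨k * g * k⁻¹ * g⁻¹, h3⟩ : A5) ∈ K.subgroupOf A5 := h2
  rw [h1, Subgroup.mem_bot] at h4
  have h5 : k * g * k⁻¹ * g⁻¹ = 1 := congrArg Subtype.val h4
  calc k * g = (k * g * k⁻¹ * g⁻¹) * g * k := by group
    _ = g * k := by rw [h5, one_mul]

/-- the targets other than the four-group -/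
def Big (T : Type) [Group T] : Prop := 4 < Nat.card T ∧ ∀ K : Subgroup T, K.Normal → IsZGroup K → K = ⊥

theorem big_a4 : Big A4 := ⟨by
  have h := nat_card_alternatingGroup (α := Fin 4)
  rw [h, Nat.card_eq_fintype_card, Fintype.card_fin]
  decide, fun K hK hz => a4_normal_z K hz⟩
theorem big_s4 : Big S4 := ⟨by
  rw [Nat.card_perm, Nat.card_eq_fintype_card, Fintype.card_fin]
  decide, fun K hK hz => s4_normal_z K hz⟩
theorem big_a5 : Big A5 := ⟨by
  have h := nat_card_alternatingGroup (α := Fin 5)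
  rw [h, Nat.card_eq_fintype_card, Fintype.card_fin]
  decide, fun K hK hz => a5_normal_z K hz⟩
theorem big_s5 : Big S5 := ⟨by
  rw [Nat.card_perm, Nat.card_eq_fintype_card, Fintype.card_fin]
  decide, fun K hK hz => s5_normal_z K hz⟩

variable {G : Type*} [Group G] [Finite G]

/-- kernels: a normal Z-subgroup is contained in the kernel of a map onto a big target -/
theorem le_ker {T : Type} [Group T] [Finite T] (hT : Big T) {f : G →* T} (hf : Function.Surjective f) {K : Subgroup G}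
    (hKN : K.Normal) (hK : IsZGroup K) : K ≤ f.ker := by
  have h1 := hT.2 (K.map f) (hKN.map f hf) (IsZGroup.of_surjective (f.subgroupMap_surjective K))
  rwa [Subgroup.map_eq_bot_iff] at h1

/-- the alternatives -/
def Alt (N : Subgroup G) : Prop :=
  N = ⊤ ∨ (∃ f : G →* V4, Function.Surjective f ∧ f.ker = N) ∨
    ∃ (T : Type) (_ : Group T) (_ : Finite T) (_ : Big T) (f : G →* T), Function.Surjective f ∧ f.ker = N

theorem top_not_z {T : Type} [Group T] [Finite T] (hT : Big T) {f : G →* T} (hf : Function.Surjective f) : ¬ IsZGroup G := by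
  intro h
  have h1 := le_ker hT hf (K := ⊤) inferInstance inferInstance
  have h2 : Nat.card T = 1 := by
    rw [Nat.card_eq_one_iff_unique]
    refine ⟨⟨fun a b => ?_⟩, ⟨1⟩⟩
    obtain ⟨x, rfl⟩ := hf a
    obtain ⟨y, rfl⟩ := hf b
    rw [MonoidHom.mem_ker.1 (h1 (Subgroup.mem_top x)), MonoidHom.mem_ker.1 (h1 (Subgroup.mem_top y))]
  have := hT.1
  omega

theorem index_ker_eq {T : Type} [Group T] {f : G →* T} (hf : Function.Surjective f) : f.ker.index = Nat.card T := by
  rw [Subgroup.index_ker, MonoidHom.range_eq_top.2 hf, Subgroup.card_top]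

theorem v4_not (hz : IsZGroup G) {f : G →* V4} (hf : Function.Surjective f) : False :=
  v4_not_z (IsZGroup.of_surjective hf)

/-- two maps onto the four-group with 2-generated Sylow 2-subgroup -/
theorem eq_of_v4 (f1 f2 : G →* V4) (h1 : Function.Surjective f1) (h2 : Function.Surjective f2)
    (P : Sylow 2 G) (u v : G) (huv : closure {u, v} = (P : Subgroup G)) : f1.ker ≤ f2.ker := by
  classical
  let f : G →* V4 × V4 := f1.prod f2
  have hsq : ∀ x : V4 × V4, x * x = 1 := fun x => Prod.ext (v4_sq _) (v4_sq _)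
  have hcm : ∀ x y : V4 × V4, x * y = y * x := fun x y => Prod.ext (v4_comm _ _) (v4_comm _ _)
  have hR : IsPGroup 2 f.range := fun x => ⟨1, by
    rw [pow_one, pow_two]
    exact Subtype.ext (hsq _)⟩
  let P' : Sylow 2 f.range := P.mapSurjective f.rangeRestrict_surjective
  have hP' : (P' : Subgroup f.range) = ⊤ := by
    have hidx := P'.not_dvd_index
    obtain ⟨k, hk⟩ := hR.exists_card_eq
    have : (P' : Subgroup f.range).index ∣ 2 ^ k := by rw [← hk]; exact Subgroup.index_dvd_card _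
    obtain ⟨j, -, hj⟩ := (Nat.dvd_prime_pow Nat.prime_two).1 this
    rcases Nat.eq_zero_or_pos j with h | h
    · rw [h, pow_zero] at hj
      exact Subgroup.index_eq_one.1 hj
    · exfalso
      apply hidx
      rw [hj]
      exact dvd_pow_self 2 h.ne'
  have hfP : ∀ g : G, f g ∈ (P : Subgroup G).map f := by
    intro g
    have h3 : f.rangeRestrict g ∈ (P' : Subgroup f.range) := hP' ▸ Subgroup.mem_top _
    obtain ⟨p, hp, hpg⟩ := h3
    exact ⟨p, hp, congrArg Subtype.val hpg⟩
  have hS : ∀ g ∈ closure ({u, v} : Set G), f g ∈ ({1, f u, f v, f u * f v} : Finset (V4 × V4)) := by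
    intro g hg
    refine Subgroup.closure_induction (p := fun g _ => f g ∈ ({1, f u, f v, f u * f v} : Finset (V4 × V4))) ?_ ?_ ?_ ?_ hg
    · rintro z (rfl | rfl) <;> simp
    · simp
    · intro x y _ _ hx hy
      rw [map_mul]
      generalize f x = X at *
      generalize f y = Y at *
      generalize f u = U at *
      generalize f v = W at *
      have e1 := hsq U
      have e2 := hsq W
      have e3 := hcm U W
      simp only [Finset.mem_insert, Finset.mem_singleton] at hx hy ⊢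
      have e4 : U * (U * W) = W := by rw [← mul_assoc, e1, one_mul]
      have e5 : W * (U * W) = U := by rw [e3, ← mul_assoc, e2, one_mul]
      have e6 : U * W * U = W := by rw [e3, mul_assoc, e1, mul_one]
      have e7 : U * W * W = U := by rw [mul_assoc, e2, mul_one]
      have e8 : U * W * (U * W) = 1 := hsq _
      have e9 : W * U = U * W := e3.symm
      rcases hx with h | h | h | h <;> rcases hy with h' | h' | h' | h' <;> rw [h, h'] <;>
        simp [e1, e2, e4, e5, e6, e7, e8, e9]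
    · intro x _ hx
      rw [map_inv]
      have : (f x)⁻¹ = f x := inv_eq_of_mul_eq_one_left (hsq _)
      rwa [this]
  have hcard : f.ker.index ≤ 4 := by
    rw [Subgroup.index_ker]
    have hsub : (f.range : Set (V4 × V4)) ⊆ ↑({1, f u, f v, f u * f v} : Finset (V4 × V4)) := by
      rintro _ ⟨g, rfl⟩
      obtain ⟨p, hp, hpg⟩ := hfP g
      rw [← hpg]
      apply hS
      rw [huv]; exact hp
    calc Nat.card f.range = (f.range : Set (V4 × V4)).ncard := rfl
      _ ≤ (↑({1, f u, f v, f u * f v} : Finset (V4 × V4)) : Set (V4 × V4)).ncard := Set.ncard_le_ncard hsub (Finset.finite_toSet _)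
      _ = ({1, f u, f v, f u * f v} : Finset (V4 × V4)).card := Set.ncard_coe_finset _
      _ ≤ 4 := Finset.card_le_four
  have hk : f.ker = f1.ker ⊓ f2.ker := by
    ext g
    rw [Subgroup.mem_inf, MonoidHom.mem_ker, MonoidHom.mem_ker, MonoidHom.mem_ker, Prod.ext_iff]
    rfl
  have hi1 : f1.ker.index = 4 := by rw [index_ker_eq h1, v4_card]
  have h3 := Subgroup.relIndex_mul_index (H := f.ker) (K := f1.ker) (by rw [hk]; exact inf_le_left)
  rw [hi1] at h3
  have h4 : f.ker.relIndex f1.ker = 1 := by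
    have h5 : f.ker.relIndex f1.ker ≠ 0 := Subgroup.index_ne_zero_of_finite
    have h6 : f.ker.relIndex f1.ker * 4 ≤ 4 := by omega
    omega
  have h5 := Subgroup.relIndex_eq_one.1 h4
  rw [hk] at h5
  exact h5.trans inf_le_right

theorem unique {N1 N2 : Subgroup G} (n1 : N1.Normal) (n2 : N2.Normal) (z1 : IsZGroup N1) (z2 : IsZGroup N2)
    (a1 : Alt N1) (a2 : Alt N2) (P : Sylow 2 G) (u v : G) (huv : closure {u, v} = (P : Subgroup G)) : N1 ≤ N2 := by
  rcases a2 with rfl | ⟨f2, hf2, rfl⟩ | ⟨T2, i1, i2, hT2, f2, hf2, rfl⟩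
  · exact le_top
  · rcases a1 with rfl | ⟨f1, hf1, rfl⟩ | ⟨T1, i1, i2, hT1, f1, hf1, rfl⟩
    · exfalso
      exact v4_not (IsZGroup.of_surjective (f := (Subgroup.topEquiv (G := G)).toMonoidHom) (Subgroup.topEquiv (G := G)).surjective) hf2
    · exact eq_of_v4 f1 f2 hf1 hf2 P u v huv
    · have h1 := le_ker hT1 hf1 n2 z2
      have h2 : f1.ker.index ∣ f2.ker.index := Subgroup.index_dvd_of_le h1
      rw [index_ker_eq hf1, index_ker_eq hf2, v4_card] at h2
      have h3 := Nat.le_of_dvd (by norm_num) h2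
      have h4 := hT1.1
      omega
  · exact le_ker hT2 hf2 n1 z1

end Cfsg.Agent.H2.Six
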