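import Cfsg.Agent.H2.Six1
import Cfsg.Agent.H21.RG4
import Cfsg.Agent.H20.AutTwo
import Cfsg.Agent.H1.Chief
import Cfsg.Agent.H11.Q8
import Cfsg.Agent.H4.QuatEquiv
import Cfsg.Agent.H18.StrongEmb2

set_option autoImplicit false
set_option linter.all false

/-! H2/Six2 (helper2): existence part of the six types (S4291), solvable case. -/

namespace Cfsg.Agent.H2.Six

open Subgroup

theorem exists_act {X : Type*} [Group X] [Finite X] (M : Subgroup X) (n : ℕ) (hM : M.index = n) :
    ∃ F : X →* Equiv.Perm (Fin n), F.ker = M.normalCore := by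
  have h1 : Nat.card (X ⧸ M) = n := hM
  have e : (X ⧸ M) ≃ Fin n := (Finite.equivFinOfCardEq h1)
  refine ⟨(e.permCongrHom.toMonoidHom).comp (MulAction.toPermHom X (X ⧸ M)), ?_⟩
  rw [Subgroup.normalCore_eq_ker]
  ext g
  rw [MonoidHom.mem_ker, MonoidHom.mem_ker, MonoidHom.comp_apply]
  constructor
  · intro h
    exact e.permCongrHom.injective (h.trans (map_one _).symm)
  · intro h
    rw [h, map_one]

theorem surj_or_alt {X : Type*} [Group X] [Finite X] {n : ℕ} (hn : 2 ≤ n) (F : X →* Equiv.Perm (Fin n))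
    (h : F.ker.index = n.factorial ∨ 2 * F.ker.index = n.factorial) :
    Function.Surjective F ∨ ∃ F' : X →* alternatingGroup (Fin n), Function.Surjective F' ∧ F'.ker = F.ker := by
  haveI : Nontrivial (Fin n) := Fin.nontrivial_iff_two_le.2 hn
  rw [Subgroup.index_ker] at h
  have h1 := F.range.card_mul_index
  rw [Nat.card_perm, Nat.card_eq_fintype_card (α := Fin n), Fintype.card_fin] at h1
  have hpos : 0 < Nat.card F.range := Nat.card_pos
  rcases h with h | h
  · left
    rw [← MonoidHom.range_eq_top]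
    apply Subgroup.index_eq_one.1
    rw [h] at h1 hpos
    exact Nat.eq_of_mul_eq_mul_left hpos (by rw [h1, mul_one])
  · right
    have h2 : F.range.index = 2 := by
      apply Nat.eq_of_mul_eq_mul_left hpos
      rw [h1, ← h, mul_comm]
    have h3 := Equiv.Perm.eq_alternatingGroup_of_index_eq_two h2
    have h4 : ∀ x, F x ∈ alternatingGroup (Fin n) := fun x => h3 ▸ ⟨x, rfl⟩
    refine ⟨F.codRestrict _ h4, ?_, ?_⟩
    · rintro ⟨s, hs⟩
      rw [← h3] at hs
      obtain ⟨x, rfl⟩ := hs
      exact ⟨x, rfl⟩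
    · ext x
      rw [MonoidHom.mem_ker, MonoidHom.mem_ker]
      constructor
      · intro h; exact congrArg Subtype.val h
      · intro h; exact Subtype.ext h

/-- the quaternion groups map onto the four-group with cyclic kernel -/
def quatMap (n : ℕ) (hn : 1 ≤ n) : QuaternionGroup (2 ^ n) →* V4 where
  toFun
    | .a i => .r (ZMod.castHom (show 2 ∣ 2 * 2 ^ n from ⟨_, rfl⟩) (ZMod 2) i)
    | .xa i => .sr (ZMod.castHom (show 2 ∣ 2 * 2 ^ n from ⟨_, rfl⟩) (ZMod 2) i)
  map_one' := by
    rw [QuaternionGroup.one_def]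
    simp only [map_zero]
    rfl
  map_mul' := by
    have h0 : ((2 ^ n : ℕ) : ZMod 2) = 0 := by
      rw [ZMod.natCast_eq_zero_iff]
      exact dvd_pow_self 2 (by omega)
    rintro (i | i) (j | j)
    · simp only [QuaternionGroup.a_mul_a, DihedralGroup.r_mul_r, map_add]
    · simp only [QuaternionGroup.a_mul_xa, DihedralGroup.r_mul_sr, map_sub]
    · simp only [QuaternionGroup.xa_mul_a, DihedralGroup.sr_mul_r, map_add]
    · simp only [QuaternionGroup.xa_mul_xa, DihedralGroup.sr_mul_sr, map_add, map_sub, map_natCast, h0, zero_add]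

theorem quatMap_surj (n : ℕ) (hn : 1 ≤ n) : Function.Surjective (quatMap n hn) := by
  have hs := ZMod.ringHom_surjective (ZMod.castHom (show 2 ∣ 2 * 2 ^ n from ⟨_, rfl⟩) (ZMod 2))
  rintro (i | i)
  · obtain ⟨j, hj⟩ := hs i
    exact ⟨.a j, congrArg DihedralGroup.r hj⟩
  · obtain ⟨j, hj⟩ := hs i
    exact ⟨.xa j, congrArg DihedralGroup.sr hj⟩

theorem quatMap_ker (n : ℕ) (hn : 1 ≤ n) : IsCyclic (quatMap n hn).ker := by
  haveI : NeZero (2 ^ n) := ⟨by positivity⟩
  have h1 : (quatMap n hn).ker ≤ Subgroup.zpowers (QuaternionGroup.a 1) := by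
    rintro (i | i) hi
    · refine ⟨(i.val : ℤ), ?_⟩
      change (QuaternionGroup.a 1 : QuaternionGroup (2 ^ n)) ^ ((i.val : ℕ) : ℤ) = QuaternionGroup.a i
      rw [zpow_natCast, QuaternionGroup.a_one_pow, ZMod.natCast_zmod_val]
    · exfalso
      have := MonoidHom.mem_ker.1 hi
      change DihedralGroup.sr _ = (1 : V4) at this
      rw [DihedralGroup.one_def] at this
      cases this
  exact isCyclic_of_injective (Subgroup.inclusion h1) (Subgroup.inclusion_injective _)

theorem sylow_card_aux {X : Type*} [Group X] [Finite X] {p : ℕ} [hp : Fact p.Prime] {a m : ℕ}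
    (h : Nat.card X = p ^ a * m) (hm : ¬ p ∣ m) (P : Sylow p X) : Nat.card P = p ^ a := by
  have hm0 : m ≠ 0 := by rintro rfl; exact hm (dvd_zero _)
  rw [P.card_eq_multiplicity, h, Nat.factorization_mul (pow_ne_zero _ hp.out.ne_zero) hm0]
  simp [hp.out.factorization_pow, Nat.factorization_eq_zero_of_not_dvd hm, Nat.Prime.factorization_self hp.out]

/-- numbers -/
theorem sylow_not_normal {X : Type*} [Group X] [Finite X] (F0 : Subgroup X) [hF0 : F0.Normal] (h8 : Nat.card F0 = 8)
    (hC : centralizer (F0 : Set X) ≤ F0) (r : ℕ) [hr : Fact r.Prime] (hr2 : r ≠ 2) (hd : r ∣ Nat.card X) (R : Sylow r X) :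
    ¬ (R : Subgroup X).Normal := by
  intro hN
  have hcop : (Nat.card F0).Coprime (Nat.card R) := by
    rw [h8, R.card_eq_multiplicity]
    apply Nat.Coprime.pow_right
    have : (2 ^ 3).Coprime r := Nat.Coprime.pow_left 3 ((Nat.coprime_primes Nat.prime_two hr.out).2 (Ne.symm hr2))
    exact this
  have hinf : F0 ⊓ (R : Subgroup X) = ⊥ := Subgroup.inf_eq_bot_of_coprime hcop
  have h1 : (R : Subgroup X) ≤ centralizer (F0 : Set X) := by
    intro x hx
    rw [Subgroup.mem_centralizer_iff]
    intro f hf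
    have h2 : f * x * f⁻¹ * x⁻¹ ∈ F0 ⊓ (R : Subgroup X) := by
      refine ⟨?_, (R : Subgroup X).mul_mem (hN.conj_mem x hx f) ((R : Subgroup X).inv_mem hx)⟩
      have := F0.mul_mem hf (hF0.conj_mem _ (F0.inv_mem hf) x)
      have e : f * (x * f⁻¹ * x⁻¹) = f * x * f⁻¹ * x⁻¹ := by group
      rwa [e] at this
    rw [hinf, Subgroup.mem_bot] at h2
    calc f * x = (f * x * f⁻¹ * x⁻¹) * x * f := by group
      _ = x * f := by rw [h2, one_mul]
  have h3 : (R : Subgroup X) ≤ F0 ⊓ (R : Subgroup X) := le_inf (h1.trans hC) le_rfl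
  rw [hinf, le_bot_iff] at h3
  have h4 := R.card_eq_multiplicity
  have h5 : Nat.card (R : Subgroup X) = 1 := by rw [h3, Subgroup.card_bot]
  rw [h5] at h4
  have h6 : 1 ≤ (Nat.card X).factorization r := (Nat.Prime.dvd_iff_one_le_factorization hr.out Nat.card_pos.ne').1 hd
  have := Nat.one_lt_pow (by omega) hr.out.one_lt (n := (Nat.card X).factorization r)
  omega

/-- the mapping onto A4 or S4 -/
theorem case_q8 {X : Type*} [Group X] [Finite X] (F0 : Subgroup X) [hF0 : F0.Normal] (e : F0 ≃* QuaternionGroup 2)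
    (hmax : ∀ K : Subgroup X, K.Normal → IsPGroup 2 K → K ≤ F0)
    (hC : centralizer (F0 : Set X) ≤ F0) (hX : ¬ IsPGroup 2 X) :
    Nat.card (centralizer (F0 : Set X)) = 2 ∧ ((∃ f : X →* A4, Function.Surjective f ∧ f.ker = centralizer (F0 : Set X)) ∨
    (∃ f : X →* S4, Function.Surjective f ∧ f.ker = centralizer (F0 : Set X))) := by
  classical
  have h8 : Nat.card F0 = 8 := by rw [Nat.card_congr e.toEquiv, H21.RG.q8_card]
  set Z : Subgroup X := centralizer (F0 : Set X) with hZ
  haveI hZN : Z.Normal := by rw [hZ]; infer_instance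
  set z0 : X := ((e.symm (QuaternionGroup.a 2) : F0) : X) with hz0
  have hZle : ∀ x ∈ Z, x = 1 ∨ x = z0 := by
    intro x hx
    have hxF : x ∈ F0 := hC hx
    have h1 : ∀ a : H21.RG.Q8, a * e ⟨x, hxF⟩ = e ⟨x, hxF⟩ * a := by
      intro a
      obtain ⟨y, rfl⟩ := e.surjective a
      rw [← map_mul, ← map_mul]
      congr 1
      exact Subtype.ext (Subgroup.mem_centralizer_iff.1 hx y y.2)
    rcases (H21.RG.q8_center _).1 h1 with h | h
    · left
      have h2 : (⟨x, hxF⟩ : F0) = 1 := e.injective (h.trans (map_one e).symm)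
      exact congrArg Subtype.val h2
    · right
      have h2 : (⟨x, hxF⟩ : F0) = e.symm (QuaternionGroup.a 2) := by rw [← h, e.symm_apply_apply]
      exact congrArg Subtype.val h2
  have hz0Z : z0 ∈ Z := by
    rw [hZ, Subgroup.mem_centralizer_iff]
    intro y hy
    have h1 := (H21.RG.q8_center (QuaternionGroup.a 2)).2 (Or.inr rfl) (e ⟨y, hy⟩)
    have h2 : (⟨y, hy⟩ : F0) * e.symm (QuaternionGroup.a 2) = e.symm (QuaternionGroup.a 2) * ⟨y, hy⟩ := by
      apply e.injective
      rw [map_mul, map_mul, e.apply_symm_apply]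
      exact h1
    exact congrArg Subtype.val h2
  have hz0ne : z0 ≠ 1 := by
    intro h
    have h1 : e.symm (QuaternionGroup.a 2) = 1 := Subtype.ext h
    have h2 : (QuaternionGroup.a 2 : QuaternionGroup 2) = 1 := by
      rw [← e.apply_symm_apply (QuaternionGroup.a 2), h1, map_one]
    revert h2; decide
  have hcZ : Nat.card Z = 2 := by
    have h1 : (Z : Set X) = {1, z0} := by
      ext x
      constructor
      · intro hx
        rcases hZle x hx with h | h <;> simp [h]
      · rintro (rfl | rfl)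
        · exact Z.one_mem
        · exact hz0Z
    calc Nat.card Z = (Z : Set X).ncard := rfl
      _ = 2 := by rw [h1, Set.ncard_pair (Ne.symm hz0ne)]
  have hzc : ∀ g : X, g * z0 = z0 * g := by
    intro g
    rcases hZle (g * z0 * g⁻¹) (hZN.conj_mem _ hz0Z g) with h | h
    · exfalso
      apply hz0ne
      calc z0 = g⁻¹ * (g * z0 * g⁻¹) * g := by group
        _ = 1 := by rw [h]; group
    · calc g * z0 = (g * z0 * g⁻¹) * g := by group
        _ = z0 * g := by rw [h]
  -- index
  let φ : X →* MulAut F0 := MulAut.conjNormal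
  have hker : φ.ker = Z := by
    ext x
    rw [hZ, Subgroup.mem_centralizer_iff, MonoidHom.mem_ker]
    constructor
    · intro h f hf
      have h1 := congrArg (fun a => ((a ⟨f, hf⟩ : F0) : X)) h
      have h2 : x * f * x⁻¹ = f := h1
      exact (mul_inv_eq_iff_eq_mul.mp h2).symm
    · intro h
      ext ⟨f, hf⟩
      change x * f * x⁻¹ = f
      rw [mul_inv_eq_iff_eq_mul]
      exact (h f hf).symm
  have hm24 : Z.index ≤ 24 := by
    rw [← hker, Subgroup.index_ker]
    have h1 : Nat.card φ.range ≤ Nat.card (MulAut F0) := by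
      haveI : Finite (MulAut F0) := Finite.of_equiv _ (MulAut.congr e).symm.toEquiv
      exact Subgroup.card_le_card_group _
    refine h1.trans ?_
    rw [Nat.card_congr (MulAut.congr e).toEquiv]
    exact H21.RG.card_mulAut_le
  have hrel : Z.relIndex F0 = 4 := by
    have h1 := H1.card_mul_relIndex hC
    rw [hcZ, h8] at h1
    omega
  have h4m : 4 ∣ Z.index := by
    rw [← Subgroup.relIndex_mul_index hC, hrel]
    exact dvd_mul_right _ _
  have hcX : Nat.card X = 2 * Z.index := by rw [← hcZ, Z.card_mul_index]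
  refine ⟨hcZ, ?_⟩
  have hnot2 : ∀ k : ℕ, Nat.card X ≠ 2 ^ k := fun k hk => hX (IsPGroup.of_card hk)
  have hm : Z.index = 12 ∨ Z.index = 20 ∨ Z.index = 24 := by
    have h0 : Z.index ≠ 0 := Subgroup.index_ne_zero_of_finite
    obtain ⟨t, ht⟩ := h4m
    have h3 := hnot2 3
    have h4 := hnot2 4
    have h5 := hnot2 5
    omega
  haveI f3 : Fact (Nat.Prime 3) := ⟨by norm_num⟩
  haveI f5 : Fact (Nat.Prime 5) := ⟨by norm_num⟩
  have hm' : Z.index = 12 ∨ Z.index = 24 := by
    rcases hm with h | h | h
    · exact Or.inl h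
    · exfalso
      have hc : Nat.card X = 40 := by rw [hcX, h]
      have R : Sylow 5 X := default
      have hRn := sylow_not_normal F0 h8 hC 5 (by norm_num) (by rw [hc]; norm_num) R
      have h1 := card_sylow_modEq_one 5 X
      have h2 := R.card_dvd_index
      have h3 : Nat.card R = 5 := by
        exact sylow_card_aux (a := 1) (m := 8) (by rw [hc]; norm_num) (by norm_num) R
      have h4 : (R : Subgroup X).index = 8 := by
        have := (R : Subgroup X).card_mul_index
        rw [h3, hc] at this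
        omega
      rw [h4] at h2
      have h5 : Nat.card (Sylow 5 X) ≤ 8 := Nat.le_of_dvd (by norm_num) h2
      have h6 : Nat.card (Sylow 5 X) = 1 := by
        unfold Nat.ModEq at h1
        interval_cases hh : Nat.card (Sylow 5 X) <;> omega
      apply hRn
      rw [R.card_eq_index_normalizer] at h6
      exact Subgroup.normalizer_eq_top_iff.1 (Subgroup.index_eq_one.1 h6)
    · exact Or.inr h
  -- three
  have R : Sylow 3 X := default
  obtain ⟨m, hm3, hmc⟩ : ∃ m, ¬ 3 ∣ m ∧ Nat.card X = 3 ^ 1 * m ∧ (m = 8 ∨ m = 16) := by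
    rcases hm' with h | h
    · exact ⟨8, by norm_num, by rw [hcX, h]; norm_num, Or.inl rfl⟩
    · exact ⟨16, by norm_num, by rw [hcX, h]; norm_num, Or.inr rfl⟩
  obtain ⟨hmc, hm816⟩ := hmc
  have hRn : ∀ R : Sylow 3 X, ¬ (R : Subgroup X).Normal := fun R =>
    sylow_not_normal F0 h8 hC 3 (by norm_num) (by rw [hmc]; exact ⟨m, by ring⟩) R
  have hcR : ∀ R : Sylow 3 X, Nat.card R = 3 := fun R => by
    have := sylow_card_aux hmc hm3 R
    rwa [pow_one] at this
  have hn3 : Nat.card (Sylow 3 X) = 4 := by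
    have h1 := card_sylow_modEq_one 3 X
    have h2 := R.card_dvd_index
    have h4 : (R : Subgroup X).index = m := by
      have := (R : Subgroup X).card_mul_index
      rw [hcR R, hmc] at this
      omega
    rw [h4] at h2
    -- z0 normalizes R
    have h6 : 6 ∣ Nat.card (Subgroup.normalizer ((R : Subgroup X) : Set X)) := by
      have h7 : 3 ∣ Nat.card (Subgroup.normalizer ((R : Subgroup X) : Set X)) := by
        have := Subgroup.card_dvd_of_le (Subgroup.le_normalizer (H := (R : Subgroup X)))
        rwa [show Nat.card (R : Subgroup X) = 3 from hcR R] at this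
      have h8 : 2 ∣ Nat.card (Subgroup.normalizer ((R : Subgroup X) : Set X)) := by
        rw [← hcZ]
        apply Subgroup.card_dvd_of_le
        intro x hx
        rw [Subgroup.mem_normalizer_iff]
        intro g
        have : x * g * x⁻¹ = g := by
          rcases hZle x hx with rfl | rfl
          · simp
          · rw [← hzc, mul_inv_cancel_right]
        rw [this]
      omega
    have h9 : Nat.card (Sylow 3 X) = (Subgroup.normalizer ((R : Subgroup X) : Set X)).index := R.card_eq_index_normalizer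
    have h10 := (Subgroup.normalizer ((R : Subgroup X) : Set X)).card_mul_index
    rw [← h9, hmc] at h10
    have h11 : Nat.card (Sylow 3 X) ≤ 8 := by
      obtain ⟨t, ht⟩ := h6
      rw [ht] at h10
      have ht0 : 0 < t := by
        rcases Nat.eq_zero_or_pos t with h | h
        · rw [h] at ht
          have := Nat.card_pos (α := Subgroup.normalizer ((R : Subgroup X) : Set X))
          omega
        · exact h
      have h12 : 6 * Nat.card (Sylow 3 X) ≤ 6 * t * Nat.card (Sylow 3 X) := Nat.mul_le_mul_right _ (by omega)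
      rcases hm816 with h | h <;> subst h <;> omega
    have h13 : Nat.card (Sylow 3 X) ≠ 1 := by
      intro h
      apply hRn R
      rw [h9] at h
      exact Subgroup.normalizer_eq_top_iff.1 (Subgroup.index_eq_one.1 h)
    unfold Nat.ModEq at h1
    have h14 : Nat.card (Sylow 3 X) ∣ 16 := h2.trans (by rcases hm816 with h | h <;> subst h <;> norm_num)
    interval_cases hh : Nat.card (Sylow 3 X) <;> omega
  set M : Subgroup X := Subgroup.normalizer ((R : Subgroup X) : Set X) with hM
  have hMi : M.index = 4 := hn3 ▸ (R.card_eq_index_normalizer).symm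
  have hZnorm : ∀ R : Subgroup X, Z ≤ Subgroup.normalizer (R : Set X) := by
    intro R x hx
    rw [Subgroup.mem_normalizer_iff]
    intro g
    have : x * g * x⁻¹ = g := by
      rcases hZle x hx with rfl | rfl
      · simp
      · rw [← hzc, mul_inv_cancel_right]
    rw [this]
  have hcore : M.normalCore = Z := by
    apply le_antisymm
    swap
    · exact (Subgroup.normal_le_normalCore).2 (hZnorm _)
    set K : Subgroup X := M.normalCore with hK
    have hKM : K ≤ M := Subgroup.normalCore_le M
    have hKN : K.Normal := by rw [hK]; infer_instance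
    have hK3 : ¬ 3 ∣ Nat.card K := by
      intro h3
      obtain ⟨w, hw⟩ := exists_prime_orderOf_dvd_card' (G := K) 3 h3
      have hwp : IsPGroup 3 (Subgroup.zpowers (w : X)) := by
        apply IsPGroup.of_card (n := 1)
        rw [Nat.card_zpowers, Subgroup.orderOf_coe, hw, pow_one]
      obtain ⟨R1, hR1⟩ := hwp.exists_le_sylow
      have hR1eq : Subgroup.zpowers (w : X) = (R1 : Subgroup X) := by
        apply Subgroup.eq_of_le_of_card_ge hR1
        rw [hcR R1, Nat.card_zpowers, Subgroup.orderOf_coe, hw]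
      have hR1K : (R1 : Subgroup X) ≤ K := by
        rw [← hR1eq, Subgroup.zpowers_le]; exact w.2
      have hall : ∀ Q : Sylow 3 X, Q = R := by
        intro Q
        obtain ⟨g, hg⟩ := MulAction.exists_smul_eq X R1 Q
        have hQK : (Q : Subgroup X) ≤ K := by
          rw [← hg]
          intro x hx
          rw [Sylow.coe_subgroup_smul, Subgroup.mem_pointwise_smul_iff_inv_smul_mem] at hx
          have h1 := hKN.conj_mem _ (hR1K hx) g
          have e1 : g * ((MulAut.conj g)⁻¹ • x) * g⁻¹ = x := by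
            rw [← map_inv, MulAut.smul_def, MulAut.conj_apply]; group
          rwa [e1] at h1
        have h1 : (Q : Subgroup X) ⊓ Subgroup.normalizer ((R : Subgroup X) : Set X) = (Q : Subgroup X) ⊓ (R : Subgroup X) :=
          IsPGroup.inf_normalizer_sylow Q.2 R
        have h2 : (Q : Subgroup X) ≤ R := by
          have : (Q : Subgroup X) ⊓ Subgroup.normalizer ((R : Subgroup X) : Set X) = Q := inf_eq_left.2 (hQK.trans hKM)
          rw [this] at h1
          rw [h1]; exact inf_le_right
        exact Sylow.ext (Subgroup.eq_of_le_of_card_ge h2 (by rw [hcR, hcR]))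
      have : Nat.card (Sylow 3 X) = 1 := by
        rw [Nat.card_eq_one_iff_unique]
        exact ⟨⟨fun a b => (hall a).trans (hall b).symm⟩, ⟨R⟩⟩
      omega
    have hK2 : IsPGroup 2 K := by
      have h1 : Nat.card K ∣ 3 * m := by
        have := Subgroup.card_subgroup_dvd_card K
        rwa [hmc, pow_one] at this
      have h2 : Nat.card K ∣ m :=
        Nat.Coprime.dvd_of_dvd_mul_left (((Nat.Prime.coprime_iff_not_dvd f3.out).2 hK3).symm) h1
      have h3 : Nat.card K ∣ 2 ^ 4 := h2.trans (by rcases hm816 with h | h <;> subst h <;> norm_num)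
      obtain ⟨j, -, hj⟩ := (Nat.dvd_prime_pow Nat.prime_two).1 h3
      exact IsPGroup.of_card hj
    have hKF := hmax K hKN hK2
    intro k hk
    by_contra hkZ
    have hkF : k ∈ F0 := hKF hk
    have hkk : k * k ≠ 1 := by
      intro h
      have h1 : e ⟨k, hkF⟩ * e ⟨k, hkF⟩ = 1 := by
        rw [← map_mul]
        have : (⟨k, hkF⟩ : F0) * ⟨k, hkF⟩ = 1 := Subtype.ext h
        rw [this, map_one]
      rcases H11.Q8.sq_one _ h1 with h2 | h2
      · apply hkZ
        have h3 : (⟨k, hkF⟩ : F0) = 1 := e.injective (h2.trans (map_one e).symm)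
        have h4 : k = 1 := congrArg Subtype.val h3
        rw [h4]; exact Z.one_mem
      · apply hkZ
        have h3 : (⟨k, hkF⟩ : F0) = e.symm (QuaternionGroup.a 2) := by rw [← h2, e.symm_apply_apply]
        have h4 : k = z0 := congrArg Subtype.val h3
        rw [h4]; exact hz0Z
    obtain ⟨z, i, j, l, hQ⟩ := H11.isQ8_of_equiv e
    have h3R : 3 ∣ Nat.card R := by rw [hcR R]
    obtain ⟨w, hw⟩ := exists_prime_orderOf_dvd_card' (G := (R : Subgroup X)) 3 h3R
    have hwk : (w : X) * k * (w : X)⁻¹ = k := by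
      have hcop : (Nat.card K).Coprime (Nat.card R) := by
        rw [hcR R]; exact ((Nat.Prime.coprime_iff_not_dvd f3.out).2 hK3).symm
      have hinf : K ⊓ (R : Subgroup X) = ⊥ := Subgroup.inf_eq_bot_of_coprime hcop
      have h1 : (w : X) * k * (w : X)⁻¹ * k⁻¹ ∈ K ⊓ (R : Subgroup X) := by
        refine ⟨K.mul_mem (hKN.conj_mem k hk w) (K.inv_mem hk), ?_⟩
        have h2 := (Subgroup.mem_normalizer_iff.1 (hKM hk) _).1 ((R : Subgroup X).inv_mem w.2)
        have h3 := (R : Subgroup X).mul_mem w.2 h2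
        have e1 : (w : X) * (k * (w : X)⁻¹ * k⁻¹) = (w : X) * k * (w : X)⁻¹ * k⁻¹ := by group
        rwa [e1] at h3
      rw [hinf, Subgroup.mem_bot] at h1
      calc (w : X) * k * (w : X)⁻¹ = ((w : X) * k * (w : X)⁻¹ * k⁻¹) * k := by group
        _ = k := by rw [h1, one_mul]
    have hw3 : orderOf (w : X) = 3 := by rw [Subgroup.orderOf_coe, hw]
    have hfix := hQ.fix (A := Subgroup.zpowers k) (Subgroup.zpowers_le.2 hkF)
      (by rw [Nat.card_zpowers]; exact hQ.order_four hkF hkk) (g := (w : X)) (by rw [hw3]; decide)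
      (fun s hs => hF0.conj_mem s hs w) (by
        intro s
        have hcomm : (w : X) * k = k * w := by
          calc (w : X) * k = ((w : X) * k * (w : X)⁻¹) * w := by group
            _ = k * w := by rw [hwk]
        constructor
        · intro h
          obtain ⟨t, ht⟩ := Subgroup.mem_zpowers_iff.1 h
          have h1 : s = (w : X)⁻¹ * k ^ t * w := by rw [ht]; group
          have h2 : Commute (w : X) (k ^ t) := (show Commute (w : X) k from hcomm).zpow_right t
          have h3 : (w : X)⁻¹ * k ^ t * w = k ^ t := by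
            rw [mul_assoc, ← h2.eq, inv_mul_cancel_left]
          rw [h1, h3]
          exact Subgroup.zpow_mem _ (Subgroup.mem_zpowers k) t
        · intro h
          obtain ⟨t, ht⟩ := Subgroup.mem_zpowers_iff.1 h
          have h2 : Commute (w : X) (k ^ t) := (show Commute (w : X) k from hcomm).zpow_right t
          rw [← ht, h2.eq, mul_inv_cancel_right]
          exact Subgroup.zpow_mem _ (Subgroup.mem_zpowers k) t)
    have hwF : (w : X) ∈ F0 := by
      apply hC
      rw [Subgroup.mem_centralizer_iff]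
      intro s hs
      exact (mul_inv_eq_iff_eq_mul.mp (hfix s hs)).symm
    have h9 : orderOf (⟨(w : X), hwF⟩ : F0) ∣ Nat.card F0 := orderOf_dvd_natCard _
    rw [Subgroup.orderOf_mk, hw3, h8] at h9
    omega
  obtain ⟨F, hF⟩ := exists_act M 4 hMi
  rw [hcore] at hF
  have h24 : (4 : ℕ).factorial = 24 := rfl
  rcases surj_or_alt (by norm_num) F (by rw [hF, h24]; omega) with h | ⟨F', hF', hk⟩
  · exact Or.inr ⟨F, h, hF⟩
  · exact Or.inl ⟨F', hF', hk.trans hF⟩

theorem quat_aut2 (m : ℕ) (hm : 2 ≤ m) : IsPGroup 2 (MulAut (QuaternionGroup (2 ^ m))) := by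
  haveI : NeZero (2 ^ m) := ⟨by positivity⟩
  have hcard : Nat.card (QuaternionGroup (2 ^ m)) = 2 ^ (m + 2) := by
    rw [Nat.card_eq_fintype_card, QuaternionGroup.card]
    rw [pow_add]; ring
  have ho : orderOf (QuaternionGroup.a 1 : QuaternionGroup (2 ^ m)) = 2 ^ (m + 1) := by
    rw [QuaternionGroup.orderOf_a_one, pow_succ']
  refine H20.isPGroup_mulAut_of_pow_four (m + 1) (by omega) (QuaternionGroup.a 1) ho ?_ ?_
  · have h1 := (Subgroup.zpowers (QuaternionGroup.a 1 : QuaternionGroup (2 ^ m))).card_mul_index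
    rw [Nat.card_zpowers, ho, hcard] at h1
    have h3 : 2 ^ (m + 2) = 2 ^ (m + 1) * 2 := by rw [← pow_succ]
    rw [h3] at h1
    exact Nat.eq_of_mul_eq_mul_left (by positivity) h1
  · rintro (i | i) hi
    · exfalso
      apply hi
      refine ⟨(i.val : ℤ), ?_⟩
      change (QuaternionGroup.a 1 : QuaternionGroup (2 ^ m)) ^ ((i.val : ℕ) : ℤ) = QuaternionGroup.a i
      rw [zpow_natCast, QuaternionGroup.a_one_pow, ZMod.natCast_zmod_val]
    · exact QuaternionGroup.xa_pow_four i

/-- solvable groups with `O_{2'} = 1` and quaternion Sylow 2-subgroup -/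
theorem solv_case {X : Type*} [Group X] [Finite X] (hs : Group.IsSolvable X) (hO : Cfsg.pPrimeCore 2 X = ⊥)
    (T : Sylow 2 X) (n : ℕ) (hn : 1 ≤ n) (e : (T : Subgroup X) ≃* QuaternionGroup (2 ^ n)) :
    ∃ N : Subgroup X, IsCyclic N ∧ IsPGroup 2 N ∧ ((∃ f : X →* V4, Function.Surjective f ∧ f.ker = N) ∨
      (∃ f : X →* A4, Function.Surjective f ∧ f.ker = N) ∨ (∃ f : X →* S4, Function.Surjective f ∧ f.ker = N)) := by
  classical
  haveI := hs
  haveI : NeZero (2 ^ n) := ⟨by positivity⟩
  set F0 := Cfsg.pCore 2 X with hF0def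
  have hFn : F0.Normal := H1.pCore_normal 2 _
  have hFT : F0 ≤ T := H1.pCore_le_sylow T
  have hFp : IsPGroup 2 F0 := H1.pCore_isPGroup 2 _
  have hCF : Subgroup.centralizer (F0 : Set X) ≤ F0 :=
    H1.centralizer_pCore_le inferInstance 2 hO
  by_cases hX : IsPGroup 2 X
  · have hT : (T : Subgroup X) = ⊤ := by
      have hidx := T.not_dvd_index
      obtain ⟨k, hk⟩ := hX.exists_card_eq
      have : (T : Subgroup X).index ∣ 2 ^ k := by rw [← hk]; exact Subgroup.index_dvd_card _
      obtain ⟨j, -, hj⟩ := (Nat.dvd_prime_pow Nat.prime_two).1 this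
      rcases Nat.eq_zero_or_pos j with h | h
      · rw [h, pow_zero] at hj
        exact Subgroup.index_eq_one.1 hj
      · exfalso
        apply hidx
        rw [hj]
        exact dvd_pow_self 2 h.ne'
    let e' : X ≃* QuaternionGroup (2 ^ n) := Subgroup.topEquiv.symm.trans ((MulEquiv.subgroupCongr hT.symm).trans e)
    refine ⟨((quatMap n hn).comp e'.toMonoidHom).ker, ?_, hX.to_subgroup _, Or.inl ⟨_, (quatMap_surj n hn).comp e'.surjective, rfl⟩⟩
    haveI := quatMap_ker n hn
    let g : ((quatMap n hn).comp e'.toMonoidHom).ker →* (quatMap n hn).ker :=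
      (e'.toMonoidHom.comp (Subgroup.subtype _)).codRestrict _ (fun x => x.2)
    exact isCyclic_of_injective g (by
      intro x y hxy
      have h1 := congrArg (fun z : (quatMap n hn).ker => (z : QuaternionGroup (2 ^ n))) hxy
      exact Subtype.ext (e'.injective h1))
  · have hna : ¬ IsPGroup 2 (MulAut F0) := fun h => hX (H20.isPGroup_of_centralizer_le F0 hFp h hCF)
    have huniq : ∀ x ∈ F0, ∀ y ∈ F0, orderOf x = 2 → orderOf y = 2 → x = y := by
      intro x hx y hy hox hoy
      have h1 : e ⟨x, hFT hx⟩ = e ⟨y, hFT hy⟩ := by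
        apply H18.quaternion_unique_involution
        · rw [MulEquiv.orderOf_eq, Subgroup.orderOf_mk, hox]
        · rw [MulEquiv.orderOf_eq, Subgroup.orderOf_mk, hoy]
      exact congrArg Subtype.val (e.injective h1)
    rcases H4.cyclic_or_quaternion hFp huniq with h | ⟨m, hm, ⟨e0⟩⟩
    · exact absurd (H20.isPGroup_mulAut_of_isCyclic hFp h) hna
    · have hm1 : m = 1 := by
        by_contra hne
        apply hna
        exact (quat_aut2 m (by omega)).of_equiv (MulAut.congr e0).symm
      subst hm1
      obtain ⟨hc, h⟩ := case_q8 F0 e0 (fun K hK hKp => H1.le_pCore hK hKp) hCF hX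
      refine ⟨centralizer (F0 : Set X), isCyclic_of_prime_card (p := 2) hc, IsPGroup.of_card (n := 1) (by rw [hc, pow_one]), ?_⟩
      rcases h with h | h
      · exact Or.inr (Or.inl h)
      · exact Or.inr (Or.inr h)

end Cfsg.Agent.H2.Six
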