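import Mathlib
import Cfsg.Agent.H2.QDF
import Cfsg.Agent.H28.QdFus
import Cfsg.Agent.H18.PSU3f

/-! Groups whose Sylow `p`-subgroups are TI do not involve `Qd(p)`; `SU₃(q)` has TI Sylow `p`-subgroups. -/

set_option autoImplicit false

namespace Cfsg.Agent.H2.TIQd

open Subgroup
open scoped Pointwise

theorem sylow_not_normal {p : ℕ} [hp : Fact p.Prime] (P : Sylow p (Cfsg.qdOver (ZMod p)))
    (hP : (P : Subgroup (Cfsg.qdOver (ZMod p))).Normal) : False := by
  classical
  obtain ⟨π, hπ⟩ := exists_projF (F := ZMod p)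
  have hs : Function.Surjective π := fun M => ⟨⟨affF M 0, affF_mem M 0⟩, hπ _ M 0 rfl⟩
  have h1 : ((P : Subgroup (Cfsg.qdOver (ZMod p))).map π).Normal := hP.map π hs
  have h2 : IsPGroup p ((P : Subgroup (Cfsg.qdOver (ZMod p))).map π) := P.2.map π
  have h3 := sl2_normal_pgroup p _ h1 h2
  have h4 : ((P.mapSurjective hs : Sylow p _) : Subgroup (Matrix.SpecialLinearGroup (Fin 2) (ZMod p))) = ⊥ := h3
  have h5 : ¬ p ∣ Nat.card (Matrix.SpecialLinearGroup (Fin 2) (ZMod p)) := by
    have := (P.mapSurjective hs).not_dvd_index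
    rwa [h4, index_bot] at this
  apply h5
  let t : Matrix.SpecialLinearGroup (Fin 2) (ZMod p) := ⟨!![1, 1; 0, 1], by simp [Matrix.det_fin_two]⟩
  have ht : ∀ n : ℕ, (t ^ n).1 = !![1, (n : ZMod p); 0, 1] := by
    intro n
    induction n with
    | zero => ext i j; fin_cases i <;> fin_cases j <;> simp
    | succ n ih =>
      rw [pow_succ, Matrix.SpecialLinearGroup.coe_mul, ih]
      ext i j; fin_cases i <;> fin_cases j <;> simp [t, Matrix.mul_apply, Fin.sum_univ_two] <;> ring
  have hto : orderOf t = p := by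
    apply orderOf_eq_prime
    · apply Subtype.ext
      rw [ht]
      ext i j; fin_cases i <;> fin_cases j <;> simp
    · intro h
      have := congrArg (fun M : Matrix.SpecialLinearGroup (Fin 2) (ZMod p) => M.1 0 1) h
      simp [t] at this
  have h6 : orderOf t ∣ Nat.card (Matrix.SpecialLinearGroup (Fin 2) (ZMod p)) := _root_.orderOf_dvd_natCard t
  rwa [hto] at h6

theorem exists_normal {p : ℕ} [hp : Fact p.Prime] :
    ∃ V : Subgroup (Cfsg.qdOver (ZMod p)), V.Normal ∧ IsPGroup p V ∧ V ≠ ⊥ := by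
  obtain ⟨π, hπ⟩ := exists_projF (F := ZMod p)
  refine ⟨π.ker, inferInstance, ?_, ?_⟩
  · rintro ⟨P, hP⟩
    refine ⟨1, ?_⟩
    obtain ⟨M, s, hM⟩ := (mem_qdOver_iff _).1 P.2
    have h1 : M = 1 := by
      rw [← hπ P M s hM]; exact hP
    subst h1
    have key : ∀ n : ℕ, (affF (1 : Matrix.SpecialLinearGroup (Fin 2) (ZMod p)) s) ^ n = affF 1 ((n : ZMod p) • s) := by
      intro n
      induction n with
      | zero => simp [affF_one]
      | succ n ih =>
        rw [pow_succ, ih, affF_mul]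
        congr 1
        · simp
        · simp [add_smul]
    apply Subtype.ext
    apply Subtype.ext
    rw [SubmonoidClass.coe_pow, SubmonoidClass.coe_pow, pow_one]
    change (P : Matrix.SpecialLinearGroup (Fin 3) (ZMod p)) ^ p = 1
    rw [hM, key]
    simp [affF_one]
  · intro h
    have h1 : (⟨affF 1 (fun _ => 1), affF_mem 1 _⟩ : Cfsg.qdOver (ZMod p)) ∈ π.ker :=
      hπ ⟨affF 1 (fun _ => 1), affF_mem 1 _⟩ 1 (fun _ => 1) rfl
    rw [h, mem_bot] at h1
    have h2 := congrArg Subtype.val h1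
    change affF 1 (fun _ => 1) = 1 at h2
    rw [← affF_one] at h2
    have h3 := congrFun (affF_injective h2).2 0
    simp at h3

theorem not_involves_of_TI {p : ℕ} [hp : Fact p.Prime] {Γ : Type*} [Group Γ] [Finite Γ]
    (hTI : ∀ P P' : Sylow p Γ, (P : Subgroup Γ) ⊓ P' ≠ ⊥ → P = P') :
    ¬ Cfsg.Involves (Cfsg.qdOver (ZMod p)) Γ := by
  classical
  rintro ⟨L, R, hR, ⟨e⟩⟩
  -- TI in L
  have hTL : ∀ P P' : Sylow p L, (P : Subgroup L) ⊓ P' ≠ ⊥ → P = P' := by
    intro P P' hne
    have hPm : IsPGroup p ((P : Subgroup L).map L.subtype) := P.2.map _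
    have hPm' : IsPGroup p ((P' : Subgroup L).map L.subtype) := P'.2.map _
    obtain ⟨S, hS⟩ := hPm.exists_le_sylow
    obtain ⟨S', hS'⟩ := hPm'.exists_le_sylow
    have hSS : S = S' := by
      apply hTI
      intro hb
      apply hne
      rw [eq_bot_iff]
      intro x hx
      have h1 : (x : Γ) ∈ (S : Subgroup Γ) ⊓ S' :=
        ⟨hS (mem_map_of_mem _ hx.1), hS' (mem_map_of_mem _ hx.2)⟩
      rw [hb, mem_bot] at h1
      rw [mem_bot]; exact Subtype.ext h1
    subst hSS
    have h2 : IsPGroup p ((S : Subgroup Γ).subgroupOf L) := S.2.comap_of_injective _ L.subtype_injective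
    have h3 : (P : Subgroup L) ≤ (S : Subgroup Γ).subgroupOf L := fun x hx => hS (mem_map_of_mem _ hx)
    have h3' : (P' : Subgroup L) ≤ (S : Subgroup Γ).subgroupOf L := fun x hx => hS' (mem_map_of_mem _ hx)
    apply Sylow.ext
    rw [← P.3 h2 h3, ← P'.3 h2 h3']
  -- the projection
  let φ : L →* Cfsg.qdOver (ZMod p) := e.toMonoidHom.comp (QuotientGroup.mk' (R.subgroupOf L))
  have hφ : Function.Surjective φ := e.surjective.comp (QuotientGroup.mk'_surjective _)
  obtain ⟨V, hVn, hVp, hV1⟩ := exists_normal (p := p)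
  set N : Subgroup L := V.comap φ with hN
  haveI hNn : N.Normal := hVn.comap φ
  obtain ⟨Q⟩ : Nonempty (Sylow p N) := inferInstance
  have hfr := Sylow.normalizer_sup_eq_top Q
  set Q' : Subgroup L := (Q : Subgroup N).map N.subtype with hQ'
  have hQ'p : IsPGroup p Q' := Q.2.map _
  have hQ'1 : Q' ≠ ⊥ := by
    intro h
    have h1 : (Q : Subgroup N) = ⊥ := by
      rw [eq_bot_iff]
      intro x hx
      have : (x : L) ∈ Q' := mem_map_of_mem _ hx
      rw [h, mem_bot] at this
      rw [mem_bot]; exact Subtype.ext this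
    have h2 : ¬ p ∣ Nat.card N := by
      have := Q.not_dvd_index
      rwa [h1, index_bot] at this
    obtain ⟨v, hv, hv1⟩ := (V.ne_bot_iff_exists_ne_one).1 hV1 |> fun ⟨v, hv⟩ => (⟨v.1, v.2, fun h => hv (Subtype.ext h)⟩ : ∃ v ∈ V, v ≠ 1)
    obtain ⟨x, rfl⟩ := hφ v
    apply h2
    obtain ⟨k, hk⟩ := hVp ⟨φ x, hv⟩
    have hk' : (φ x) ^ p ^ k = 1 := congrArg Subtype.val hk
    have h3 : orderOf (φ x) ∣ p ^ k := orderOf_dvd_of_pow_eq_one hk'
    have h4 : p ∣ orderOf (φ x) := by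
      obtain ⟨j, hj, hj'⟩ := (Nat.dvd_prime_pow hp.out).1 h3
      rcases j with _ | j
      · rw [pow_zero, orderOf_eq_one_iff] at hj'; exact absurd hj' hv1
      · rw [hj', pow_succ']; exact dvd_mul_right _ _
    have h5 : orderOf (φ x) ∣ orderOf x := orderOf_map_dvd φ x
    have hxN : x ∈ N := hv
    have h6 : orderOf (⟨x, hxN⟩ : N) ∣ Nat.card N := _root_.orderOf_dvd_natCard _
    rw [Subgroup.orderOf_mk] at h6
    exact (h4.trans h5).trans h6
  obtain ⟨P, hQP⟩ := hQ'p.exists_le_sylow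
  have hnorm : normalizer (Q' : Set L) ≤ normalizer ((P : Subgroup L) : Set L) := by
    intro g hg
    have h1 : g • P = P := by
      symm
      apply hTL
      intro hb
      apply hQ'1
      rw [eq_bot_iff, ← hb]
      refine le_inf hQP ?_
      intro x hx
      have h2 : g⁻¹ * x * g ∈ Q' := by
        have := (mem_normalizer_iff.1 ((normalizer (Q' : Set L)).inv_mem hg) x).1 hx
        simpa using this
      rw [Sylow.coe_subgroup_smul, mem_pointwise_smul_iff_inv_smul_mem]
      have h3 : (MulAut.conj g)⁻¹ • x = g⁻¹ * x * g := by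
        rw [← map_inv, MulAut.smul_def, MulAut.conj_apply, inv_inv]
      rw [h3]
      exact hQP h2
    rw [Sylow.smul_eq_iff_mem_normalizer] at h1
    exact h1
  have htop : normalizer ((P : Subgroup L) : Set L) ⊔ N = ⊤ := by
    rw [eq_top_iff, ← hfr]
    exact sup_le_sup_right hnorm N
  -- the image
  set Pb : Sylow p (Cfsg.qdOver (ZMod p)) := P.mapSurjective hφ with hPb
  apply sylow_not_normal Pb
  have hPm : (Pb : Subgroup (Cfsg.qdOver (ZMod p))) = (P : Subgroup L).map φ := rfl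
  have hVP : V ≤ Pb := by
    obtain ⟨S, hS⟩ := hVp.exists_le_sylow
    obtain ⟨g, hg⟩ := MulAction.exists_smul_eq (Cfsg.qdOver (ZMod p)) S Pb
    rw [← hg]
    intro v hv
    rw [Sylow.coe_subgroup_smul, mem_pointwise_smul_iff_inv_smul_mem]
    apply hS
    have h3 : (MulAut.conj g)⁻¹ • v = g⁻¹ * v * g⁻¹⁻¹ := by
      rw [← map_inv, MulAut.smul_def, MulAut.conj_apply]
    rw [h3]
    exact hVn.conj_mem v hv g⁻¹
  rw [← normalizer_eq_top_iff, eq_top_iff]
  have h7 : (⊤ : Subgroup (Cfsg.qdOver (ZMod p))) = (⊤ : Subgroup L).map φ := by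
    rw [← MonoidHom.range_eq_map, MonoidHom.range_eq_top.2 hφ]
  rw [h7, ← htop, Subgroup.map_sup]
  refine sup_le ?_ ?_
  · rintro _ ⟨g, hg, rfl⟩
    have h8 := mem_normalizer_iff.1 hg
    rw [mem_normalizer_iff]
    intro y
    obtain ⟨x, rfl⟩ := hφ y
    rw [hPm]
    constructor
    · rintro ⟨x', hx', hxx⟩
      refine ⟨g * x' * g⁻¹, (h8 x').1 hx', ?_⟩
      rw [map_mul, map_mul, map_inv, hxx]
    · rintro ⟨x', hx', hxx⟩
      refine ⟨g⁻¹ * x' * g, ?_, ?_⟩
      · apply (h8 _).2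
        have : g * (g⁻¹ * x' * g) * g⁻¹ = x' := by group
        rw [this]; exact hx'
      · rw [map_mul, map_mul, map_inv, hxx]; group
  · rintro _ ⟨g, hg, rfl⟩
    exact le_normalizer (hVP hg)

end Cfsg.Agent.H2.TIQd
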