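import Cfsg.Agent.S0088
import Cfsg.Agent.H2.Basic
import Cfsg.Agent.H23.Subnormal2
import Cfsg.Agent.H25.ClassProd
import Cfsg.Agent.H1.Chief
import Cfsg.Agent.H23.Nilp
set_option autoImplicit false

/-!
# Normal subgroups with two class sizes (library for S4135)
-/

namespace Cfsg.Agent.H2.TwoIdx

open Subgroup
open scoped Pointwise commutatorElement

universe u

variable {G : Type u} [Group G]

theorem mem_c {x g : G} : g ∈ centralizer ({x} : Set G) ↔ g * x = x * g := by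
  rw [mem_centralizer_singleton_iff]

theorem eq_of_index [Finite G] {A B : Subgroup G} (h : A ≤ B) (hi : A.index = B.index) : A = B := by
  have h1 := A.card_mul_index
  have h2 := B.card_mul_index
  rw [hi, ← h2] at h1
  exact Subgroup.eq_of_le_of_card_ge h (Nat.eq_of_mul_eq_mul_right
    (Nat.pos_of_ne_zero B.index_ne_zero_of_finite) h1).ge

/-- all non-central elements of `N` have class size `m` -/
def NM (N : Subgroup G) (m : ℕ) : Prop :=
  ∀ x ∈ N, x ∉ center G → (centralizer ({x} : Set G)).index = m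

theorem NM.eq_of_le [Finite G] {N : Subgroup G} {m : ℕ} (h : NM N m) {x y : G} (hx : x ∈ N)
    (hx' : x ∉ center G) (hy : y ∈ N) (hy' : y ∉ center G)
    (hle : centralizer ({x} : Set G) ≤ centralizer ({y} : Set G)) :
    centralizer ({x} : Set G) = centralizer ({y} : Set G) :=
  eq_of_index hle ((h x hx hx').trans (h y hy hy').symm)

theorem exists_pow_eq {x w : G} (hc : Commute x w) (hco : (orderOf w).Coprime (orderOf x)) :
    ∃ k : ℕ, (x * w) ^ k = x := by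
  obtain ⟨k, hk⟩ := exists_pow_eq_self_of_coprime hco
  refine ⟨orderOf w * k, ?_⟩
  rw [pow_mul, hc.mul_pow, pow_orderOf_eq_one, mul_one, hk]

theorem c_mul_le {x w : G} (hc : Commute x w) (hco : (orderOf w).Coprime (orderOf x)) :
    centralizer ({x * w} : Set G) ≤ centralizer ({x} : Set G) := by
  obtain ⟨k, hk⟩ := exists_pow_eq hc hco
  intro g hg
  rw [mem_c] at hg ⊢
  have h1 : Commute g (x * w) := hg
  have h2 := h1.pow_right k
  rw [hk] at h2
  exact h2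

theorem NM.eq_of_coprime [Finite G] {N : Subgroup G} {m : ℕ} (h : NM N m) {x w : G} (hx : x ∈ N)
    (hx' : x ∉ center G) (hw : w ∈ N) (hw' : w ∉ center G) (hc : Commute x w)
    (hco : (orderOf w).Coprime (orderOf x)) :
    centralizer ({x} : Set G) = centralizer ({w} : Set G) := by
  have h1 : x * w ∉ center G := by
    intro hz
    obtain ⟨k, hk⟩ := exists_pow_eq hc hco
    exact hx' (hk ▸ pow_mem hz k)
  have h2 := h.eq_of_le (mul_mem hx hw) h1 hx hx' (c_mul_le hc hco)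
  have h3 : centralizer ({x * w} : Set G) ≤ centralizer ({w} : Set G) := by
    rw [hc.eq]
    exact c_mul_le hc.symm hco.symm
  have h4 := h.eq_of_le (mul_mem hx hw) h1 hw hw' h3
  rw [← h2, h4]

theorem coprime_of_pow {p q : ℕ} (hp : p.Prime) (hq : q.Prime) (hne : p ≠ q) {x w : G} {a b : ℕ}
    (hx : x ^ (p ^ a) = 1) (hw : w ^ (q ^ b) = 1) : (orderOf x).Coprime (orderOf w) :=
  Nat.Coprime.of_dvd (orderOf_dvd_of_pow_eq_one hx) (orderOf_dvd_of_pow_eq_one hw)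
    (Nat.Coprime.pow _ _ ((Nat.coprime_primes hp hq).2 hne))

theorem le_of_primepow [Finite G] {D E : Subgroup G}
    (h : ∀ s : ℕ, s.Prime → ∀ w ∈ D, (∃ k : ℕ, w ^ (s ^ k) = 1) → w ∈ E) : D ≤ E := by
  by_contra hcon
  have h1 : (E.subgroupOf D).index ≠ 1 := by
    intro h1
    rw [index_eq_one, subgroupOf_eq_top] at h1
    exact hcon h1
  haveI : Fact (E.subgroupOf D).index.minFac.Prime := ⟨Nat.minFac_prime h1⟩
  obtain ⟨S⟩ : Nonempty (Sylow (E.subgroupOf D).index.minFac D) := inferInstance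
  have h2 : (S : Subgroup D) ≤ E.subgroupOf D := by
    intro u hu
    rw [mem_subgroupOf]
    obtain ⟨k, hk⟩ := S.2 ⟨u, hu⟩
    refine h _ (Nat.minFac_prime h1) _ u.2 ⟨k, ?_⟩
    have := congrArg (fun z : S => ((z : D) : G)) hk
    simpa using this
  exact S.not_dvd_index ((Nat.minFac_dvd _).trans (index_dvd_of_le h2))

theorem NM.exists_p [Finite G] {N : Subgroup G} {m : ℕ} (h : NM N m) {p : ℕ} [hp : Fact p.Prime]
    {x0 y : G} (hx : x0 ∈ N) (hx' : x0 ∉ center G) (hxp : ∃ k : ℕ, x0 ^ (p ^ k) = 1)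
    (hy : y ∈ N) (hy' : y ∉ center G) :
    ∃ x ∈ centralizer ({y} : Set G), x ∉ center G ∧ ∃ k : ℕ, x ^ (p ^ k) = 1 := by
  by_contra hcon
  push Not at hcon
  obtain ⟨S⟩ : Nonempty (Sylow p (centralizer ({y} : Set G))) := inferInstance
  set S' : Subgroup G := (S : Subgroup (centralizer ({y} : Set G))).map (centralizer ({y} : Set G)).subtype with hS'
  have h1 : S' ≤ center G := by
    rintro _ ⟨u, hu, rfl⟩
    by_contra hu'
    obtain ⟨k, hk⟩ := S.2 ⟨u, hu⟩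
    refine hcon _ u.2 hu' k ?_
    have := congrArg (fun z : S => ((z : centralizer ({y} : Set G)) : G)) hk
    simpa using this
  haveI : S'.Normal := ⟨fun a ha g => by
    rw [mem_center_iff.1 (h1 ha) g, mul_inv_cancel_right]; exact ha⟩
  have h2 : IsPGroup p S' := S.2.map _
  have h3 : IsPGroup p (zpowers x0) := by
    obtain ⟨k, hk⟩ := hxp
    obtain ⟨j, -, hj⟩ := (Nat.dvd_prime_pow hp.out).1 (orderOf_dvd_of_pow_eq_one hk)
    exact IsPGroup.of_card (n := j) (by rw [Nat.card_zpowers, hj])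
  have h4 : IsPGroup p (S' ⊔ zpowers x0 : Subgroup G) := h2.to_sup_of_normal_left h3
  have h5 : S' ⊔ zpowers x0 ≤ centralizer ({x0} : Set G) := by
    refine sup_le (fun a ha => ?_) (fun a ha => ?_)
    · rw [mem_c]
      exact (mem_center_iff.1 (h1 ha) x0).symm
    · rw [mem_c]
      obtain ⟨k, rfl⟩ := mem_zpowers_iff.1 ha
      exact ((Commute.refl x0).zpow_right k).eq.symm
  have h6 : Nat.card (centralizer ({x0} : Set G)) = Nat.card (centralizer ({y} : Set G)) := by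
    have e1 := (centralizer ({x0} : Set G)).card_mul_index
    have e2 := (centralizer ({y} : Set G)).card_mul_index
    rw [h x0 hx hx', ← e2, h y hy hy'] at e1
    have : m ≠ 0 := by
      rw [← h y hy hy']
      exact index_ne_zero_of_finite
    exact Nat.eq_of_mul_eq_mul_right (Nat.pos_of_ne_zero this) e1
  obtain ⟨n, hn⟩ := IsPGroup.iff_card.1 h4
  have h7 : p ^ n ∣ Nat.card (centralizer ({y} : Set G)) := by
    rw [← hn, ← h6]
    exact card_dvd_of_le h5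
  have h8 : Nat.card S' = p ^ (Nat.card (centralizer ({y} : Set G))).factorization p := by
    rw [hS', card_map_of_injective (subtype_injective _)]
    exact S.card_eq_multiplicity
  have h9 : n ≤ (Nat.card (centralizer ({y} : Set G))).factorization p :=
    (hp.out.pow_dvd_iff_le_factorization Nat.card_pos.ne').1 h7
  have h10 : S' = S' ⊔ zpowers x0 := by
    refine Subgroup.eq_of_le_of_card_ge le_sup_left ?_
    rw [hn, h8]
    exact Nat.pow_le_pow_right hp.out.pos h9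
  apply hx'
  apply h1
  rw [h10]
  exact mem_sup_right (mem_zpowers x0)

theorem sylow_central [Finite G] {s : ℕ} [hs : Fact s.Prime] (N : Subgroup G) [N.Normal]
    (h : ∀ w ∈ N, ¬ s ∣ (centralizer ({w} : Set G)).index) (Q : Sylow s G) :
    ∀ u ∈ (Q : Subgroup G), u ∈ N → ∀ w ∈ N, u * w = w * u := by
  obtain ⟨Q0, hQ0⟩ := Cfsg.Agent.H2.exists_sylow_of_normal Q N
  have key : centralizer ((Q0 : Subgroup N) : Set N) = ⊤ := by
    apply Cfsg.Agent.H25.eq_top_of_forall_conj_mem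
    intro w
    obtain ⟨T⟩ : Nonempty (Sylow s (centralizer ({(w : G)} : Set G))) := inferInstance
    have h1 : ¬ s ∣ ((T : Subgroup (centralizer ({(w : G)} : Set G))).map (centralizer ({(w : G)} : Set G)).subtype).index := by
      rw [index_map_subtype, hs.out.dvd_mul]
      rintro (h1 | h1)
      · exact T.not_dvd_index h1
      · exact h w w.2 h1
    have h2 : IsPGroup s ((T : Subgroup (centralizer ({(w : G)} : Set G))).map (centralizer ({(w : G)} : Set G)).subtype) := T.2.map _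
    obtain ⟨Q1, hQ1⟩ := Cfsg.Agent.H2.exists_sylow_eq_of_isPGroup_of_not_dvd_index h2 h1
    obtain ⟨Q2, hQ2⟩ := Cfsg.Agent.H2.exists_sylow_of_normal Q1 N
    obtain ⟨g, hg⟩ := MulAction.exists_smul_eq N Q2 Q0
    refine ⟨g, ?_⟩
    rw [mem_centralizer_iff]
    intro u hu
    have hu' : u ∈ Q0 := hu
    rw [← hg] at hu'
    have hu2 : g⁻¹ * u * g ∈ (Q2 : Subgroup N) := by
      have h3 : u ∈ MulAut.conj g • (Q2 : Subgroup N) := hu'
      rw [Subgroup.mem_pointwise_smul_iff_inv_smul_mem] at h3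
      simpa [MulAut.smul_def, ← map_inv] using h3
    rw [hQ2, mem_subgroupOf, hQ1] at hu2
    obtain ⟨v, -, hv⟩ := hu2
    have h4 := v.2
    rw [mem_c] at h4
    have h5 : (v : G) = ((g⁻¹ * u * g : N) : G) := hv
    rw [h5] at h4
    have h6 : (g⁻¹ * u * g) * w = w * (g⁻¹ * u * g) := Subtype.ext h4
    calc u * (g * w * g⁻¹) = g * ((g⁻¹ * u * g) * w) * g⁻¹ := by group
      _ = g * (w * (g⁻¹ * u * g)) * g⁻¹ := by rw [h6]
      _ = g * w * g⁻¹ * u := by group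
  intro u hu huN w hw
  have h1 : (⟨w, hw⟩ : N) ∈ centralizer ((Q0 : Subgroup N) : Set N) := by rw [key]; trivial
  rw [mem_centralizer_iff] at h1
  have h2 : (⟨u, huN⟩ : N) ∈ ((Q0 : Subgroup N) : Set N) := by
    show _ ∈ (Q0 : Subgroup N)
    rw [hQ0, mem_subgroupOf]
    exact hu
  exact congrArg Subtype.val (h1 _ h2)

/-- the `s`-part of a commutative subgroup -/
def sP (A : Subgroup G) (hA : ∀ a ∈ A, ∀ b ∈ A, a * b = b * a) (s : ℕ) : Subgroup G where
  carrier := {a | a ∈ A ∧ ∃ k : ℕ, a ^ (s ^ k) = 1}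
  one_mem' := ⟨one_mem _, 0, one_pow _⟩
  mul_mem' := by
    rintro a b ⟨ha, k, hk⟩ ⟨hb, j, hj⟩
    refine ⟨mul_mem ha hb, k + j, ?_⟩
    have hc : Commute a b := hA a ha b hb
    rw [hc.mul_pow, pow_add, pow_mul, hk, one_pow, one_mul, mul_comm (s ^ k), pow_mul, hj, one_pow]
  inv_mem' := by
    rintro a ⟨ha, k, hk⟩
    exact ⟨inv_mem ha, k, by rw [inv_pow, hk, inv_one]⟩

theorem mem_sP {A : Subgroup G} {hA : ∀ a ∈ A, ∀ b ∈ A, a * b = b * a} {s : ℕ} {a : G} :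
    a ∈ sP A hA s ↔ a ∈ A ∧ ∃ k : ℕ, a ^ (s ^ k) = 1 := Iff.rfl

theorem sP_isPGroup (A : Subgroup G) (hA : ∀ a ∈ A, ∀ b ∈ A, a * b = b * a) (s : ℕ) :
    IsPGroup s (sP A hA s) := by
  rintro ⟨a, ha, k, hk⟩
  exact ⟨k, Subtype.ext (by simpa using hk)⟩

theorem sP_conj {A : Subgroup G} {hA : ∀ a ∈ A, ∀ b ∈ A, a * b = b * a} {s : ℕ} {t a : G}
    (ht : ∀ a ∈ A, t * a * t⁻¹ ∈ A) (ha : a ∈ sP A hA s) : t * a * t⁻¹ ∈ sP A hA s := by
  obtain ⟨h1, k, hk⟩ := ha
  exact ⟨ht a h1, k, by rw [conj_pow, hk, mul_one, mul_inv_cancel]⟩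

/-- centralizer-closed abelian subgroup -/
structure Ctx (N A : Subgroup G) : Prop where
  le : A ≤ N
  comm : ∀ a ∈ A, ∀ b ∈ A, a * b = b * a
  self : ∀ a ∈ A, a ∉ center G → ∀ g ∈ N, g * a = a * g → g ∈ A

theorem mem_norm_of_conj [Finite G] {X : Subgroup G} {t : G} (h : ∀ x ∈ X, t * x * t⁻¹ ∈ X) :
    t ∈ normalizer (X : Set G) := by
  rw [mem_normalizer_iff_map_conj_eq]
  have h1 : X.map (MulAut.conj t).toMonoidHom ≤ X := by
    rintro _ ⟨x, hx, rfl⟩
    exact h x hx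
  exact Subgroup.eq_of_le_of_card_ge h1
    (by rw [card_map_of_injective (MulAut.conj t).injective])

theorem core [Finite G] {N A : Subgroup G} (c : Ctx N A) {s : ℕ} [hs : Fact s.Prime] {a0 : G}
    (ha0 : a0 ∈ A) (ha0' : a0 ∉ center G) (ha0s : ∃ k : ℕ, a0 ^ (s ^ k) = 1) (X : Subgroup G)
    (hXN : X ≤ N) (hAX : A ≤ X) (hXA : ∀ x ∈ X, ∀ a ∈ A, x * a * x⁻¹ ∈ A) {g : G} (hg : g ∈ X)
    (hgA : g ∉ A) (hXs : ∀ x ∈ X, (∃ k : ℕ, x ^ (s ^ k) = 1) → x ∈ A) (T : Subgroup G)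
    (hT : IsPGroup s T) (hTA : ∀ t ∈ T, ∀ a ∈ A, t * a * t⁻¹ ∈ A)
    (hTX : ∀ t ∈ T, ∀ x ∈ X, t * x * t⁻¹ ∈ X) :
    ∃ b ∈ A, b ∉ center G ∧ (∃ k : ℕ, b ^ (s ^ k) = 1) ∧ ∀ t ∈ T, t * b = b * t := by
  set R := sP A c.comm s with hR
  have hRp : IsPGroup s R := sP_isPGroup _ _ _
  have hRX : R ≤ X := fun a ha => hAX ha.1
  have hmax : ∀ {Q : Subgroup X}, IsPGroup s Q → R.subgroupOf X ≤ Q → Q = R.subgroupOf X := by
    intro Q hQ hle
    refine le_antisymm (fun u hu => ?_) hle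
    rw [mem_subgroupOf]
    obtain ⟨k, hk⟩ := hQ ⟨u, hu⟩
    have hk' : (u : G) ^ (s ^ k) = 1 := by
      have := congrArg (fun z : Q => ((z : X) : G)) hk
      simpa using this
    exact ⟨hXs _ u.2 ⟨k, hk'⟩, k, hk'⟩
  let P : Sylow s X := ⟨R.subgroupOf X, hRp.comap_subtype, hmax⟩
  have hco : Nat.Coprime (Nat.card (R.subgroupOf X)) (R.subgroupOf X).index := P.card_coprime_index
  have h88 := Cfsg.Agent.S0088.result (R.subgroupOf X) ⟨⟨fun a b => by
    apply Subtype.ext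
    apply Subtype.ext
    exact c.comm _ (mem_subgroupOf.1 a.2).1 _ (mem_subgroupOf.1 b.2).1⟩⟩ hco
  set K : Subgroup G := R ⊓ ⁅X, X⁆ with hK
  have hKz : ∀ k ∈ K, k ∈ center G → k = 1 := by
    intro k hk hkz
    have h1 : (⟨k, hRX hk.1⟩ : X) ∈ R.subgroupOf X ⊓ commutator X ⊓ center X := by
      refine ⟨⟨mem_subgroupOf.2 hk.1, ?_⟩, ?_⟩
      · have h2 : k ∈ ⁅X, X⁆ := hk.2
        rw [← map_subtype_commutator] at h2
        obtain ⟨v, hv, hvk⟩ := h2
        have : v = (⟨k, hRX hk.1⟩ : X) := Subtype.ext hvk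
        rw [← this]
        exact hv
      · show _ ∈ center X
        rw [mem_center_iff]
        intro u
        exact Subtype.ext (mem_center_iff.1 hkz u)
    rw [h88, mem_bot] at h1
    exact congrArg Subtype.val h1
  have hcK : ⁅g, a0⁆ ∈ K := by
    refine ⟨?_, commutator_mem_commutator hg (hAX ha0)⟩
    rw [commutatorElement_def]
    have e2 : a0 ∈ R := ⟨ha0, ha0s⟩
    exact R.mul_mem (sP_conj (hXA g hg) e2) (R.inv_mem e2)
  have hc1 : ⁅g, a0⁆ ≠ 1 := by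
    intro h1
    rw [commutatorElement_eq_one_iff_mul_comm] at h1
    exact hgA (c.self a0 ha0 ha0' g (hXN hg) h1)
  have hTK : T ≤ normalizer (K : Set G) := by
    intro t ht
    apply mem_norm_of_conj
    rintro k ⟨hk1, hk2⟩
    refine ⟨sP_conj (hTA t ht) hk1, ?_⟩
    have h1 : X.map (MulAut.conj t).toMonoidHom ≤ X := by
      rintro _ ⟨x, hx, rfl⟩
      exact hTX t ht x hx
    have h2 : t * k * t⁻¹ ∈ (⁅X, X⁆ : Subgroup G).map (MulAut.conj t).toMonoidHom := ⟨k, hk2, rfl⟩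
    rw [map_commutator] at h2
    exact commutator_mono h1 h1 h2
  by_contra hcon
  push Not at hcon
  have h5 : K ⊓ centralizer (T : Set G) = ⊥ := by
    rw [eq_bot_iff]
    rintro b ⟨hb1, hb2⟩
    by_contra hb3
    have h6 : b ∉ center G := fun hz => hb3 (mem_bot.2 (hKz b hb1 hz))
    obtain ⟨t, ht, hne⟩ := hcon b hb1.1.1 h6 hb1.1.2
    exact hne (mem_centralizer_iff.1 hb2 t ht)
  have h6 := Cfsg.Agent.H23.not_dvd_card_of_inf_centralizer_eq_bot hT hTK h5
  have h7 : IsPGroup s K := hRp.to_le inf_le_left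
  rcases h7.card_eq_or_dvd with h | h
  · rw [Subgroup.card_eq_one] at h
    rw [h, mem_bot] at hcK
    exact hc1 hcK
  · exact h6 h

theorem conj_of_norm {A : Subgroup G} {t : G} (ht : t ∈ normalizer (A : Set G)) :
    ∀ a ∈ A, t * a * t⁻¹ ∈ A := fun a ha => (mem_normalizer_iff.1 ht a).1 ha

theorem norm_A {N A : Subgroup G} [hN : N.Normal] (c : Ctx N A) {a0 t : G}
    (ha0' : a0 ∉ center G) (ha0 : a0 ∈ A) (ht : t⁻¹ * a0 * t ∈ A) : ∀ a ∈ A, t * a * t⁻¹ ∈ A := by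
  intro a ha
  refine c.self a0 ha0 ha0' _ (hN.conj_mem a (c.le ha) t) ?_
  have h1 := c.comm a ha _ ht
  calc t * a * t⁻¹ * a0 = t * (a * (t⁻¹ * a0 * t)) * t⁻¹ := by group
    _ = t * ((t⁻¹ * a0 * t) * a) * t⁻¹ := by rw [h1]
    _ = a0 * (t * a * t⁻¹) := by group

/-- there is an `s`-element of `N` outside `A` normalizing `A` -/
def U (N A : Subgroup G) (s : ℕ) : Prop :=
  ∃ u ∈ N, u ∉ A ∧ (∃ k : ℕ, u ^ (s ^ k) = 1) ∧ ∀ a ∈ A, u * a * u⁻¹ ∈ A

theorem exists_u_or [Finite G] {N A : Subgroup G} [hN : N.Normal] (c : Ctx N A) {s : ℕ}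
    [hs : Fact s.Prime] {a0 : G}
    (ha0 : a0 ∈ A) (ha0' : a0 ∉ center G) (ha0s : ∃ k : ℕ, a0 ^ (s ^ k) = 1) :
    U N A s ∨ ∃ Q : Sylow s G, (Q : Subgroup G) ⊓ N = sP A c.comm s := by
  obtain ⟨Q, hQ⟩ := (sP_isPGroup A c.comm s).exists_le_sylow
  have h1 : sP A c.comm s ≤ (Q : Subgroup G) ⊓ N := le_inf hQ (fun a ha => c.le ha.1)
  rcases h1.eq_or_lt with h2 | h2
  · exact Or.inr ⟨Q, h2.symm⟩
  · left
    obtain ⟨u, hu1, hu2, hu3⟩ := Cfsg.Agent.H2.exists_mem_normalizer_not_mem (Q.2.to_le inf_le_left) h2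
    have hus : ∃ k : ℕ, u ^ (s ^ k) = 1 := by
      obtain ⟨k, hk⟩ := Q.2 ⟨u, hu1.1⟩
      refine ⟨k, ?_⟩
      have := congrArg (fun z : Q => (z : G)) hk
      simpa using this
    refine ⟨u, hu1.2, fun h => hu3 ⟨h, hus⟩, hus, ?_⟩
    refine norm_A c ha0' ha0 ?_
    have h3 := conj_of_norm (inv_mem hu2) a0 ⟨ha0, ha0s⟩
    rw [inv_inv] at h3
    exact h3.1

theorem exists_u_p [Finite G] {N A : Subgroup G} [hN : N.Normal] (c : Ctx N A) {m : ℕ}
    (h : NM N m) {s : ℕ} [hs : Fact s.Prime] {a0 : G}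
    (ha0 : a0 ∈ A) (ha0' : a0 ∉ center G) (ha0s : ∃ k : ℕ, a0 ^ (s ^ k) = 1)
    (hm : s ∣ m) (hPN : ∀ Q : Sylow s G, (Q : Subgroup G) ≤ N) : U N A s := by
  rcases exists_u_or c ha0 ha0' ha0s with h1 | ⟨Q, hQ⟩
  · exact h1
  · exfalso
    rw [inf_eq_left.2 (hPN Q)] at hQ
    have h2 : (Q : Subgroup G) ≤ centralizer ({a0} : Set G) := by
      intro g hg
      rw [mem_c]
      rw [hQ] at hg
      exact c.comm g hg.1 a0 ha0
    have h3 := index_dvd_of_le h2
    rw [h a0 (c.le ha0) ha0'] at h3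
    exact Q.not_dvd_index (hm.trans h3)

theorem exists_u_q [Finite G] {N A : Subgroup G} [hN : N.Normal] (c : Ctx N A) {m : ℕ}
    (h : NM N m) {s : ℕ} [hs : Fact s.Prime] {a0 : G}
    (ha0 : a0 ∈ A) (ha0' : a0 ∉ center G) (ha0s : ∃ k : ℕ, a0 ^ (s ^ k) = 1)
    (hU : ∃ g ∈ N, g ∉ A ∧ ∀ a ∈ A, g * a * g⁻¹ ∈ A) : U N A s := by
  rcases exists_u_or c ha0 ha0' ha0s with h1 | ⟨Q, hQ⟩
  · exact h1
  obtain ⟨g, hgN, hgA, hgn⟩ := hU
  by_contra hcon
  have hXs : ∀ x ∈ N ⊓ normalizer (A : Set G), (∃ k : ℕ, x ^ (s ^ k) = 1) → x ∈ A := by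
    intro x hx hxs
    by_contra hxA
    exact hcon ⟨x, hx.1, hxA, hxs, conj_of_norm hx.2⟩
  have hQA : ∀ t ∈ (Q : Subgroup G), ∀ a ∈ A, t * a * t⁻¹ ∈ A := by
    intro t ht
    refine norm_A c ha0' ha0 ?_
    have h3 : t⁻¹ * a0 * t ∈ (Q : Subgroup G) ⊓ N := by
      have h4 : a0 ∈ (Q : Subgroup G) ⊓ N := by
        rw [hQ]
        exact ⟨ha0, ha0s⟩
      have e1 : t⁻¹ * a0 * t ∈ (Q : Subgroup G) := mul_mem (mul_mem (inv_mem ht) h4.1) ht
      refine ⟨e1, ?_⟩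
      have := hN.conj_mem a0 h4.2 t⁻¹
      rwa [inv_inv] at this
    rw [hQ] at h3
    exact h3.1
  have hQn : ∀ t ∈ (Q : Subgroup G), t ∈ normalizer (A : Set G) :=
    fun t ht => mem_norm_of_conj (hQA t ht)
  obtain ⟨b, hb1, hb2, hb3, hb4⟩ := core c ha0 ha0' ha0s (N ⊓ normalizer (A : Set G)) inf_le_left
    (le_inf c.le le_normalizer) (fun x hx => conj_of_norm hx.2) (g := g)
    ⟨hgN, mem_norm_of_conj hgn⟩ hgA hXs Q Q.2 hQA (by
      rintro t ht x ⟨hx1, hx2⟩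
      have e1 : t * x * t⁻¹ ∈ normalizer (A : Set G) :=
        mul_mem (mul_mem (hQn t ht) hx2) (inv_mem (hQn t ht))
      exact ⟨hN.conj_mem x hx1 t, e1⟩)
  have h5 : (Q : Subgroup G) ≤ centralizer ({b} : Set G) := fun t ht => mem_c.2 (hb4 t ht)
  have h6 : ¬ s ∣ m := by
    intro hd
    have := index_dvd_of_le h5
    rw [h b (c.le hb1) hb2] at this
    exact Q.not_dvd_index (hd.trans this)
  have h7 : ∀ w ∈ N, ¬ s ∣ (centralizer ({w} : Set G)).index := by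
    intro w hw
    by_cases hwz : w ∈ center G
    · have : centralizer ({w} : Set G) = ⊤ := by
        rw [eq_top_iff]
        intro g' _
        rw [mem_c]
        exact mem_center_iff.1 hwz g'
      rw [this, index_top]
      exact fun hd => hs.out.one_lt.ne' (Nat.dvd_one.1 hd)
    · rw [h w hw hwz]
      exact h6
  have h8 : b ∈ (Q : Subgroup G) ⊓ N := by
    rw [hQ]
    exact ⟨hb1, hb3⟩
  exact hgA (c.self b hb1 hb2 g hgN (sylow_central N h7 Q b h8.1 h8.2 g hgN).symm)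

theorem key [Finite G] {N A : Subgroup G} (c : Ctx N A) {s : ℕ}
    [hs : Fact s.Prime] {a0 : G}
    (ha0 : a0 ∈ A) (ha0' : a0 ∉ center G) (ha0s : ∃ k : ℕ, a0 ^ (s ^ k) = 1)
    {u : G} (huN : u ∈ N) (huA : u ∉ A) (hus : ∃ k : ℕ, u ^ (s ^ k) = 1)
    (hun : ∀ a ∈ A, u * a * u⁻¹ ∈ A) (X : Subgroup G)
    (hXN : X ≤ N) (hAX : A ≤ X) (hXA : ∀ x ∈ X, ∀ a ∈ A, x * a * x⁻¹ ∈ A) {g : G} (hg : g ∈ X)
    (hgA : g ∉ A) (hXs : ∀ x ∈ X, (∃ k : ℕ, x ^ (s ^ k) = 1) → x ∈ A)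
    (huX : ∀ x ∈ X, u * x * u⁻¹ ∈ X) : False := by
  have h1 : zpowers u ≤ normalizer (A : Set G) := zpowers_le.2 (mem_norm_of_conj hun)
  have h2 : zpowers u ≤ normalizer (X : Set G) := zpowers_le.2 (mem_norm_of_conj huX)
  have h3 : IsPGroup s (zpowers u) := by
    obtain ⟨k, hk⟩ := hus
    obtain ⟨j, -, hj⟩ := (Nat.dvd_prime_pow hs.out).1 (orderOf_dvd_of_pow_eq_one hk)
    exact IsPGroup.of_card (n := j) (by rw [Nat.card_zpowers, hj])
  obtain ⟨b, hb1, hb2, -, hb4⟩ := core c ha0 ha0' ha0s X hXN hAX hXA hg hgA hXs (zpowers u) h3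
    (fun t ht => conj_of_norm (h1 ht)) (fun t ht => conj_of_norm (h2 ht))
  exact huA (c.self b hb1 hb2 u huN (hb4 u (mem_zpowers u)))

theorem mem_of_coprime_pow {A : Subgroup G} {w : G} {a b : ℕ} (ha : w ^ a ∈ A) (hb : w ^ b ∈ A)
    (hab : a.Coprime b) : w ∈ A := by
  have h1 := Nat.gcd_eq_gcd_ab a b
  rw [hab.gcd_eq_one] at h1
  have h2 : w = (w ^ a) ^ (Nat.gcdA a b) * (w ^ b) ^ (Nat.gcdB a b) := by
    rw [← zpow_natCast, ← zpow_natCast, ← zpow_mul, ← zpow_mul, ← zpow_add, ← h1]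
    simp
  rw [h2]
  exact mul_mem (zpow_mem ha _) (zpow_mem hb _)

/-- data at a prime -/
def Dt (N A : Subgroup G) (s : ℕ) : Prop :=
  s.Prime ∧ (∃ a0 ∈ A, a0 ∉ center G ∧ ∃ k : ℕ, a0 ^ (s ^ k) = 1) ∧ U N A s

theorem key' [Finite G] {N A : Subgroup G} (c : Ctx N A) {s : ℕ} (hd : Dt N A s) (X : Subgroup G)
    (hXN : X ≤ N) (hAX : A ≤ X) (hXA : ∀ x ∈ X, ∀ a ∈ A, x * a * x⁻¹ ∈ A) {g : G} (hg : g ∈ X)
    (hgA : g ∉ A) (hXs : ∀ x ∈ X, (∃ k : ℕ, x ^ (s ^ k) = 1) → x ∈ A)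
    (huX : ∀ u ∈ N, (∀ a ∈ A, u * a * u⁻¹ ∈ A) → ∀ x ∈ X, u * x * u⁻¹ ∈ X) : False := by
  obtain ⟨hs, ⟨a0, ha0, ha0', ha0s⟩, u, huN, huA, hus, hun⟩ := hd
  haveI : Fact s.Prime := ⟨hs⟩
  exact key c ha0 ha0' ha0s huN huA hus hun X hXN hAX hXA hg hgA hXs (huX u huN hun)

theorem pow_conj_eq {w a z : G} (hz : z ∈ center G) (h : w * a * w⁻¹ = a * z) (n : ℕ) :
    w ^ n * a * (w ^ n)⁻¹ = a * z ^ n := by
  induction n with
  | zero => simp
  | succ n ih =>
    have h1 := mem_center_iff.1 (pow_mem hz n) w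
    calc w ^ (n + 1) * a * (w ^ (n + 1))⁻¹ = w * (w ^ n * a * (w ^ n)⁻¹) * w⁻¹ := by
          rw [pow_succ']; group
      _ = w * (a * z ^ n) * w⁻¹ := by rw [ih]
      _ = w * a * (z ^ n * w⁻¹) := by group
      _ = w * a * (w⁻¹ * z ^ n) := by
          rw [← mem_center_iff.1 (pow_mem hz n) w⁻¹]
      _ = (w * a * w⁻¹) * z ^ n := by group
      _ = a * z ^ (n + 1) := by rw [h, pow_succ', mul_assoc]

theorem faithful [Finite G] {N A : Subgroup G} (c : Ctx N A) {p q : ℕ} (hpq : p ≠ q)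
    (hp : Dt N A p) (hq : Dt N A q) {w : G} (hw : w ∈ N)
    (h : ∀ a ∈ A, ∃ z ∈ center G, w * a * w⁻¹ = a * z) : w ∈ A := by
  have h1 : ∀ s, Dt N A s → ∃ k : ℕ, w ^ (s ^ k) ∈ A := by
    rintro s ⟨hs, ⟨a0, ha0, ha0', k, hk⟩, -⟩
    obtain ⟨z, hz, he⟩ := h a0 ha0
    refine ⟨k, c.self a0 ha0 ha0' _ (pow_mem hw _) ?_⟩
    have h2 : z ^ (s ^ k) = 1 := by
      have h3 : (w * a0 * w⁻¹) ^ (s ^ k) = 1 := by rw [conj_pow, hk, mul_one, mul_inv_cancel]
      have hc : Commute a0 z := mem_center_iff.1 hz a0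
      rw [he, hc.mul_pow, hk, one_mul] at h3
      exact h3
    have h4 := pow_conj_eq hz he (s ^ k)
    rw [h2, mul_one, mul_inv_eq_iff_eq_mul] at h4
    exact h4
  obtain ⟨a, ha⟩ := h1 p hp
  obtain ⟨b, hb⟩ := h1 q hq
  exact mem_of_coprime_pow ha hb (Nat.Coprime.pow _ _ ((Nat.coprime_primes hp.1 hq.1).2 hpq))

theorem inverts [Finite G] {N A : Subgroup G} (c : Ctx N A) {t : G} (htN : t ∈ N) (htA : t ∉ A)
    (ht2 : t * t ∈ A) (htn : ∀ a ∈ A, t * a * t⁻¹ ∈ A) {a : G} (ha : a ∈ A) :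
    ∃ z ∈ center G, t * a * t⁻¹ = a⁻¹ * z := by
  refine ⟨a * (t * a * t⁻¹), ?_, by group⟩
  by_contra hz
  apply htA
  refine c.self _ (mul_mem ha (htn a ha)) hz t htN ?_
  have h1 := c.comm _ ht2 a ha
  have h2 := c.comm _ (htn a ha) a ha
  have h3 : t * (t * a * t⁻¹) = a * t := by
    calc t * (t * a * t⁻¹) = (t * t * a) * t⁻¹ := by group
      _ = (a * (t * t)) * t⁻¹ := by rw [h1]
      _ = a * t := by group
  calc t * (a * (t * a * t⁻¹)) = (t * a * t⁻¹) * (t * (t * a * t⁻¹)) := by group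
    _ = (t * a * t⁻¹) * (a * t) := by rw [h3]
    _ = ((t * a * t⁻¹) * a) * t := by group
    _ = (a * (t * a * t⁻¹)) * t := by rw [h2]

theorem even_case [Finite G] {N A : Subgroup G} (c : Ctx N A) {p q : ℕ} (hpq : p ≠ q)
    (hp : Dt N A p) (hq : Dt N A q) {t : G} (htN : t ∈ N) (htA : t ∉ A)
    (ht2 : t * t ∈ A) (htn : ∀ a ∈ A, t * a * t⁻¹ ∈ A) : False := by
  -- an odd prime
  obtain ⟨r, hr, hr2⟩ : ∃ r, Dt N A r ∧ r ≠ 2 := by
    by_cases h2 : p = 2
    · exact ⟨q, hq, fun h => hpq (h2.trans h.symm)⟩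
    · exact ⟨p, hp, h2⟩
  have htn' : t⁻¹ ∈ normalizer (A : Set G) := inv_mem (mem_norm_of_conj htn)
  have ht' : ∀ a ∈ A, t⁻¹ * a * t ∈ A := by
    intro a ha
    have := conj_of_norm htn' a ha
    rwa [inv_inv] at this
  have ht2' : t⁻¹ * t⁻¹ ∈ A := by
    rw [← mul_inv_rev]
    exact inv_mem ht2
  have hinv : ∀ a ∈ A, ∃ z ∈ center G, t⁻¹ * a * t = a⁻¹ * z := by
    intro a ha
    have := inverts c (inv_mem htN) (fun h => htA (by simpa using inv_mem h)) ht2'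
      (conj_of_norm htn') ha
    rwa [inv_inv] at this
  -- commutators with `t` are in `A`
  have hcomm : ∀ u ∈ N, (∀ a ∈ A, u * a * u⁻¹ ∈ A) → u * t⁻¹ * u⁻¹ * t ∈ A := by
    intro u hu hun
    apply faithful c hpq hp hq (mul_mem (mul_mem (mul_mem hu (inv_mem htN)) (inv_mem hu)) htN)
    intro a ha
    obtain ⟨z1, hz1, e1⟩ := inverts c htN htA ht2 htn ha
    have hz1A : z1 ∈ A := by
      have : z1 = a * (t * a * t⁻¹) := by rw [e1]; group
      rw [this]
      exact mul_mem ha (htn a ha)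
    have hu' : u⁻¹ * a⁻¹ * u ∈ A := by
      have h1 := conj_of_norm (inv_mem (mem_norm_of_conj hun)) a⁻¹ (inv_mem ha)
      rwa [inv_inv] at h1
    obtain ⟨z2, hz2, e2⟩ := hinv _ hu'
    refine ⟨z2 * z1, mul_mem hz2 hz1, ?_⟩
    have c1 := fun x => mem_center_iff.1 hz1 x
    have c2 := fun x => mem_center_iff.1 hz2 x
    calc u * t⁻¹ * u⁻¹ * t * a * (u * t⁻¹ * u⁻¹ * t)⁻¹
        = u * (t⁻¹ * (u⁻¹ * (t * a * t⁻¹) * u) * t) * u⁻¹ := by group
      _ = u * (t⁻¹ * (u⁻¹ * (a⁻¹ * z1) * u) * t) * u⁻¹ := by rw [e1]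
      _ = u * (t⁻¹ * (u⁻¹ * a⁻¹ * (z1 * u)) * t) * u⁻¹ := by group
      _ = u * (t⁻¹ * (u⁻¹ * a⁻¹ * (u * z1)) * t) * u⁻¹ := by rw [c1 u]
      _ = u * (t⁻¹ * (u⁻¹ * a⁻¹ * u) * (z1 * t)) * u⁻¹ := by group
      _ = u * (t⁻¹ * (u⁻¹ * a⁻¹ * u) * (t * z1)) * u⁻¹ := by rw [c1 t]
      _ = u * (t⁻¹ * (u⁻¹ * a⁻¹ * u) * t) * (z1 * u⁻¹) := by group
      _ = u * ((u⁻¹ * a⁻¹ * u)⁻¹ * z2) * (u⁻¹ * z1) := by rw [e2, c1 u⁻¹]
      _ = a * u * (z2 * u⁻¹) * z1 := by group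
      _ = a * u * (u⁻¹ * z2) * z1 := by rw [c2 u⁻¹]
      _ = a * (z2 * z1) := by group
  -- the subgroup `A⟨t⟩`
  let X : Subgroup G :=
    { carrier := {x | x ∈ N ∧ (x ∈ A ∨ x * t ∈ A)}
      one_mem' := ⟨one_mem _, Or.inl (one_mem _)⟩
      mul_mem' := by
        rintro x y ⟨hx, hx'⟩ ⟨hy, hy'⟩
        refine ⟨mul_mem hx hy, ?_⟩
        rcases hx' with hx' | hx' <;> rcases hy' with hy' | hy'
        · exact Or.inl (mul_mem hx' hy')
        · exact Or.inr (by rw [mul_assoc]; exact mul_mem hx' hy')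
        · right
          have : x * y * t = (x * t) * (t⁻¹ * y * t) := by group
          rw [this]
          exact mul_mem hx' (ht' y hy')
        · left
          have : x * y = (x * t) * (t⁻¹ * (y * t) * t) * (t⁻¹ * t⁻¹) := by group
          rw [this]
          exact mul_mem (mul_mem hx' (ht' _ hy')) ht2'
      inv_mem' := by
        rintro x ⟨hx, hx'⟩
        refine ⟨inv_mem hx, ?_⟩
        rcases hx' with hx' | hx'
        · exact Or.inl (inv_mem hx')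
        · right
          have : x⁻¹ * t = (t * (x * t)⁻¹ * t⁻¹) * (t * t) := by group
          rw [this]
          exact mul_mem (htn _ (inv_mem hx')) ht2 }
  have hXm : ∀ {x : G}, x ∈ X ↔ x ∈ N ∧ (x ∈ A ∨ x * t ∈ A) := Iff.rfl
  have hXA : ∀ x ∈ X, ∀ a ∈ A, x * a * x⁻¹ ∈ A := by
    intro x hx a ha
    rcases (hXm.1 hx).2 with hx' | hx'
    · exact mul_mem (mul_mem hx' ha) (inv_mem hx')
    · have : x * a * x⁻¹ = (x * t) * (t⁻¹ * a * t) * (x * t)⁻¹ := by group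
      rw [this]
      exact mul_mem (mul_mem hx' (ht' a ha)) (inv_mem hx')
  refine key' c hr X (fun x hx => (hXm.1 hx).1) (fun a ha => hXm.2 ⟨c.le ha, Or.inl ha⟩) hXA
    (g := t) (hXm.2 ⟨htN, Or.inr ht2⟩) htA ?_ ?_
  · rintro x hx ⟨k, hk⟩
    have h2 : x ^ 2 ∈ A := by
      rcases (hXm.1 hx).2 with hx' | hx'
      · exact pow_mem hx' 2
      · have : x ^ 2 = (x * t) * (t⁻¹ * (x * t) * t) * (t⁻¹ * t⁻¹) := by rw [pow_two]; group
        rw [this]
        exact mul_mem (mul_mem hx' (ht' _ hx')) ht2'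
    refine mem_of_coprime_pow h2 (b := r ^ k) (by rw [hk]; exact one_mem _) ?_
    exact (Nat.Coprime.pow_right k ((Nat.coprime_primes Nat.prime_two hr.1).2 hr2.symm))
  · intro u hu hun x hx
    refine hXm.2 ⟨mul_mem (mul_mem hu (hXm.1 hx).1) (inv_mem hu), ?_⟩
    rcases (hXm.1 hx).2 with hx' | hx'
    · exact Or.inl (hun x hx')
    · right
      have : u * x * u⁻¹ * t = (u * (x * t) * u⁻¹) * (u * t⁻¹ * u⁻¹ * t) := by group
      rw [this]
      exact mul_mem (hun _ hx') (hcomm u hu hun)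

theorem contra (hFT : ∀ (W : Type u) [Group W] [Finite W], Odd (Nat.card W) → Group.IsSolvable W)
    [Finite G] {N A : Subgroup G} [hN : N.Normal] (c : Ctx N A) {p q : ℕ} (hpq : p ≠ q)
    (hp : Dt N A p) (hq : Dt N A q) : False := by
  set M := N ⊓ normalizer (A : Set G) with hM
  have hAM : A ≤ M := le_inf c.le le_normalizer
  haveI : (A.subgroupOf M).Normal :=
    ⟨fun a ha m => by rw [mem_subgroupOf] at ha ⊢; exact conj_of_norm m.2.2 _ ha⟩
  by_cases h2 : 2 ∣ Nat.card (M ⧸ A.subgroupOf M)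
  · haveI : Fact (Nat.Prime 2) := ⟨Nat.prime_two⟩
    obtain ⟨w, hw⟩ := exists_prime_orderOf_dvd_card' (G := M ⧸ A.subgroupOf M) 2 h2
    obtain ⟨t, rfl⟩ := QuotientGroup.mk_surjective w
    have ht1 : (t : G) ∉ A := by
      intro h
      have : (QuotientGroup.mk t : M ⧸ A.subgroupOf M) = 1 :=
        (QuotientGroup.eq_one_iff t).2 (mem_subgroupOf.2 h)
      rw [this, orderOf_one] at hw
      norm_num at hw
    have ht2 : (t : G) * t ∈ A := by
      have : (QuotientGroup.mk (t * t) : M ⧸ A.subgroupOf M) = 1 := by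
        rw [QuotientGroup.mk_mul, ← pow_two, ← hw, pow_orderOf_eq_one]
      exact mem_subgroupOf.1 ((QuotientGroup.eq_one_iff (t * t)).1 this)
    exact even_case c hpq hp hq t.2.1 ht1 ht2 (conj_of_norm t.2.2)
  · have hodd : Odd (Nat.card (M ⧸ A.subgroupOf M)) :=
      Nat.not_even_iff_odd.1 (fun h => h2 h.two_dvd)
    have hsolv := hFT _ hodd
    have hne : (⊤ : Subgroup (M ⧸ A.subgroupOf M)) ≠ ⊥ := by
      obtain ⟨u, huN, huA, -, hun⟩ := hp.2.2
      intro h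
      have hu : (QuotientGroup.mk (⟨u, huN, mem_norm_of_conj hun⟩ : M) : M ⧸ A.subgroupOf M) ∈
          (⊥ : Subgroup (M ⧸ A.subgroupOf M)) := by
        rw [← h]
        trivial
      rw [mem_bot, QuotientGroup.eq_one_iff, mem_subgroupOf] at hu
      exact huA hu
    obtain ⟨D, hD, hD1, -, hDmin⟩ := Cfsg.Agent.H1.exists_minimal_normal_le
      (inferInstance : (⊤ : Subgroup (M ⧸ A.subgroupOf M)).Normal) hne
    obtain ⟨-, l, hl, hDp, -⟩ := Cfsg.Agent.H1.minimal_normal_solvable hD hD1 hDmin inferInstance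
    obtain ⟨r, hr, hrl⟩ : ∃ r, Dt N A r ∧ r ≠ l := by
      by_cases h : p = l
      · exact ⟨q, hq, fun h' => hpq (h.trans h'.symm)⟩
      · exact ⟨p, hp, h⟩
    set X : Subgroup G := (D.comap (QuotientGroup.mk' (A.subgroupOf M))).map M.subtype with hX
    have hXm : ∀ {x : G}, x ∈ X ↔
        ∃ h : x ∈ M, (QuotientGroup.mk (⟨x, h⟩ : M) : M ⧸ A.subgroupOf M) ∈ D := by
      intro x
      constructor
      · rintro ⟨v, hv, rfl⟩
        exact ⟨v.2, hv⟩
      · rintro ⟨h, hh⟩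
        exact ⟨⟨x, h⟩, hh, rfl⟩
    obtain ⟨d, hdD, hd1⟩ := (Subgroup.ne_bot_iff_exists_ne_one.1 hD1 : ∃ a : D, a ≠ 1) |>.elim
      (fun a ha => (⟨a, a.2, fun h => ha (Subtype.ext h)⟩ :
        ∃ d : M ⧸ A.subgroupOf M, d ∈ D ∧ d ≠ 1))
    obtain ⟨g, rfl⟩ := QuotientGroup.mk_surjective d
    refine key' c hr X (fun x hx => (hXm.1 hx).1.1) ?_ ?_ (g := (g : G)) (hXm.2 ⟨g.2, hdD⟩) ?_ ?_ ?_
    · intro a ha
      refine hXm.2 ⟨hAM ha, ?_⟩
      have : (QuotientGroup.mk (⟨a, hAM ha⟩ : M) : M ⧸ A.subgroupOf M) = 1 :=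
        (QuotientGroup.eq_one_iff _).2 (mem_subgroupOf.2 ha)
      rw [this]
      exact one_mem _
    · intro x hx
      exact conj_of_norm (hXm.1 hx).1.2
    · intro hgA
      exact hd1 ((QuotientGroup.eq_one_iff _).2 (mem_subgroupOf.2 hgA))
    · rintro x hx ⟨k, hk⟩
      obtain ⟨hxM, hxD⟩ := hXm.1 hx
      obtain ⟨j, hj⟩ := hDp ⟨_, hxD⟩
      have hj' : (QuotientGroup.mk (⟨x, hxM⟩ : M) : M ⧸ A.subgroupOf M) ^ (l ^ j) = 1 := by
        have := congrArg Subtype.val hj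
        simpa using this
      rw [← QuotientGroup.mk_pow, QuotientGroup.eq_one_iff, mem_subgroupOf] at hj'
      have hj2 : x ^ (l ^ j) ∈ A := hj'
      exact mem_of_coprime_pow hj2 (b := r ^ k) (by rw [hk]; exact one_mem _)
        (Nat.Coprime.pow _ _ ((Nat.coprime_primes hl hr.1).2 hrl.symm))
    · intro u hu hun x hx
      obtain ⟨hxM, hxD⟩ := hXm.1 hx
      have huM : u ∈ M := ⟨hu, mem_norm_of_conj hun⟩
      refine hXm.2 ⟨mul_mem (mul_mem huM hxM) (inv_mem huM), ?_⟩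
      have := hD.conj_mem _ hxD (QuotientGroup.mk (⟨u, huM⟩ : M))
      exact this

theorem exists_pow_of_zpowers {p : ℕ} {x : G} (h : IsPGroup p (zpowers x)) :
    ∃ k : ℕ, x ^ (p ^ k) = 1 := by
  obtain ⟨k, hk⟩ := h ⟨x, mem_zpowers x⟩
  refine ⟨k, ?_⟩
  have := congrArg (fun z : zpowers x => (z : G)) hk
  simpa using this

theorem mem_sylow_of_pow [Finite G] {p : ℕ} [hp : Fact p.Prime] {x : G} (h : ∃ k : ℕ, x ^ (p ^ k) = 1) :
    ∃ Q : Sylow p G, x ∈ (Q : Subgroup G) := by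
  have h3 : IsPGroup p (zpowers x) := by
    obtain ⟨k, hk⟩ := h
    obtain ⟨j, -, hj⟩ := (Nat.dvd_prime_pow hp.out).1 (orderOf_dvd_of_pow_eq_one hk)
    exact IsPGroup.of_card (n := j) (by rw [Nat.card_zpowers, hj])
  obtain ⟨Q, hQ⟩ := h3.exists_le_sylow
  exact ⟨Q, hQ (mem_zpowers x)⟩

theorem main (hFT : ∀ (W : Type u) [Group W] [Finite W], Odd (Nat.card W) → Group.IsSolvable W)
    [Finite G] (p : ℕ) [hp : Fact p.Prime] (R : Sylow p G)
    (hR : ¬ (R : Subgroup G) ≤ center G) (N : Subgroup G) [hN : N.Normal]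
    (hRN : (R : Subgroup G) ≤ N) (m : ℕ) (h : NM N m) : Group.IsNilpotent N := by
  obtain ⟨x0, hx0R, hx0⟩ := SetLike.not_le_iff_exists.1 hR
  have hx0p : ∃ k : ℕ, x0 ^ (p ^ k) = 1 := by
    obtain ⟨k, hk⟩ := R.2 ⟨x0, hx0R⟩
    refine ⟨k, ?_⟩
    have := congrArg (fun z : R => (z : G)) hk
    simpa using this
  have hx0N := hRN hx0R
  have hQN : ∀ Q : Sylow p G, (Q : Subgroup G) ≤ N := by
    intro Q
    obtain ⟨g, hg⟩ := MulAction.exists_smul_eq G R Q
    rw [← hg]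
    intro x hx
    have hx' : x ∈ MulAut.conj g • (R : Subgroup G) := hx
    rw [Subgroup.mem_pointwise_smul_iff_inv_smul_mem] at hx'
    have h2 : g⁻¹ * x * g ∈ (R : Subgroup G) := by
      simpa [MulAut.smul_def, ← map_inv] using hx'
    have h3 := hN.conj_mem _ (hRN h2) g
    have : g * (g⁻¹ * x * g) * g⁻¹ = x := by group
    rwa [this] at h3
  by_cases hpm : p ∣ m
  · by_cases hq : ∃ q : ℕ, q.Prime ∧ q ≠ p ∧ ∃ y ∈ N, y ∉ center G ∧ ∃ k : ℕ, y ^ (q ^ k) = 1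
    · exfalso
      obtain ⟨q, hq, hqp, y, hy, hy', k, hk⟩ := hq
      haveI : Fact q.Prime := ⟨hq⟩
      obtain ⟨x, hxy, hx', j, hj⟩ := h.exists_p hx0N hx0 hx0p hy hy'
      have hxN : x ∈ N := by
        obtain ⟨Q, hQ⟩ := mem_sylow_of_pow (p := p) ⟨j, hj⟩
        exact hQN Q hQ
      have hxy' : Commute x y := mem_c.1 hxy
      have hCxy := h.eq_of_coprime hxN hx' hy hy' hxy' (coprime_of_pow hq hp.out hqp hk hj)
      have hle : centralizer ({y} : Set G) ⊓ N ≤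
          centralizer ((centralizer ({y} : Set G) : Subgroup G) : Set G) := by
        apply le_of_primepow
        rintro s hs w ⟨hw1, hw2⟩ ⟨i, hi⟩
        suffices hsuff : centralizer ({y} : Set G) ≤ centralizer ({w} : Set G) by
          rw [mem_centralizer_iff]
          intro v hv
          exact mem_c.1 (hsuff hv)
        by_cases hwz : w ∈ center G
        · intro v _
          rw [mem_c]
          exact mem_center_iff.1 hwz v
        · by_cases hsp : s = p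
          · subst hsp
            exact (h.eq_of_coprime hy hy' hw2 hwz (mem_c.1 hw1 : Commute w y).symm
              (coprime_of_pow hs hq hqp.symm hi hk)).le
          · rw [← hCxy] at hw1 ⊢
            exact (h.eq_of_coprime hxN hx' hw2 hwz (mem_c.1 hw1 : Commute w x).symm
              (coprime_of_pow hs hp.out hsp hi hj)).le
      have hle' : ∀ w ∈ centralizer ({y} : Set G) ⊓ N,
          centralizer ({y} : Set G) ≤ centralizer ({w} : Set G) := by
        intro w hw v hv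
        rw [mem_c]
        exact mem_centralizer_iff.1 (hle hw) v hv
      have c : Ctx N (centralizer ({y} : Set G) ⊓ N) :=
        { le := inf_le_right
          comm := fun a ha b hb => mem_c.1 (hle' b hb ha.1)
          self := by
            intro a ha ha' g hg hga
            refine ⟨?_, hg⟩
            rw [h.eq_of_le hy hy' ha.2 ha' (hle' a ha)]
            exact mem_c.2 hga }
      have hxA : x ∈ centralizer ({y} : Set G) ⊓ N := ⟨hxy, hxN⟩
      have hyA : y ∈ centralizer ({y} : Set G) ⊓ N := ⟨mem_c.2 rfl, hy⟩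
      have hUp := exists_u_p c h hxA hx' ⟨j, hj⟩ hpm hQN
      have hUq := exists_u_q c h hyA hy' ⟨k, hk⟩ (by
        obtain ⟨u, hu1, hu2, -, hu3⟩ := hUp
        exact ⟨u, hu1, hu2, hu3⟩)
      exact contra hFT c hqp.symm ⟨hp.out, ⟨x, hxA, hx', j, hj⟩, hUp⟩ ⟨hq, ⟨y, hyA, hy', k, hk⟩, hUq⟩
    · apply Cfsg.Agent.H23.isNilpotent_of_commute
      intro s s' hs hs' hne x y hx hy
      obtain ⟨a, ha⟩ := exists_pow_of_zpowers hx
      obtain ⟨b, hb⟩ := exists_pow_of_zpowers hy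
      have key1 : ∀ (r : ℕ) (w : N), r.Prime → r ≠ p → (∃ k : ℕ, w ^ (r ^ k) = 1) →
          (w : G) ∈ center G := by
        rintro r w hr hrp ⟨k, hk⟩
        by_contra hw
        exact hq ⟨r, hr, hrp, w, w.2, hw, k, by
          have := congrArg Subtype.val hk
          simpa using this⟩
      by_cases hsp : s = p
      · have h1 := key1 s' y hs'.out (fun h => hne (hsp.trans h.symm)) ⟨b, hb⟩
        exact Subtype.ext (mem_center_iff.1 h1 x)
      · have h1 := key1 s x hs.out hsp ⟨a, ha⟩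
        exact Subtype.ext (mem_center_iff.1 h1 y).symm
  · have hnd : ∀ w ∈ N, ¬ p ∣ (centralizer ({w} : Set G)).index := by
      intro w hw
      by_cases hwz : w ∈ center G
      · have : centralizer ({w} : Set G) = ⊤ := by
          rw [eq_top_iff]
          intro g' _
          rw [mem_c]
          exact mem_center_iff.1 hwz g'
        rw [this, index_top]
        exact fun hd => hp.out.one_lt.ne' (Nat.dvd_one.1 hd)
      · rw [h w hw hwz]
        exact hpm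
    have hle : N ≤ centralizer (N : Set G) := by
      apply le_of_primepow
      rintro s hs w hw ⟨k, hk⟩
      haveI : Fact s.Prime := ⟨hs⟩
      rw [mem_centralizer_iff]
      intro v hv
      by_cases hsp : s = p
      · subst hsp
        obtain ⟨Q, hQ⟩ := mem_sylow_of_pow (p := s) ⟨k, hk⟩
        exact (sylow_central N hnd Q w hQ hw v hv).symm
      · by_cases hwz : w ∈ center G
        · exact mem_center_iff.1 hwz v
        · obtain ⟨j, hj⟩ := hx0p
          have h1 := h.eq_of_coprime hx0N hx0 hw hwz (sylow_central N hnd R x0 hx0R hx0N w hw)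
            (coprime_of_pow hs hp.out hsp hk hj)
          have h2 : v ∈ centralizer ({x0} : Set G) :=
            mem_c.2 (sylow_central N hnd R x0 hx0R hx0N v hv).symm
          rw [h1] at h2
          exact mem_c.1 h2
    apply Cfsg.Agent.H23.isNilpotent_of_commute
    intro s s' hs hs' hne x y hx hy
    exact Subtype.ext (mem_centralizer_iff.1 (hle y.2) x x.2)

/-- S4135 modulo the odd order theorem -/
theorem result' (hFT : ∀ (W : Type u) [Group W] [Finite W], Odd (Nat.card W) → Group.IsSolvable W)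
    [Finite G] (r : ℕ) [Fact r.Prime]
    (R : Sylow r G) (hR : ¬ (R : Subgroup G) ≤ Subgroup.center G) (N : Subgroup G) [N.Normal] (hRN : (R : Subgroup G) ≤ N)
    (m : ℕ) (h : ∀ x ∈ N, (Subgroup.centralizer ({x} : Set G)).index = 1 ∨ (Subgroup.centralizer ({x} : Set G)).index = m) : Group.IsNilpotent N := by
  refine main hFT r R hR N hRN m ?_
  intro x hx hxz
  rcases h x hx with h1 | h1
  · exfalso
    rw [Subgroup.index_eq_one] at h1
    apply hxz
    rw [Subgroup.mem_center_iff]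
    intro g
    have : g ∈ Subgroup.centralizer ({x} : Set G) := by rw [h1]; trivial
    exact mem_c.1 this
  · exact h1

end Cfsg.Agent.H2.TwoIdx
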